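import Mathlib
import Cfsg.Agent.Class.FormBasis

/-! (S4780, captain helper13). The Chevalley–Warning bound for semi-extraspecial groups. -/

set_option autoImplicit false

namespace Cfsg.Agent.NDA

/-- The determinant of an alternating matrix over a field is a square.
Proof: if `det = 0` trivial. Else the form `Matrix.toBilin' A` is alternating and nondegenerate,
`Class.exists_symplectic_basis` gives a basis `b`; with `M` the matrix of `b` (reindex along an
equivalence `Fin m ⊕ Fin m ≃ ι`), `Mᵀ A M = fromBlocks 0 1 (-1) 0 = -J`/`J`, whose determinant is `1`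
(`Matrix.SymplecticGroup.J`, `Matrix.J_det_mul_J_det` only gives `±1`; use
`fromBlocks 0 1 (-1) 0 = fromBlocks 1 0 (-1) 1 * fromBlocks 1 1 0 1 * fromBlocks 1 0 (-1) 1`,
`det_fromBlocks_zero₁₂/₂₁`), so `det A = (det M)⁻¹ ^ 2`. -/
theorem det_alt {K ι : Type*} [Field K] [Fintype ι] [DecidableEq ι] (A : Matrix ι ι K)
    (h0 : ∀ i, A i i = 0) (h : ∀ i j, A j i = -A i j) : IsSquare A.det := by
  by_cases hd : A.det = 0
  · exact hd ▸ IsSquare.zero
  obtain ⟨m, b, -, h1, h2, h3⟩ := Class.exists_symplectic_basis (Matrix.toBilin' A) (fun x => by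
      rw [Matrix.toBilin'_apply, ← Finset.sum_product']
      refine Finset.sum_involution (fun p _ => p.swap) (fun p _ => ?_) (fun p _ n e => n ?_) (fun _ _ => by simp) fun _ _ => rfl
      · rw [Prod.fst_swap, Prod.snd_swap, h p.1]; ring
      · rw [show p.1 = p.2 from (congrArg Prod.fst e).symm, h0, mul_zero, zero_mul])
    fun x hx => (Matrix.nondegenerate_of_det_ne_zero hd).eq_zero_of_ortho fun y => (Matrix.toBilin'_apply' A x y).symm.trans (hx y)
  have sk : ∀ x y, Matrix.toBilin' A y x = -Matrix.toBilin' A x y := fun x y => by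
    rw [Matrix.toBilin'_apply, Matrix.toBilin'_apply, Finset.sum_comm, ← Finset.sum_neg_distrib]
    refine Finset.sum_congr rfl fun i _ => ?_
    rw [← Finset.sum_neg_distrib]
    exact Finset.sum_congr rfl fun j _ => by rw [h i j]; ring
  let σ := (Pi.basisFun K ι).indexEquiv b
  let M : Matrix ι ι K := fun i j => b (σ j) i
  have e : M.transpose * A * M = (Matrix.fromBlocks 0 1 (-1) 0).submatrix σ σ := by
    ext i j
    have : (M.transpose * A * M) i j = Matrix.toBilin' A (b (σ i)) (b (σ j)) := by
      rw [Matrix.toBilin'_apply', Matrix.mul_assoc]; rfl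
    rw [this, Matrix.submatrix_apply]
    rcases σ i with i | i <;> rcases σ j with j | j
    · simp [h2]
    · simp [h1, Matrix.one_apply]
    · rw [sk, h1]; simp [Matrix.one_apply, eq_comm]
    · simp [h3]
  have d := congrArg Matrix.det e
  rw [Matrix.det_submatrix_equiv_self, show (Matrix.fromBlocks 0 1 (-1) 0 : Matrix (Fin m ⊕ Fin m) _ K) =
    Matrix.fromBlocks 1 0 (-1) 1 * Matrix.fromBlocks 1 1 0 1 * Matrix.fromBlocks 1 0 (-1) 1 by
      simp [Matrix.fromBlocks_multiply], Matrix.det_mul, Matrix.det_mul, Matrix.det_mul, Matrix.det_mul, Matrix.det_transpose,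
    Matrix.det_fromBlocks_zero₁₂, Matrix.det_fromBlocks_zero₂₁, Matrix.det_one, mul_one, mul_one, mul_one] at d
  have n : M.det ≠ 0 := fun k => by simp [k] at d
  exact ⟨M.det⁻¹, by field_simp; linear_combination d⟩

theorem cw_aux (p : ℕ) [hp : Fact p.Prime] {V W : Type*} [AddCommGroup V] [AddCommGroup W] [Finite V] [Finite W] [Nontrivial V]
    [Nontrivial W] [Module (ZMod p) V] [Module (ZMod p) W] (br : V →+ V →+ W) (alt : ∀ x, br x x = 0)
    (s1 : ∀ x, x ≠ 0 → Function.Surjective (br x)) : Nat.card W ^ 2 ≤ Nat.card V := by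
  have e := Module.finBasis (ZMod p) V
  have c := Module.finBasis (ZMod p) W
  rw [Module.natCard_eq_pow_finrank (K := ZMod p) (V := V), Module.natCard_eq_pow_finrank (K := ZMod p) (V := W), ← pow_mul]
  refine Nat.pow_le_pow_right Nat.card_pos ?_
  have n0 : 0 < Module.finrank (ZMod p) V := Module.finrank_pos
  generalize Module.finrank (ZMod p) V = n at e n0
  generalize Module.finrank (ZMod p) W = l at c
  let L : V →ₗ[ZMod p] V →ₗ[ZMod p] W := ((AddMonoidHom.toZModLinearMapEquiv p).toAddMonoidHom.comp br).toZModLinearMap p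
  let B : Matrix (Fin n) (Fin n) (MvPolynomial (Fin l) (ZMod p)) := Matrix.of fun i j =>
    ∑ k, MvPolynomial.C (c.repr (br (e i) (e j)) k) * MvPolynomial.X k
  have sk : ∀ x y, br y x = -br x y := fun x y => by
    have := alt (x + y)
    simp only [map_add, AddMonoidHom.add_apply, alt, zero_add, add_zero] at this
    exact eq_neg_of_add_eq_zero_left this
  obtain ⟨r, hr⟩ := det_alt ((algebraMap _ (FractionRing (MvPolynomial (Fin l) (ZMod p)))).mapMatrix B)
    (fun i => by simp [B, alt]) fun i j => by simp [B, sk (e i) (e j)]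
  rw [← RingHom.map_det, ← pow_two] at hr
  obtain ⟨P, rfl⟩ := IsIntegrallyClosed.exists_algebraMap_eq_of_isIntegral_pow two_pos (hr ▸ isIntegral_algebraMap)
  rw [← map_pow, (IsFractionRing.injective _ _).eq_iff, pow_two] at hr
  have ev : ∀ a, MvPolynomial.eval a P = 0 ↔ a = 0 := fun a => by
    have k : (MvPolynomial.eval a).mapMatrix B = LinearMap.BilinForm.toMatrix e (L.compr₂ (∑ k, a k • c.coord k)) := by
      ext i j; simp [B, L, mul_comm]; rfl
    rw [← mul_self_eq_zero, ← map_mul, ← hr, RingHom.map_det, k, ← not_iff_not]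
    refine (LinearMap.BilinForm.nondegenerate_iff_det_ne_zero e).symm.trans ⟨?_, fun a0 => ?_⟩
    · rintro k rfl
      exact e.ne_zero ⟨0, n0⟩ (k.1 _ fun y => by simp)
    · have k : ∀ x, (∀ y, (∑ k, a k • c.coord k) (br x y) = 0) → x = 0 := fun x hx => by_contra fun x0 => a0 (funext fun i => by
        obtain ⟨y, hy⟩ := s1 x x0 (c i)
        simpa [hy, Finsupp.single_apply] using hx y)
      exact ⟨k, fun y hy => k y fun x => by rw [sk, map_neg, neg_eq_zero]; exact hy x⟩
  have P0 : P ≠ 0 := fun k => by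
    obtain ⟨i⟩ := c.index_nonempty
    exact one_ne_zero (congrFun ((ev 1).1 (by rw [k, map_zero])) i)
  have d : B.det.totalDegree ≤ n := by
    rw [Matrix.det_apply]
    refine MvPolynomial.totalDegree_finsetSum_le fun σ _ => ?_
    rw [Units.smul_def, zsmul_eq_mul, ← map_intCast (MvPolynomial.C (σ := Fin l) (R := ZMod p)), ← MvPolynomial.smul_eq_C_mul]
    refine (MvPolynomial.totalDegree_smul_le _ _).trans ((MvPolynomial.totalDegree_finsetProd _ _).trans
      ((Finset.sum_le_card_nsmul _ _ 1 fun i _ => ?_).trans (by simp)))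
    simp only [B, Matrix.of_apply]
    refine MvPolynomial.totalDegree_finsetSum_le fun k _ => ?_
    rw [← MvPolynomial.smul_eq_C_mul]
    exact (MvPolynomial.totalDegree_smul_le _ _).trans (MvPolynomial.totalDegree_X k).le
  rw [hr, MvPolynomial.totalDegree_mul_of_isDomain P0 P0] at d
  by_contra! k
  have := char_dvd_card_solutions p (f := P) (by rw [Fintype.card_fin]; omega)
  simp only [ev, Fintype.card_unique] at this
  exact hp.out.not_dvd_one this

/-- `|W|² ≤ |V|` if every `br x` (`x ≠ 0`) of an alternating biadditive map is onto.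
Proof: `W` trivial: clear. Else take a prime `p ∣ |W|`; `p • ·` is not injective (Cauchy), so not
surjective on `W`. For `x : V`, `p • x = 0` (else `W = br (p • x) V = p • W`); then `p • w = 0` on `W`
(`w = br x y`, `x ≠ 0`). Use `AddCommGroup.zmodModule`, bases `e : Fin n` of `V`, `c : Fin l` of `W`
over `F = ZMod p` (`n ≥ 1`). `R = MvPolynomial (Fin l) F`,
`B i j = ∑ k, C (c.repr (br (e i) (e j)) k) * X k` is alternating. In `K = FractionRing R`,
`det B` is a square (`det_alt`, `RingHom.map_det`), `R` is a UFD hence integrally closed, so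
`det B = P * P` in `R` (`IsIntegrallyClosed.exists_algebraMap_eq_of_isIntegral_pow`-style, or
`IsIntegrallyClosed.pow_dvd_pow_iff`). `totalDegree (det B) ≤ n` (each entry has degree `≤ 1`), so
`2 * totalDegree P ≤ n` (`MvPolynomial.totalDegree_mul_of_isDomain`, or homogeneity; `P ≠ 0`).
For `a : Fin l → F`, `eval a (det B)` is the determinant of the form `(x, y) ↦ ∑ a k * c.repr (br x y) k`;
it is `0` for `a = 0` (`n ≥ 1`) and `≠ 0` for `a ≠ 0` (if `x ≠ 0` is in the radical, surjectivity of
`br x` kills the functional `a`; `Matrix.exists_vecMul_eq_zero_iff`). So `P` has exactly the zero `a = 0`;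
`char_dvd_card_solutions` gives `p ∣ 1` if `totalDegree P < l`. Hence `2 l ≤ n`,
`|W|² = p^(2l) ≤ p^n = |V|`. -/
theorem cw {V W : Type*} [AddCommGroup V] [AddCommGroup W] [Finite V] [Finite W] [Nontrivial V]
    (br : V →+ V →+ W) (alt : ∀ x, br x x = 0)
    (s1 : ∀ x, x ≠ 0 → Function.Surjective (br x)) : Nat.card W ^ 2 ≤ Nat.card V := by
  rcases subsingleton_or_nontrivial W with hW | hW
  · rw [Nat.card_unique, one_pow]; exact Nat.card_pos
  obtain ⟨p, hp, hd⟩ := Nat.exists_prime_and_dvd (Finite.one_lt_card (α := W)).ne'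
  haveI := Fact.mk hp
  obtain ⟨w, hw⟩ := exists_prime_addOrderOf_dvd_card' p hd
  have hV : ∀ x : V, p • x = 0 := fun x => by
    by_contra n
    have : Function.Injective (nsmulAddMonoidHom (α := W) p) := Finite.injective_iff_surjective.2 fun w => by
      obtain ⟨y, rfl⟩ := s1 _ n w
      exact ⟨br x y, by simp⟩
    have := (injective_iff_map_eq_zero _).1 this w (hw ▸ addOrderOf_nsmul_eq_zero w)
    rw [this, addOrderOf_zero] at hw
    exact hp.one_lt.ne hw
  have hW' : ∀ w : W, p • w = 0 := fun w => by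
    obtain ⟨x, hx⟩ := exists_ne (0 : V)
    obtain ⟨y, rfl⟩ := s1 x hx w
    rw [← map_nsmul, hV, map_zero]
  exact @cw_aux p _ V W _ _ _ _ _ _ (AddCommGroup.zmodModule hV) (AddCommGroup.zmodModule hW') br alt s1

end Cfsg.Agent.NDA
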