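import Mathlib
import Cfsg.Agent.NDA.CW
import Cfsg.Agent.Palfy.Tools

/-! STUB (S4780, captain helper13). The graded Lie ring of a Camina group cannot have class 4. -/

set_option autoImplicit false

namespace Cfsg.Agent.NDA

theorem a4_card_hom (A : Type*) [AddCommGroup A] [Finite A] :
    Nat.card (A →+ Additive ℂˣ) = Nat.card A := by
  rw [Nat.card_congr AddMonoidHom.toMultiplicativeLeft, Palfy.card_dual mul_comm]
  rfl

theorem a4_pair_le {V W : Type*} [AddCommGroup V] [AddCommGroup W] [Finite W]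
    (φ : V →+ W →+ Additive ℂˣ) : φ.ker.index ≤ φ.flip.ker.index := by
  have : Finite (W ⧸ φ.flip.ker →+ Additive ℂˣ) :=
    Nat.finite_of_card_ne_zero (by rw [a4_card_hom]; exact Nat.card_pos.ne')
  rw [AddSubgroup.index_ker, AddSubgroup.index, ← a4_card_hom (W ⧸ _)]
  refine Nat.card_le_card_of_injective (fun f : φ.range => QuotientAddGroup.lift φ.flip.ker f.1
    fun w hw => by obtain ⟨_, v, rfl⟩ := f; exact DFunLike.congr_fun hw v) fun f g h => ?_
  exact Subtype.ext (AddMonoidHom.ext fun w => DFunLike.congr_fun h (QuotientAddGroup.mk w))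

theorem a4_pair {V W : Type*} [AddCommGroup V] [AddCommGroup W] [Finite V] [Finite W]
    (φ : V →+ W →+ Additive ℂˣ) (h : ∀ v, φ v = 0 → v = 0) :
    Nat.card V * Nat.card φ.flip.ker = Nat.card W := by
  have h1 : φ.ker.index = φ.flip.ker.index := (a4_pair_le φ).antisymm (a4_pair_le φ.flip)
  rw [(AddSubgroup.eq_bot_iff_forall φ.ker).2 h, AddSubgroup.index_bot] at h1
  rw [h1, AddSubgroup.index_mul_card]

theorem a4_beta {W T : Type*} [AddCommGroup W] [Finite W] [AddCommGroup T] (k : W →+ W →+ T)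
    (t : W →+ W) (ti : Function.Injective t)
    (hfix : ∀ j u, u ≠ 0 → t^[j] u = u → ∀ v, t^[j] v = v)
    (hβ : ∀ u v, k (t (t u)) v - k (t u) (t v) = k (t u) (t v) - k u (t (t v))) (u v : W) :
    k (t u) v - k u (t v) = 0 := by
  classical
  have := Fintype.ofFinite W
  let τ : Equiv.Perm W := Equiv.ofBijective t (Finite.injective_iff_bijective.1 ti)
  have hτ : ∀ j u, (τ ^ j) u = t^[j] u := fun j u => by rw [Equiv.Perm.coe_pow]; rfl
  have h1 : ∀ j u v, k (t^[j + 1] u) v - k u (t^[j + 1] v) =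
      (j + 1) • (k (t (t^[j] u)) v - k (t^[j] u) (t v)) := fun j => by
    induction j with
    | zero => simp
    | succ j ih =>
      intro u v
      have := ih u (t v)
      rw [← hβ, ← Function.iterate_succ_apply, ← Function.iterate_succ_apply' t j] at this
      rw [succ_nsmul, ← this, Function.iterate_succ_apply' t (j + 1) u]
      abel
  have h2 : (orderOf τ).Coprime (Nat.card W) := Nat.coprime_of_dvd fun p hp ⟨r, hr⟩ hd => by
    have : Fact p.Prime := ⟨hp⟩
    obtain ⟨w, h3, h4⟩ := Equiv.Perm.exists_fixed_point_of_prime' (n := 1) (σ := τ ^ r) (a := 0)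
      (Nat.card_eq_fintype_card (α := W) ▸ hd)
      (by rw [pow_one, ← pow_mul, mul_comm, ← hr, pow_orderOf_eq_one])
      (by rw [hτ, Function.iterate_fixed (map_zero t)])
    have h5 : orderOf τ ∣ r := orderOf_dvd_of_pow_eq_one
      (Equiv.ext fun v => (hτ r v).trans (hfix r w h4 ((hτ r w).symm.trans h3) v))
    have h6 := orderOf_pos τ
    have h7 : 0 < r := Nat.pos_of_ne_zero (by rintro rfl; omega)
    have := Nat.le_of_dvd h7 h5
    have := hp.two_le
    nlinarith
  obtain ⟨j, hj⟩ : ∃ j, orderOf τ = j + 1 := ⟨_, (Nat.succ_pred_eq_of_pos (orderOf_pos τ)).symm⟩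
  obtain ⟨u, rfl⟩ := (τ ^ j).surjective u
  have h3 := h1 j u v
  rw [← hτ, ← hτ, ← hj, pow_orderOf_eq_one, Equiv.Perm.one_apply, Equiv.Perm.one_apply, sub_self,
    ← hτ] at h3
  have h4 : Nat.card W • (k (t ((τ ^ j) u)) v - k ((τ ^ j) u) (t v)) = 0 := by
    rw [smul_sub, ← map_nsmul, ← map_nsmul, card_nsmul_eq_zero', card_nsmul_eq_zero', map_zero, map_zero,
      sub_self]
  exact AddMonoid.addOrderOf_eq_one_iff.1 (Nat.eq_one_of_dvd_coprimes h2
    (addOrderOf_dvd_of_nsmul_eq_zero h3.symm) (addOrderOf_dvd_of_nsmul_eq_zero h4))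

theorem a4_skew {V W : Type*} [AddCommGroup V] [AddCommGroup W] {br : V →+ V →+ W}
    (alt : ∀ x, br x x = 0) (x y : V) : br x y = -br y x := by
  have := alt (x + y)
  simp only [map_add, AddMonoidHom.add_apply, alt, zero_add, add_zero] at this
  exact eq_neg_of_add_eq_zero_right this

theorem a4_main {V W X : Type*} [AddCommGroup V] [AddCommGroup W] [AddCommGroup X]
    [Finite V] [Finite W] [Finite X] [Nontrivial V] [Nontrivial W]
    (br : V →+ V →+ W) (ad : W →+ V →+ X) (m : X →+ V →+ Additive ℂˣ) (k : W →+ W →+ Additive ℂˣ)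
    (alt : ∀ x, br x x = 0) (altk : ∀ w, k w w = 0)
    (jac : ∀ x y z, ad (br x y) z + ad (br y z) x + ad (br z x) y = 0)
    (jac2 : ∀ w y z, m (ad w y) z - m (ad w z) y = k w (br y z))
    (s1 : ∀ x, x ≠ 0 → Function.Surjective (br x))
    (s2 : ∀ w, w ≠ 0 → Function.Surjective (ad w))
    (s3 : ∀ t, m t = 0 → t = 0) (s4 : ∀ w, k w = 0 → w = 0)
    (h8 : ∀ a, a ≠ 0 → Nat.card X < Nat.card (br a).ker * Nat.card (ad.flip a).range) : False := by
  have sk := a4_skew alt
  have skk := a4_skew altk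
  have s4' : ∀ u, (∀ w, k w u = 0) → u = 0 := fun u h =>
    s4 u (AddMonoidHom.ext fun w => by rw [skk, h, neg_zero]; rfl)
  have hW : 1 < Nat.card W := Finite.one_lt_card
  obtain ⟨n, hn, hK⟩ : ∃ n, Nat.card W * n = Nat.card V ∧ ∀ x, x ≠ 0 → Nat.card (br x).ker = n := by
    have : ∀ x, x ≠ 0 → Nat.card W * Nat.card (br x).ker = Nat.card V := fun x hx => by
      rw [← (br x).ker.index_mul_card, AddSubgroup.index_ker, AddMonoidHom.range_eq_top.2 (s1 x hx),
        AddSubgroup.card_top]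
    obtain ⟨x, hx⟩ := exists_ne (0 : V)
    exact ⟨_, this x hx, fun y hy => Nat.eq_of_mul_eq_mul_left (by omega)
      ((this y hy).trans (this x hx).symm)⟩
  have hWn : Nat.card W ≤ n := by
    have := cw br alt s1
    rw [← hn, pow_two] at this
    exact Nat.le_of_mul_le_mul_left this (by omega)
  obtain ⟨B, hB, hBc⟩ : ∃ B : AddSubgroup V, (∀ z, z ∈ B ↔ ∀ t, m t z = 0) ∧
      Nat.card X * Nat.card B = Nat.card V :=
    ⟨m.flip.ker, fun z => DFunLike.ext_iff, a4_pair m s3⟩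
  obtain ⟨b, hb, b0⟩ : ∃ b ∈ B, b ≠ 0 := by
    by_contra! h
    obtain ⟨x, hx⟩ := exists_ne (0 : V)
    have h1 := h8 x hx
    have h2 := Nat.card_le_card_of_surjective _ (ad.flip x).rangeRestrict_surjective
    rw [(AddSubgroup.eq_bot_iff_forall B).2 h, AddSubgroup.card_bot, mul_one] at hBc
    rw [hK x hx, hBc, ← hn] at h1
    nlinarith
  have hA : ∀ z ∉ B, ∃ A : AddSubgroup V, (∀ y, y ∈ A ↔ ∀ w, m (ad w y) z = 0) ∧ Nat.card A = n ∧
      ∀ a ∈ A, a ≠ 0 → A = (br a).ker := fun z hz => by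
    let φ : W →+ V →+ Additive ℂˣ := (AddMonoidHom.compHom (m.flip z)).comp ad
    have h1 : ∀ w, (∀ y, m (ad w y) z = 0) → w = 0 := fun w h => by_contra fun hw =>
      hz ((hB z).2 fun t => by obtain ⟨y, rfl⟩ := s2 w hw t; exact h y)
    have h2 : Nat.card φ.flip.ker = n := Nat.eq_of_mul_eq_mul_left (by omega)
      ((a4_pair φ fun w h => h1 w fun y => DFunLike.congr_fun h y).trans hn.symm)
    have h3 : ∀ y, y ∈ φ.flip.ker ↔ ∀ w, m (ad w y) z = 0 := fun y => DFunLike.ext_iff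
    refine ⟨_, h3, h2, fun a ha a0 => AddSubgroup.eq_of_le_of_card_ge (fun a' ha' => h1 _ fun y => ?_)
      (by rw [h2, hK a a0])⟩
    have := congrArg (m · z) (jac a a' y)
    simpa [(h3 a).1 ha, (h3 a').1 ha'] using this
  have h3 : ∀ b ∈ B, ∀ w z, m (ad w b) z = k w (br b z) := fun b hb w z => by
    rw [← jac2, (hB b).1 hb, sub_zero]
  have h4 : ∀ b ∈ B, b ≠ 0 → (br b).ker ≤ B := fun b hb b0 c hc => by
    by_contra hcB
    have inj : ∀ w w', ad w b = ad w' b → w = w' := fun w w' h => sub_eq_zero.1 (s4 _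
      (AddMonoidHom.ext fun u => by
        obtain ⟨z, rfl⟩ := s1 b b0 u
        rw [← h3 b hb]
        simp [h]))
    obtain ⟨A, hA1, -, hA2⟩ := hA c hcB
    have hc0 : br b c = 0 := hc
    have e := hA2 b ((hA1 b).2 fun w => by rw [h3 b hb, hc0, map_zero]) b0
    subst e
    have ht : ∀ a : (br b).ker, ∃ t : W →+ W, ∀ y, t (br b y) = br a y := fun a =>
      ⟨(br b).liftOfSurjective (s1 b b0) ⟨br a, by
        by_cases a0 : (a : V) = 0
        · simp [a0]
        · exact (hA2 a a.2 a0).le⟩, AddMonoidHom.liftOfRightInverse_comp_apply _ _ _ _⟩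
    choose t ht using ht
    have j1 : ∀ (a a' : (br b).ker) y, ad (br a y) a' = ad (br a' y) a := fun a a' y => by
      have h5 : br a' a = 0 := by rw [← ht, show br b a = 0 from a.2, map_zero]
      have := jac a y a'
      rw [h5, sk y] at this
      simpa [add_neg_eq_zero] using this
    have j2 : ∀ (a : (br b).ker) w, ad (t a w) b = ad w a := fun a w => by
      obtain ⟨y, rfl⟩ := s1 b b0 w
      rw [ht]
      exact j1 a ⟨b, alt b⟩ y
    have j3 : ∀ a a', Function.Commute (t a) (t a') := fun a a' w => inj _ _ (by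
      obtain ⟨y, rfl⟩ := s1 b b0 w
      rw [j2, j2, ht, ht, j1])
    have j4 : ∀ u, u ≠ 0 → Function.Injective fun a => t a u := fun u hu a a' h => by
      obtain ⟨y, rfl⟩ := s1 b b0 u
      by_contra hne
      refine hu (show y ∈ (br b).ker from ?_)
      rw [hA2 _ (a - a').2 fun e => hne (Subtype.ext (sub_eq_zero.1 e))]
      simpa [ht, sub_eq_zero] using h
    let c' : (br b).ker := ⟨c, hc⟩
    have j5 : ∀ w y, k (t c' w) (br b y) - k w (t c' (br b y)) = m (ad w y) c := fun w y => by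
      rw [← h3 b hb, j2, ht, ← jac2, sub_sub_cancel]
    have j6 := a4_beta k (t c') ((injective_iff_map_eq_zero _).2 fun u hu => by_contra fun u0 =>
        hcB (by
          have := congrArg Subtype.val (j4 u u0 (a₁ := c') (a₂ := 0) (by
            obtain ⟨y, rfl⟩ := s1 b b0 u
            simp only [hu, ht]; simp))
          rw [show c = 0 from this]; exact zero_mem _))
      (fun j u u0 hu v => by
        obtain ⟨a, rfl⟩ := ((j4 u u0).bijective_of_nat_card_le (hK b b0 ▸ hWn)).2 v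
        rw [((j3 c' a).iterate_left j).eq, hu])
      (fun u v => by
        obtain ⟨y, rfl⟩ := s1 b b0 u
        obtain ⟨y', rfl⟩ := s1 b b0 v
        have := congrArg (m · c) (jac c y y')
        simp only [map_add, AddMonoidHom.add_apply, (hA1 c).1 hc, sk y' c, map_neg, AddMonoidHom.neg_apply,
          map_zero, AddMonoidHom.zero_apply, add_zero, add_neg_eq_zero] at this
        rw [j5, ht c' y, this, ← ht c' y', ← j5, ← ht c' y, skk _ (br b y), skk (t c' (br b y'))]
        abel)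
    obtain ⟨w, hw⟩ := exists_ne (0 : W)
    exact hcB ((hB c).2 fun x => by
      obtain ⟨y, rfl⟩ := s2 w hw x
      rw [← j5, j6])
  have h5 : Nat.card B = n := by
    rw [← hK b b0, le_antisymm (h4 b hb b0) fun z hz => s4' _ fun w => by rw [← h3 b hb, (hB z).1 hz]]
  obtain ⟨z, hz⟩ : ∃ z, z ∉ B := by
    by_contra! h
    rw [(AddSubgroup.eq_top_iff' B).2 h, AddSubgroup.card_top, ← hn] at h5
    nlinarith
  obtain ⟨A, hA1, hA2, hA3⟩ := hA z hz
  have h6 : Disjoint A B := AddSubgroup.disjoint_def.2 fun {x} h1 h2 => by_contra fun x0 =>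
    hz (h4 x h2 x0 (s4' _ fun w => by rw [← h3 x h2, (hA1 x).1 h1]))
  have h7 := (AddSubgroup.add_injective_of_disjoint h6).bijective_of_nat_card_le
    (by rw [Nat.card_prod, hA2, h5, ← hn]; exact Nat.mul_le_mul_right _ hWn)
  have h9 : Nat.card X = n := by
    have := Nat.card_eq_of_bijective _ h7
    rw [Nat.card_prod, hA2, ← hBc, h5] at this
    exact Nat.eq_of_mul_eq_mul_right (by omega) this.symm
  obtain ⟨⟨⟨z', hz'⟩, b', hb'⟩, rfl⟩ := h7.2 z
  have z0 : z' ≠ 0 := by rintro rfl; exact hz (by simpa using hb')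
  have h10 : (ad.flip z').range = ⊥ := by
    refine (AddSubgroup.eq_bot_iff_forall _).2 ?_
    rintro _ ⟨w, rfl⟩
    refine s3 _ (AddMonoidHom.ext fun y => ?_)
    obtain ⟨⟨⟨y, hy⟩, b'', hb''⟩, rfl⟩ := h7.2 y
    have e1 := jac2 w z' y
    have e2 := (hA1 y).1 hy w
    rw [show br z' y = 0 from (hA3 z' hz' z0).le hy] at e1
    simp only [map_add, (hB _).1 hb', add_zero] at e2
    simpa [(hB _).1 hb'', e2] using e1
  have := h8 z' z0
  rw [h10, AddSubgroup.card_bot, hK z' z0] at this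
  omega

/-- Proof. Take an additive character `μ ≠ 0` of `Y` with values in `T = Additive ℂˣ` (duality:
`Palfy.card_dual`, `|Hom(A, ℂˣ)| = |A|` for finite abelian `A`). Put `m t z = μ (ae t z)`,
`k u v = μ (κ u v)` (alternating, nondegenerate by `s4`), `θ w y z = m (ad w y) z`,
`K x = ker (br x)`, `n = |K x| = |V| / |W|` for `x ≠ 0` (`s1`); `cw` gives `|W| ≤ n`.
`br`, `k` are skew. `B = {z | ∀ t, m t z = 0}`.
1. `B ≠ 0`: `V/B ↪ Hom(X,T)`, so `|V:B| ≤ |X| < n |W| = |V|` (`h8` for any `a ≠ 0`).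
2. For `z ∉ B`, `A z = {y | ∀ w, θ w y z = 0}` has `|A z| = n`: the pairing `W × V → T`,
   `(w,y) ↦ θ w y z` is left nondegenerate (`s2`), so `V/A z ↪ Hom(W,T)` and `W ↪ Hom(V/A z,T)`.
   `A z` is abelian: for `a a' ∈ A z`, `jac a a' y` gives `θ (br a a') y z = 0` for all `y`, so
   `br a a' = 0`. Hence `A z = K a` for `0 ≠ a ∈ A z` (inclusion + equal order).
3. Fix `0 ≠ b ∈ B`, `A := K b`. `jac2` gives `θ w b z = k w (br b z)`. So `B ≤ K b'` for all
   `0 ≠ b' ∈ B`, `ad w b = 0 → w = 0`, and for `z ∈ A \ B`: `b ∈ A z`, so `A z = A`.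
4. `A ≤ B`. Else take `c ∈ A \ B`; `A = A c` is abelian, `K a = A` for `0 ≠ a ∈ A`,
   `θ w a a' = 0` for `a a' ∈ A`. For `a ∈ A` define `t a : W →+ W` by `t a (br y b) = br y a`
   (`y ↦ br y b` is onto with kernel `A`). `jac y a a'` gives `ad (br y a) a' = ad (br y a') a`, so
   `ad w a = ad (t a w) b` and the `t a` commute (injectivity of `ad · b`). For `u ≠ 0`, `a ↦ t a u`
   is injective on `A`, so onto `W` (`|W| ≤ n = |A|`). With `u = br y b`:
   `θ w a y = -k (t a w) u` and `θ w y a = -k (t a w) u + k w (t a u)`. Let `t = t c`,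
   `β w u = k (t w) u - k w (t u) = -θ w y c`; `β` is symmetric. `jac c y₁ y₂` paired with `m · c`
   (middle term `θ _ c c = 0`) gives `β (t u₁) u₂ = β (t u₂) u₁ = β u₁ (t u₂)`. Induction:
   `k (t^j u) v - k u (t^j v) = j • β (t^(j-1) u) v`. `t` is bijective, of finite order `o`;
   `⟨t⟩` is semiregular on `W \ 0` (if `t^j u = u`, `u ≠ 0`, then `t^j` fixes all `t a u`), so
   `o ∣ |W| - 1` is prime to `|W|`; `o • β = 0` and `|W| • β = 0` give `β = 0`, i.e. `θ w y c = 0`
   for all `w y`, so `c ∈ B` (`s2`, `W` nontrivial). (Alternatively: if a prime `p ∣ gcd(o,|W|)` ... .)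
5. So `B = K b'` for all `0 ≠ b' ∈ B`, `|B| = n < |V|`. Take `z ∉ B`, `A' = A z`; `A' ⊓ B = 0` (3.),
   `|A'| |B| = n² ≥ |V|`, so `A' + B = V`, `z = z' + b'`, `0 ≠ z' ∈ A' = K z'`, `θ w y z = θ w y z'`.
   For `y ∈ A'`: `θ w z' y = θ w y z' + k w (br z' y) = 0`; also for `y ∈ B`. So `m (ad w z') = 0`,
   `ad w z' = 0` (`s3`) for all `w`; `h8 z'` gives `|X| < n`. But `y ↦ m · y` embeds `A'` in
   `Hom(X,T)`, so `n ≤ |X|`. -/
theorem alg4 {V W X Y : Type*} [AddCommGroup V] [AddCommGroup W] [AddCommGroup X] [AddCommGroup Y]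
    [Finite V] [Finite W] [Finite X] [Finite Y] [Nontrivial V] [Nontrivial W] [Nontrivial Y]
    (br : V →+ V →+ W) (ad : W →+ V →+ X) (ae : X →+ V →+ Y) (κ : W →+ W →+ Y)
    (alt : ∀ x, br x x = 0) (altκ : ∀ w, κ w w = 0)
    (jac : ∀ x y z, ad (br x y) z + ad (br y z) x + ad (br z x) y = 0)
    (jac2 : ∀ w y z, ae (ad w y) z - ae (ad w z) y = κ w (br y z))
    (s1 : ∀ x, x ≠ 0 → Function.Surjective (br x))
    (s2 : ∀ w, w ≠ 0 → Function.Surjective (ad w))
    (s3 : ∀ t, t ≠ 0 → Function.Surjective (ae t))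
    (s4 : ∀ w, w ≠ 0 → Function.Surjective (κ w))
    (h8 : ∀ a, a ≠ 0 → Nat.card X < Nat.card (br a).ker * Nat.card (ad.flip a).range) : False := by
  obtain ⟨y, hy⟩ := exists_ne (0 : Y)
  have : NeZero (Monoid.exponent (Multiplicative Y)) := ⟨Monoid.exponent_ne_zero_of_finite⟩
  obtain ⟨φ, hφ⟩ := CommGroup.exists_apply_ne_one_of_hasEnoughRootsOfUnity (Multiplicative Y) ℂ
    (a := Multiplicative.ofAdd y) hy
  let μ : Y →+ Additive ℂˣ := AddMonoidHom.toMultiplicativeLeft.symm φ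
  have hμ : μ y ≠ 0 := hφ
  refine a4_main br ad ((AddMonoidHom.compHom μ).comp ae) ((AddMonoidHom.compHom μ).comp κ) alt
    (fun w => ?_) jac (fun w y z => ?_) s1 s2 (fun t h => by_contra fun ht => ?_)
    (fun t h => by_contra fun ht => ?_) h8
  · change μ (κ w w) = 0
    rw [altκ, map_zero]
  · change μ _ - μ _ = μ _
    rw [← map_sub, jac2]
  · obtain ⟨z, rfl⟩ := s3 t ht y
    exact hμ (DFunLike.congr_fun h z)
  · obtain ⟨z, rfl⟩ := s4 t ht y
    exact hμ (DFunLike.congr_fun h z)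

end Cfsg.Agent.NDA
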