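import Mathlib
import Cfsg.Agent.Palfy.Tools

/-! (S4780, captain helper13). The metabelian case of `NDA/Alg4`. -/

set_option autoImplicit false

namespace Cfsg.Agent.NDA

/-- Proof. `n = |ker (br b)| = |V| / |W|` for `b ≠ 0` (`s1`); `br` is skew. `B = {b | ∀ w, ad w b = 0}`.
Take an additive character `μ ≠ 0` of `Y` (values in `Additive ℂˣ`, `Palfy.card_dual`) and
`B' = {z | ∀ t, μ (ae t z) = 0}`, the kernel of `V → Hom(X, T)`, so `|V| ≤ |B'| |X|`. `B' ≤ B`: for
`b ∈ B'`, `μ (ae (ad w b) z) = μ (ae (ad w z) b) = 0` for all `z`, so `ad w b = 0` by `s3`. So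
`|V| ≤ |B| |X|`, and `|X| < n |W| = |V|` (`h8` for any `a ≠ 0`; `V` is nontrivial by `s2`), so `B ≠ 0`.
For `0 ≠ b ∈ B`: `h8 b` gives `|X| < n`; `B ≤ ker (br b)` (`jac b y z` for `z ∈ B`:
`ad (br z b) y = 0` for all `y`, use `s2`); `ker (br b) ≤ B` (`jac b y z` with `br b y = 0`:
`ad (br z b) y = 0` for all `z`, use `s1`). So `|B| = n`, `n |W| ≤ n |X|`, `|W| ≤ |X| < n`. But `B ≠ V`
(`s2`), and for `y ∉ B` the map `b ↦ br b y` is injective on `B`, so `n ≤ |W|`. -/
theorem alg4z {V W X Y : Type*} [AddCommGroup V] [AddCommGroup W] [AddCommGroup X] [AddCommGroup Y]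
    [Finite V] [Finite W] [Finite X] [Finite Y] [Nontrivial W] [Nontrivial X] [Nontrivial Y]
    (br : V →+ V →+ W) (ad : W →+ V →+ X) (ae : X →+ V →+ Y) (alt : ∀ x, br x x = 0)
    (jac : ∀ x y z, ad (br x y) z + ad (br y z) x + ad (br z x) y = 0)
    (jac2 : ∀ w y z, ae (ad w y) z = ae (ad w z) y)
    (s1 : ∀ x, x ≠ 0 → Function.Surjective (br x))
    (s2 : ∀ w, w ≠ 0 → Function.Surjective (ad w))
    (s3 : ∀ t, t ≠ 0 → Function.Surjective (ae t))
    (h8 : ∀ a, a ≠ 0 → Nat.card X < Nat.card (br a).ker * Nat.card (ad.flip a).range) : False := by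
  classical
  -- skew symmetry
  have skew : ∀ x y, br x y = - br y x := by
    intro x y
    have h := alt (x + y)
    simp only [map_add, AddMonoidHom.add_apply, alt, zero_add, add_zero] at h
    exact eq_neg_of_add_eq_zero_left (by rw [add_comm]; exact h)
  obtain ⟨w0, hw0⟩ := exists_ne (0 : W)
  obtain ⟨x0, hx0⟩ := exists_ne (0 : X)
  obtain ⟨y0, hy0⟩ := exists_ne (0 : Y)
  -- if `ad w y = 0` for all `y` then `w = 0`
  have adz : ∀ w, (∀ y, ad w y = 0) → w = 0 := by
    intro w h
    by_contra hw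
    obtain ⟨y, hy⟩ := s2 w hw x0
    exact hx0 (hy ▸ h y)
  let B : AddSubgroup V :=
    { carrier := {b | ∀ w, ad w b = 0}
      zero_mem' := fun w => map_zero _
      add_mem' := fun {a b} ha hb w => by rw [map_add, ha w, hb w, add_zero]
      neg_mem' := fun {a} ha w => by rw [map_neg, ha w, neg_zero] }
  have memB : ∀ b, b ∈ B ↔ ∀ w, ad w b = 0 := fun b => Iff.rfl
  obtain ⟨μ, hμ⟩ := (AddChar.exists_apply_ne_zero (α := Y) (a := y0)).2 hy0
  let Φ : V → AddChar X ℂ := fun z => μ.compAddMonoidHom (ae.flip z)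
  have hΦ : ∀ z t, Φ z t = μ (ae t z) := fun z t => rfl
  have key : ∀ z z', Φ z = Φ z' → -z + z' ∈ B := by
    intro z z' h
    have h1 : ∀ t, μ (ae t (-z + z')) = 1 := by
      intro t
      have h2 : μ (ae t z) = μ (ae t z') := by rw [← hΦ, ← hΦ, h]
      rw [map_add, map_neg, AddChar.map_add_eq_mul, ← h2, ← AddChar.map_add_eq_mul,
        neg_add_cancel, AddChar.map_zero_eq_one]
    intro w
    by_contra hw
    obtain ⟨u, hu⟩ := s3 _ hw y0
    apply hμ
    rw [← hu, jac2]
    exact h1 _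
  have hq : Nat.card (V ⧸ B) ≤ Nat.card X := by
    have := Fintype.ofFinite X
    have e : Nat.card (AddChar X ℂ) = Nat.card X := by
      rw [Nat.card_eq_fintype_card, Nat.card_eq_fintype_card, AddChar.card_eq]
    rw [← e]
    refine Nat.card_le_card_of_injective (fun q => Φ q.out) ?_
    intro q q' h
    have := key _ _ h
    rw [← QuotientAddGroup.out_eq' q, ← QuotientAddGroup.out_eq' q']
    exact QuotientAddGroup.eq.2 this
  have hVB : Nat.card V = Nat.card (V ⧸ B) * Nat.card B :=
    AddSubgroup.card_eq_card_quotient_mul_card_addSubgroup B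
  -- kernel sizes
  have hker : ∀ b, b ≠ 0 → Nat.card V = Nat.card W * Nat.card (br b).ker := by
    intro b hb
    rw [AddSubgroup.card_eq_card_quotient_mul_card_addSubgroup (br b).ker,
      Nat.card_congr (QuotientAddGroup.quotientKerEquivOfSurjective (br b) (s1 b hb)).toEquiv]
  -- an element outside `B`
  obtain ⟨y, hy⟩ := s2 w0 hw0 x0
  have hyB : y ∉ B := fun h => hx0 (hy ▸ h w0)
  have hy0' : y ≠ 0 := fun h => hyB (h ▸ B.zero_mem)
  have hXV : Nat.card X < Nat.card V := by
    have h1 := h8 y hy0'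
    have h2 : Nat.card (ad.flip y).range ≤ Nat.card W :=
      Nat.card_le_card_of_surjective (ad.flip y).rangeRestrict
        (ad.flip y).rangeRestrict_surjective
    calc Nat.card X < _ := h1
      _ ≤ Nat.card (br y).ker * Nat.card W := Nat.mul_le_mul_left _ h2
      _ = Nat.card V := by rw [hker y hy0', mul_comm]
  have hB : B ≠ ⊥ := by
    intro h
    have : Nat.card B = 1 := by rw [h]; exact AddSubgroup.card_bot
    rw [this, mul_one] at hVB
    omega
  obtain ⟨⟨b, hbB⟩, hb0⟩ := (AddSubgroup.ne_bot_iff_exists_ne_zero).1 hB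
  have hb : b ≠ 0 := fun h => hb0 (Subtype.ext h)
  -- for `0 ≠ c ∈ B`, `ker (br c) = B`
  have kerB : ∀ c, c ∈ B → c ≠ 0 → (br c).ker = B := by
    intro c hc hc0
    ext z
    rw [AddMonoidHom.mem_ker]
    constructor
    · intro hz w
      obtain ⟨u, hu⟩ := s1 c hc0 (-w)
      have h1 := jac c z u
      rw [hz, map_zero, AddMonoidHom.zero_apply, zero_add, hc, zero_add, skew u c, hu,
        neg_neg] at h1
      exact h1
    · intro hz
      have h1 : br z c = 0 := by
        apply adz
        intro u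
        have h2 := jac c u z
        rw [hz, hc, zero_add, zero_add] at h2
        exact h2
      rw [skew, h1, neg_zero]
  have hXn : Nat.card X < Nat.card B := by
    have h1 := h8 b hb
    have h2 : (ad.flip b).range = ⊥ := by
      rw [AddMonoidHom.range_eq_bot_iff]
      ext w
      exact hbB w
    rw [h2, AddSubgroup.card_bot, mul_one, kerB b hbB hb] at h1
    exact h1
  have hWX : Nat.card W ≤ Nat.card X := by
    have h1 := hker b hb
    rw [kerB b hbB hb] at h1
    have h2 : Nat.card W = Nat.card (V ⧸ B) :=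
      Nat.eq_of_mul_eq_mul_right Nat.card_pos (h1.symm.trans hVB)
    omega
  have hBW : Nat.card B ≤ Nat.card W := by
    refine Nat.card_le_card_of_injective (fun c : B => br c y) ?_
    intro c d h
    by_contra hcd
    have h1 : (c - d : B).1 ≠ 0 := fun h' => hcd (sub_eq_zero.1 (Subtype.ext h'))
    apply hyB
    rw [← kerB _ (c - d).2 h1, AddMonoidHom.mem_ker]
    have h2 : br c y = br d y := h
    rw [AddSubgroup.coe_sub, map_sub, AddMonoidHom.sub_apply, h2, sub_self]
  omega

end Cfsg.Agent.NDA
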