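import Cfsg.Agent.NDA.Lin

/-! STUB (S4780, captain helper13). Regular orbits on linear characters. -/

set_option autoImplicit false

namespace Cfsg.Agent.NDA

open Subgroup Cfsg.Agent.Char Cfsg.Agent.Palfy
open scoped commutatorElement

variable {G : Type*} [Group G] [Finite G]

open Deg4 in
/-- `Deg4.exists_regular` without faithfulness -/
theorem reg_aux (V B : Subgroup G) [hV : V.Normal] (hc : ⁅V, V⁆ = ⊥)
    (hB : ∀ a ∈ B, ∀ b ∈ B, a * b = b * a) (hcop : (Nat.card B).Coprime (Nat.card V)) :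
    ∃ l : V →* ℂˣ, B ⊓ inertia V (fun x => (l x : ℂ)) ≤ centralizer (V : Set G) := by
  obtain ⟨C, ⟨l, rfl⟩, hmin⟩ := (wellFounded_lt (α := Subgroup G)).has_min
    (Set.range fun l : V →* ℂˣ => B ⊓ inertia V (fun x => (l x : ℂ))) ⟨_, 1, rfl⟩
  refine ⟨l, by_contra fun hne => ?_⟩
  set C := B ⊓ inertia V (fun x => (l x : ℂ)) with hC
  have hVs : Group.IsSolvable V := by
    refine ⟨1, ?_⟩
    rw [derivedSeries_one, ← map_eq_bot_iff_of_injective _ V.subtype_injective,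
      map_subtype_commutator, hc]
  have hdec := fun v hv => Solv.coprime_exists_centralizer_mul_commutator C V
    le_normalizer_of_normal (hcop.coprime_dvd_left (card_dvd_of_le inf_le_left)) (Or.inr hVs) v hv
  obtain ⟨x, hxV, hx⟩ : ∃ x ∈ V, x ∉ centralizer (C : Set G) := by
    by_contra h
    push Not at h
    exact hne fun c hc v hv => (h v hv c hc).symm
  obtain ⟨l', h1, h2⟩ := exists_hom_sub V (centralizer (C : Set G)) (hc ▸ bot_le) hxV hx
  have hl : ⁅V, C⁆ ≤ l.ker.map V.subtype := (le_inertia_hom V C l).1 inf_le_right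
  have hle : B ⊓ inertia V (fun x => ((l * l') x : ℂ)) ≤ C := by
    rintro b ⟨hb, hb'⟩
    refine ⟨hb, (mem_inertia' V).2 fun v => ?_⟩
    obtain ⟨c, hc, d, hd, e⟩ := hdec v v.2
    have hbC : b ∈ normalizer (C : Set G) := by
      rw [mem_normalizer_iff]
      intro y
      constructor
      · intro hy
        rwa [hB b hb y hy.1, mul_inv_cancel_right]
      · intro hy
        have := hB b hb _ hy.1
        have e : y = b * y * b⁻¹ := by
          calc y = b⁻¹ * (b * (b * y * b⁻¹)) * b * b⁻¹ * b⁻¹ * b := by rw [this]; group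
            _ = _ := by group
        rwa [e]
    have hd' : b * d * b⁻¹ ∈ ⁅V, C⁆ := (Solv.le_normalizer_commutator (B := zpowers b)
      le_normalizer_of_normal (zpowers_le.2 hbC) (mem_zpowers b) d).1 hd
    have hc' : b * c * b⁻¹ ∈ centralizer (C : Set G) :=
      (Solv.le_normalizer_centralizer (B := zpowers b) (zpowers_le.2 hbC) (mem_zpowers b) c).1 hc.2
    have hdV : d ∈ V := commutator_le_left V C hd
    have e1 : v = ⟨c, hc.1⟩ * ⟨d, hdV⟩ := Subtype.ext e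
    have e2 : (⟨b * v * b⁻¹, hV.conj_mem _ v.2 b⟩ : V) =
        ⟨b * c * b⁻¹, hV.conj_mem _ hc.1 b⟩ * ⟨b * d * b⁻¹, hV.conj_mem _ hdV b⟩ :=
      Subtype.ext (by
        change b * v * b⁻¹ = b * c * b⁻¹ * (b * d * b⁻¹)
        rw [e]; group)
    have h3 := Units.ext ((mem_inertia' V).1 hb' ⟨c, hc.1⟩)
    rw [MonoidHom.mul_apply, MonoidHom.mul_apply, h1 _ hc', h1 _ hc.2, mul_one, mul_one] at h3
    rw [e2, map_mul, h3, apply_eq_one_of_mem (x := ⟨b * d * b⁻¹, _⟩) (hl hd')]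
    conv_rhs => rw [e1, map_mul, apply_eq_one_of_mem (x := ⟨d, _⟩) (hl hd)]
  refine hmin _ ⟨l * l', rfl⟩ (lt_of_le_of_ne hle fun e => h2 ?_)
  have h4 := (le_inertia_hom V C (l * l')).1 (e.ge.trans inf_le_right)
  obtain ⟨c, hc, d, hd, e⟩ := hdec x hxV
  have hdV : d ∈ V := commutator_le_left V C hd
  have e1 : (⟨x, hxV⟩ : V) = ⟨c, hc.1⟩ * ⟨d, hdV⟩ := Subtype.ext e
  have h5 := apply_eq_one_of_mem (x := ⟨d, hdV⟩) (h4 hd)
  rw [MonoidHom.mul_apply, apply_eq_one_of_mem (hl hd), one_mul] at h5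
  rw [e1, map_mul, h1 _ hc.2, h5, mul_one]

/-- A regular orbit. Proof: among the `μ` with `Y ≤ kS μ` choose one with `St μ` minimal; always
`N ≤ Cent X Y ≤ St μ` (`le_Cent`, `Cent_le_St`). The subgroups containing `N` are `N ⊔ zpowers (a^j)`;
let `St μ = N ⊔ zpowers b`, `b = a^j`. Suppose `b ∉ Cent X Y`. By coprime action on `X / Y` (if every
`⁅b,x⁆` were centralised by `b` mod `Y`, then `comm_of_cop` in `G ⧸ Y` gives `b ∈ Cent`) there is
`w = ⁅b,x⁆ ∈ kS μ` with `⁅b,w⁆ ∉ Y`. Let `C = {x ∈ X | ⁅b,x⁆ ∈ Y}` (normal in `G`), take `λ` with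
`C ≤ kS λ`, not fixed by `b` (`exists_kS` for an element `⁅b,x⁆ ∉ C`). Then `St (μ λ) < St μ`: see
`Deg4.exists_regular` (`X = C ⁅X,b⁆`, `μ` is trivial on `⁅X,b⁆`, `λ` on `C`). Alternatively: apply
`Deg4.exists_regular` in the semidirect product of the image `X̄` of `X` in `G ⧸ Y` with `MulAut X̄`
(as in `Palfy.isCyclic_of_fix`), `B = zpowers (MulAut.conjNormal ā)`. -/
theorem exists_reg {p : ℕ} [Fact p.Prime] {N X Y : Subgroup G} [N.Normal] [X.Normal] [Y.Normal]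
    (le : Y ≤ X) (XN : X ≤ N) (c : ⁅X, N⁆ ≤ Y) (pX : IsPGroup p X) {a : G}
    (ha : (orderOf a).Coprime p) (gen : N ⊔ zpowers a = ⊤) (ne : ¬ X ≤ Y) :
    ∃ μ : X →* ℂˣ, Y ≤ kS μ ∧ μ ≠ 1 ∧ St (dual X) μ = Cent X Y := by
  have ab : ⁅X, X⁆ ≤ Y := (commutator_mono le_rfl XN).trans c
  suffices ∃ μ : X →* ℂˣ, Y ≤ kS μ ∧ St (dual X) μ = Cent X Y by
    obtain ⟨μ, m1, m2⟩ := this
    by_cases e : μ = 1
    · obtain ⟨w, hw, nw⟩ := SetLike.not_le_iff_exists.1 ne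
      obtain ⟨ν, n1, -, n2⟩ : ∃ ν : X →* ℂˣ, Y ≤ kS ν ∧ True ∧ ν ≠ 1 := by
        obtain ⟨ν, n1, n2⟩ := Deg4.exists_hom_sub X Y ab hw nw
        exact ⟨ν, fun y hy => (mem_kS (le hy)).2 (n1 _ hy), trivial, fun r => n2 (r ▸ rfl)⟩
      refine ⟨ν, n1, n2, le_antisymm (fun g _ => m2.le ?_) (Cent_le_St n1)⟩
      exact mem_St_dual.2 fun _ => e ▸ rfl
    · exact ⟨μ, m1, e, m2⟩
  obtain ⟨k, hk⟩ := (pX.map (QuotientGroup.mk' Y)).exists_card_eq
  have : (X.map (QuotientGroup.mk' Y)).Normal := Normal.map inferInstance _ (QuotientGroup.mk'_surjective Y)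
  obtain ⟨l, hl⟩ := reg_aux (X.map (QuotientGroup.mk' Y)) (zpowers (a : G ⧸ Y))
    (by rw [← map_commutator, Subgroup.map_eq_bot_iff, QuotientGroup.ker_mk']; exact ab)
    (by rintro _ ⟨i, rfl⟩ _ ⟨j, rfl⟩; exact zpow_mul_comm _ _ _)
    (by
      rw [hk, Nat.card_zpowers]
      exact (ha.coprime_dvd_left (orderOf_map_dvd (QuotientGroup.mk' Y) a)).pow_right k)
  have m1 : Y ≤ kS (l.comp ((QuotientGroup.mk' Y).subgroupMap X)) := fun y hy =>
    (mem_kS (le hy)).2 ((congrArg l (Subtype.ext ((QuotientGroup.eq_one_iff y).2 hy))).trans (map_one l))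
  refine ⟨_, m1, le_antisymm (fun g hg => ?_) (Cent_le_St m1)⟩
  obtain ⟨n, hn, _, ⟨j, rfl⟩, rfl⟩ := mem_sup_of_normal_left.1 (gen.ge (mem_top g))
  have h1 := le_Cent c hn
  replace hg := (mul_mem_cancel_left (Cent_le_St m1 h1)).1 hg
  refine mul_mem h1 (mem_Cent.2 fun x hx => mk_comm.2 (hl (x := ((a ^ j : G) : G ⧸ Y)) ⟨⟨j, rfl⟩,
    (mem_inertia' _).2 ?_⟩ _ ⟨x, hx, rfl⟩).symm)
  rintro ⟨_, y, hy, rfl⟩
  exact congrArg Units.val (mem_St_dual.1 hg ⟨y, hy⟩)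

end Cfsg.Agent.NDA
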