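import Cfsg.Agent.NDA.Van
import Cfsg.Agent.NDA.Reg
import Cfsg.Agent.PLocal.CommMod

/-! The nilpotent case: `N = E K`, `⁅K, E⁆ = 1`, the layers. -/

set_option autoImplicit false

namespace Cfsg.Agent.NDA.B1

open Subgroup Cfsg.Agent.Char Cfsg.Agent.Palfy
open scoped commutatorElement

variable {G : Type*} [Group G] [Finite G] {N X Y : Subgroup G} [N.Normal] {p : ℕ} {a g x : G}
  (h : B1 N p a)
include h

omit [Finite G] [N.Normal] in
theorem pq : IsPGroup p (N ⧸ center N) := fun q => by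
  obtain ⟨x, rfl⟩ := QuotientGroup.mk_surjective q
  obtain ⟨k, hk⟩ := h.pZ x x.2
  refine ⟨k, ?_⟩
  rw [← QuotientGroup.mk_pow, QuotientGroup.eq_one_iff]
  exact mem_center_iff.2 fun y => Subtype.ext (hk y y.2)

/-- `N / Z(N)` is a `p`-group (`pZ`), so `N` is nilpotent (`isNilpotent_of_ker_le_center`);
`Solv.eq_bot_of_le_commutator_of_isNilpotent`. -/
theorem nil (le : X ≤ N) (e : X ≤ ⁅X, N⁆) : X = ⊥ := by
  have := Fact.mk h.pp
  have := h.pq.isNilpotent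
  have hN : Group.IsNilpotent N :=
    Subgroup.isNilpotent_of_ker_le_center (QuotientGroup.mk' (center N)) (QuotientGroup.ker_mk' _).le
  exact Solv.eq_bot_of_le_commutator_of_isNilpotent hN le le_rfl e

/-- `IsIrrCharacter.deg_dvd_index_center` -/
theorem pw (ψ : IrrCharacter N) : ∃ k, charDegree ψ.1 = p ^ k := by
  have := Fact.mk h.pp
  have d := ψ.2.deg_dvd_index_center (coe_charDegree_irr ψ).symm
  obtain ⟨n, hn⟩ := h.pq.exists_card_eq
  rw [index_eq_card, hn] at d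
  obtain ⟨k, -, hk⟩ := (Nat.dvd_prime_pow h.pp).1 d
  exact ⟨k, hk⟩

/-- `|G : N|` divides `orderOf a` -/
theorem cf : N.index.Coprime p := by
  refine Nat.Coprime.coprime_dvd_left ?_ h.cop
  have e : zpowers (QuotientGroup.mk' N a) = ⊤ := by
    refine eq_top_iff.2 fun q _ => ?_
    obtain ⟨g, rfl⟩ := QuotientGroup.mk'_surjective N q
    obtain ⟨n, hn, j, rfl⟩ := exists_dec h.gen g
    rw [map_mul, map_pow, QuotientGroup.mk'_apply N n, (QuotientGroup.eq_one_iff n).2 hn, one_mul]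
    exact pow_mem (mem_zpowers _) j
  rw [index_eq_card, ← card_top, ← e, Nat.card_zpowers]
  exact orderOf_map_dvd _ _

/-- If `X ≤ Y` take `j = 1` (`a ∉ N` by `Ny.ex`). Else (replace `Y` by `X ⊓ Y`) `exists_reg`, `F1'`,
`exists_pow_notMem`. -/
theorem reg [X.Normal] [Y.Normal] (le : X ≤ ⁅N, N⁆) (c : ⁅X, N⁆ ≤ Y) :
    ∃ j : ℕ, a ^ j ∈ Cent X Y ∧ a ^ j ∉ N := by
  have := Fact.mk h.pp
  have XN : X ≤ N := le.trans (commutator_le_right N N)
  by_cases ne : X ≤ Y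
  · refine ⟨1, mem_Cent.2 fun x hx => ne (cm_mem _ hx), fun ha => ?_⟩
    obtain ⟨g, hg⟩ := h.toNy.ex
    rw [pow_one] at ha
    exact hg ((sup_le le_rfl (zpowers_le.2 ha) : N ⊔ zpowers a ≤ N) (h.gen ▸ mem_top g))
  · have c' : ⁅X, N⁆ ≤ X ⊓ Y := le_inf (commutator_le_left X N) c
    obtain ⟨μ, -, m1, hS⟩ := exists_reg (N := N) (X := X) (Y := X ⊓ Y) inf_le_left XN c'
      (h.pN.to_le le) h.cop h.gen fun hh => ne (hh.trans inf_le_right)
    obtain ⟨j, j1, j2⟩ := exists_pow_notMem h.gen (le_Cent c') (hS ▸ h.toNy.F1' le m1)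
    exact ⟨j, mem_Cent.2 fun x hx => (mem_Cent.1 j1 x hx).2, j2⟩

/-- `Solv.coprime_fixed_coset'` for `zpowers a` acting on `γ₂` -/
theorem DK (hx : x ∈ CC N) : ∃ k ∈ KK N a, ∃ w ∈ ⁅N, N⁆, x = k * w := by
  have := Fact.mk h.pp
  obtain ⟨n, hn, hc⟩ := Solv.coprime_fixed_coset' (zpowers a) ⁅N, N⁆ le_normalizer_of_normal
    (Solv.coprime_card_of_isPGroup h.pN (by rw [Nat.card_zpowers]; exact h.cop))
    (Or.inr (Solv.isSolvable_of_isPGroup h.pN)) x fun b _ => by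
      have := Normal.conj_mem' inferInstance _ (mem_CC.1 hx b) x
      simpa [commutatorElement_def, mul_assoc] using this
  refine ⟨x * n, mem_KK.2 ⟨mul_mem hx (le_CC hn), (hc a (mem_zpowers a)).symm⟩, n⁻¹, inv_mem hn, ?_⟩
  rw [mul_inv_cancel_right]

theorem KD : KK N a ⊔ ⁅N, N⁆ = CC N := by
  refine le_antisymm (sup_le inf_le_left le_CC) fun x hx => ?_
  obtain ⟨k, hk, w, hw, rfl⟩ := h.DK hx
  exact mul_mem (mem_sup_left hk) (mem_sup_right hw)

/-- `Ny.dec`, `DK`, `γ₂ ≤ E` -/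
theorem EK (hx : x ∈ N) : ∃ e ∈ ⁅(⊤ : Subgroup G), N⁆, ∃ k ∈ KK N a, x = e * k := by
  obtain ⟨e, he, d, hd, rfl⟩ := h.toNy.dec hx
  obtain ⟨k, hk, w, hw, rfl⟩ := h.DK hd
  refine ⟨e * (k * w * k⁻¹), mul_mem he (gE (Normal.conj_mem inferInstance w hw k)), k, hk, ?_⟩
  group

end Cfsg.Agent.NDA.B1
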