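import Cfsg.Agent.NDA.Lin

/-! Characters lying over invariant linear characters (S4780). -/

set_option autoImplicit false

namespace Cfsg.Agent.NDA

open Subgroup Cfsg.Agent.Char Cfsg.Agent.Palfy
open scoped commutatorElement

variable {G : Type*} [Group G] [Finite G] {Y M R X : Subgroup G}

theorem ly_one_ne (θ : IrrCharacter M) : θ.1 1 ≠ 0 := by
  rw [← coe_charDegree_irr]
  exact_mod_cast charDegree_irr_ne_zero θ

theorem ly_norm_of_comm (θ : IrrCharacter M) {y : M} (h : ∀ m : M, ⁅m.1, y.1⁆ ∈ kC θ) :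
    ‖θ.1 y‖ = ‖θ.1 1‖ := by
  have := charKer_normal θ.2.isCharacter.isClassFunction
  obtain ⟨ψ, hψ⟩ := exists_irr_deflation (charKer θ.1) θ.2 fun n hn => (mem_charKer_irr θ).1 hn
  have hz : (y : M ⧸ charKer θ.1) ∈ center (M ⧸ charKer θ.1) := by
    rw [mem_center_iff]
    intro q
    obtain ⟨m, rfl⟩ := QuotientGroup.mk_surjective q
    obtain ⟨k, hk, e⟩ := h m
    have e' : k = ⁅m, y⁆ := Subtype.ext e
    rw [← commutatorElement_eq_one_iff_mul_comm]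
    have : ((⁅m, y⁆ : M) : M ⧸ charKer θ.1) = 1 := (QuotientGroup.eq_one_iff _).2 (e' ▸ hk)
    simpa [commutatorElement_def] using this
  have := norm_eq_of_mem_center ψ.2 hz
  rwa [hψ, ← QuotientGroup.mk_one, hψ] at this

theorem ly_mul_of_norm (θ : IrrCharacter M) {y : M} (h : ‖θ.1 y‖ = ‖θ.1 1‖) (x : M) :
    θ.1 (y * x) = θ.1 y / θ.1 1 * θ.1 x := by
  obtain ⟨ω, -, h2⟩ := (isCharacter_norm_eq_iff θ.2.isCharacter y).1 h
  have h3 := h2 1
  rw [mul_one] at h3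
  rw [h2, h3, mul_div_cancel_right₀ _ (ly_one_ne θ)]

omit [Finite G] in
theorem ly_norm_val [Finite Y] (ν : Y →* ℂˣ) (y : Y) : ‖(ν y : ℂ)‖ = 1 := by
  have h : (ν y : ℂ) ^ orderOf y = 1 := by
    rw [← Units.val_pow_eq_pow_val, ← map_pow, pow_orderOf_eq_one, map_one, Units.val_one]
  exact Complex.norm_eq_one_of_pow_eq_one h (orderOf_pos y).ne'

/-- Proof: `exists_nmult_ne_zero_above`-like lemma of `Char/AmbExt` and `restrict_eq_of_invBy`
(`lin ν` is `InvBy M`; `M ≤ normalizer Y` because `m y m⁻¹ = ⁅m,y⁆ y`). -/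
theorem over_ly (le : Y ≤ M) (ν : Y →* ℂˣ) (h : ⁅M, Y⁆ ≤ kS ν) : ∃ θ : IrrCharacter M, Ly θ ν := by
  obtain ⟨θ, hθ⟩ := exists_nmult_ne_zero_above le (lin ν)
  have cm : ∀ m ∈ M, ∀ y ∈ Y, ⁅m, y⁆ ∈ kS ν := fun m hm y hy => h (commutator_mem_commutator hm hy)
  have cj : ∀ m ∈ M, ∀ y ∈ Y, m * y * m⁻¹ ∈ Y := fun m hm y hy => by
    have := mul_mem (kS_le ν (cm m hm y hy)) hy
    simpa [commutatorElement_def] using this
  have hN : M ≤ normalizer (Y : Set G) := fun m hm => mem_normalizer_iff.2 fun y =>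
    ⟨cj m hm y, fun hy => by simpa [mul_assoc] using cj m⁻¹ (inv_mem hm) _ hy⟩
  have hI : InvBy M (lin ν).1 := fun m hm g g' e => by
    have h1 := (mem_kS (kS_le ν (cm m hm g g.2))).1 (cm m hm g g.2)
    have e' : g' = ⟨⁅m, g.1⁆, kS_le ν (cm m hm g g.2)⟩ * g :=
      Subtype.ext (by simp [e, commutatorElement_def])
    simp only [lin]
    rw [e', map_mul, h1, one_mul]
  refine ⟨θ, fun y hy => ?_⟩
  have h1 := restrict_eq_of_invBy le hN θ hI hθ y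
  have h2 := restrict_eq_of_invBy le hN θ hI hθ 1
  simp only [lin, map_one, Units.val_one, mul_one] at h1 h2
  rw [h1, ← h2]; rfl

/-- Proof: a constituent `ξ` of the restriction (`exists_nmult_ne_zero_below`) is `M`-invariant and
linear as `⁅M,Y⁆ ≤ kC θ` lies in its kernel; or: `y ∈ Y` is central modulo `charKer θ`, so
`‖θ y‖ = ‖θ 1‖` (`exists_irr_deflation`, `norm_eq_of_mem_center`), and `ν y = θ y / θ 1` is
multiplicative by `isCharacter_norm_eq_iff`. -/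
theorem under_ly (le : Y ≤ M) (θ : IrrCharacter M) (h : ⁅M, Y⁆ ≤ kC θ) : ∃ ν : Y →* ℂˣ, Ly θ ν := by
  have hn : ∀ y : Y, ‖θ.1 ⟨y, le y.2⟩‖ = ‖θ.1 1‖ := fun y =>
    ly_norm_of_comm θ fun m => h (commutator_mem_commutator m.2 y.2)
  let f : Y →* ℂ :=
    { toFun := fun y => θ.1 ⟨y, le y.2⟩ / θ.1 1
      map_one' := div_self (ly_one_ne θ)
      map_mul' := fun a b => by
        rw [show (⟨(a * b : Y), le (a * b).2⟩ : M) = ⟨a, le a.2⟩ * ⟨b, le b.2⟩ from rfl,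
          ly_mul_of_norm θ (hn a), mul_div_assoc] }
  refine ⟨f.toHomUnits, fun y hy => ?_⟩
  rw [MonoidHom.coe_toHomUnits]
  exact (mul_div_cancel₀ _ (ly_one_ne θ)).symm

namespace Ly

variable {θ : IrrCharacter M} {ν : Y →* ℂˣ} (h : Ly θ ν)
include h

/-- `isCharacter_norm_eq_iff` -/
theorem mul (y : Y) (hy : y.1 ∈ M) (x : M) : θ.1 (⟨y, hy⟩ * x) = ν y * θ.1 x := by
  rw [ly_mul_of_norm θ (by rw [h y hy, norm_mul, ly_norm_val, mul_one]), h y hy,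
    mul_div_cancel_left₀ _ (ly_one_ne θ)]

theorem ker (le : Y ≤ M) {y : G} (hy : y ∈ Y) : y ∈ kC θ ↔ y ∈ kS ν := by
  rw [mem_kC (le hy), mem_kS hy, h ⟨y, hy⟩ (le hy), mul_right_eq_self₀, or_iff_left (ly_one_ne θ),
    Units.val_eq_one]

theorem comp (le : X ≤ Y) : Ly θ (ν.comp (inclusion le)) := by
  intro x hx
  exact h (inclusion le x) hx

theorem inertia_le [M.Normal] [Y.Normal] (le : Y ≤ M) : inertia M θ.1 ≤ St (dual Y) ν := by
  intro g hg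
  refine mem_St_dual.2 fun n => Units.ext (mul_left_cancel₀ (ly_one_ne θ) ?_)
  rw [← h _ (le (Normal.conj_mem inferInstance _ n.2 g)), ← h n (le n.2)]
  exact (mem_inertia' M).1 hg ⟨n, le n.2⟩

theorem invL [M.Normal] (le : Y ≤ M) {c : G} (hc : c ∈ inertia M θ.1) : InvL ν c := by
  intro r r' e
  refine Units.ext (mul_left_cancel₀ (ly_one_ne θ) ?_)
  rw [← h r' (le r'.2), ← h r (le r.2), ← (mem_inertia' M).1 hc ⟨r, le r.2⟩]
  exact congrArg θ.1 (Subtype.ext e)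

/-- `θ x = θ (y x y⁻¹) = θ (⁅y,x⁆ x) = ν ⁅y,x⁆ θ x` -/
theorem vanish (le : Y ≤ M) {x : M} {y : G} (hy : y ∈ M) (h1 : ⁅y, x.1⁆ ∈ Y) (h2 : ⁅y, x.1⁆ ∉ kS ν) :
    θ.1 x = 0 := by
  have h3 := h.mul ⟨_, h1⟩ (le h1) x
  have h4 : (⟨⁅y, x.1⁆, le h1⟩ * x : M) = ⟨y, hy⟩ * x * (⟨y, hy⟩ : M)⁻¹ :=
    Subtype.ext (by simp [commutatorElement_def])
  rw [h4, θ.2.isCharacter.isClassFunction] at h3
  by_contra h0
  exact h2 ((mem_kS h1).2 (Units.val_eq_one.1 (by simpa [h0] using h3.symm)))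

end Ly

/-- Full ramification. Proof: `vanish_off_iff_inner_restrict` for `Z.subgroupOf M` gives
`|Z|⁻¹ ∑_{z ∈ Z} ‖θ z‖² = |M : Z|`, and `‖θ z‖ ≤ θ 1` with equality iff `z` is central modulo the kernel
(`commutator_mem_charKer_of_norm_eq`, `under_ly`); compare `charDegree_sq_le_index_center`. -/
theorem ram_iff {Z : Subgroup G} (le : Z ≤ M) (θ : IrrCharacter M) (h : ∀ x : M, x.1 ∉ Z → θ.1 x = 0) :
    charDegree θ.1 ^ 2 = Z.relIndex M ↔ ⁅M, Z⁆ ≤ kC θ := by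
  have := Fintype.ofFinite M
  have := Fintype.ofFinite (Z.subgroupOf M)
  have h1 := (vanish_off_iff_inner_restrict (Z.subgroupOf M) θ.1).1 h
  rw [θ.2.inner_self, classInner_self_eq_sum_normSq, mul_one] at h1
  have hc : (0 : ℝ) < Nat.card (Z.subgroupOf M) := by exact_mod_cast Nat.card_pos
  have h2 : ∑ z : Z.subgroupOf M, ‖θ.1 z‖ ^ 2 = Nat.card (Z.subgroupOf M) * (Z.relIndex M : ℝ) := by
    have h3 : (Nat.card (Z.subgroupOf M) : ℝ)⁻¹ * ∑ z : Z.subgroupOf M, ‖θ.1 z‖ ^ 2 =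
        (Z.relIndex M : ℝ) := by exact_mod_cast h1
    rw [← h3, mul_inv_cancel_left₀ hc.ne']
  have h4 : ∑ _z : Z.subgroupOf M, ‖θ.1 1‖ ^ 2 =
      Nat.card (Z.subgroupOf M) * (charDegree θ.1 : ℝ) ^ 2 := by
    rw [Finset.sum_const, nsmul_eq_mul, Finset.card_univ, ← Nat.card_eq_fintype_card,
      norm_one_eq_charDegree θ.2.isCharacter]
  have h5 : ∀ z ∈ (Finset.univ : Finset (Z.subgroupOf M)), ‖θ.1 z‖ ^ 2 ≤ ‖θ.1 1‖ ^ 2 := fun z _ =>
    pow_le_pow_left₀ (norm_nonneg _) (isCharacter_norm_le θ.2.isCharacter _) 2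
  have h6 := Finset.sum_eq_sum_iff_of_le h5
  rw [h2, h4, mul_right_inj' hc.ne'] at h6
  constructor
  · intro e
    have h7 := h6.1 (by exact_mod_cast e.symm)
    rw [commutator_comm, commutator_le]
    intro z hz m hm
    have h8 := (pow_left_inj₀ (norm_nonneg _) (norm_nonneg _) two_ne_zero).1
      (h7 ⟨⟨z, le hz⟩, hz⟩ (Finset.mem_univ _))
    exact ⟨_, commutator_mem_charKer_of_norm_eq θ.2.isCharacter h8 ⟨m, hm⟩, rfl⟩
  · intro e
    have h7 := h6.2 fun z _ => by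
      rw [ly_norm_of_comm θ fun m => e (commutator_mem_commutator m.2 z.2)]
    exact_mod_cast h7.symm

end Cfsg.Agent.NDA
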