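import Cfsg.Agent.NDA.B1a
import Cfsg.Agent.NDA.Ly

/-! (S4780, captain helper13; proof by helper31.) The nilpotent case: fully ramified layers. -/

set_option autoImplicit false

namespace Cfsg.Agent.NDA.B1

open Subgroup Cfsg.Agent.Char Cfsg.Agent.Palfy
open scoped commutatorElement

variable {G : Type*} [Group G] [Finite G] {N X Y : Subgroup G} [N.Normal] {p m s : ℕ} {a g x : G}
  (h : B1 N p a)
include h

/-- the inertia group of a fully ramified character is the stabiliser of the linear character below -/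
theorem fram_inert [X.Normal] (XN : X ≤ N) {ψ : IrrCharacter N} {μ : X →* ℂˣ} (ly : Ly ψ μ)
    (hN : N ≤ St (dual X) μ) (van : ∀ x : N, x.1 ∉ KK N a ⊔ X → ψ.1 x = 0) :
    inertia N ψ.1 = St (dual X) μ := by
  refine le_antisymm (ly.inertia_le XN) fun g hg => ?_
  obtain ⟨n, hn, j, rfl⟩ := exists_dec h.gen g
  refine mul_mem (le_inertia' N ψ hn) ?_
  have hc : a ^ j ∈ St (dual X) μ := by
    have := mul_mem (inv_mem (hN hn)) hg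
    rwa [inv_mul_cancel_left] at this
  have ck : ∀ k ∈ KK N a, a ^ j * k = k * a ^ j := fun k hk =>
    (Commute.pow_left (show Commute a k from (mem_KK.1 hk).2.symm) j).eq
  refine (mem_inertia' _).2 fun x => ?_
  by_cases hx : x.1 ∈ KK N a ⊔ X
  · rw [sup_comm] at hx
    obtain ⟨w, hw, k, hk, e⟩ := mem_sup_of_normal_left.1 hx
    have kN : k ∈ N := h.toNy.CC_le (mem_KK.1 hk).1
    have e1 : x = ⟨w, XN hw⟩ * ⟨k, kN⟩ := Subtype.ext e.symm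
    have w2 : a ^ j * w * (a ^ j)⁻¹ ∈ X := Normal.conj_mem inferInstance w hw _
    have e2 : (⟨a ^ j * x * (a ^ j)⁻¹, Normal.conj_mem inferInstance _ x.2 _⟩ : N) =
        ⟨a ^ j * w * (a ^ j)⁻¹, XN w2⟩ * ⟨k, kN⟩ := Subtype.ext (by
      change a ^ j * x.1 * (a ^ j)⁻¹ = a ^ j * w * (a ^ j)⁻¹ * k
      rw [← e]
      calc a ^ j * (w * k) * (a ^ j)⁻¹ = a ^ j * w * (a ^ j)⁻¹ * (a ^ j * k) * (a ^ j)⁻¹ := by group
        _ = _ := by rw [ck k hk]; group)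
    have m1 := ly.mul ⟨_, w2⟩ (XN w2) ⟨k, kN⟩
    have m2 := ly.mul ⟨w, hw⟩ (XN hw) ⟨k, kN⟩
    have m3 := mem_St_dual.1 hc ⟨w, hw⟩
    rw [e2, e1]
    exact m1.trans ((congrArg (fun u : ℂˣ => (u : ℂ) * ψ.1 ⟨k, kN⟩) m3).trans m2.symm)
  · rw [van x hx]
    refine van _ fun h' => hx ?_
    rw [sup_comm] at h' ⊢
    obtain ⟨w, hw, k, hk, e⟩ := mem_sup_of_normal_left.1 h'
    have e' : w * k = a ^ j * x.1 * (a ^ j)⁻¹ := e
    have w2 : (a ^ j)⁻¹ * w * a ^ j ∈ X := Normal.conj_mem' inferInstance w hw _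
    refine mem_sup_of_normal_left.2 ⟨_, w2, k, hk, ?_⟩
    calc (a ^ j)⁻¹ * w * a ^ j * k = (a ^ j)⁻¹ * w * (a ^ j * k) := by group
      _ = (a ^ j)⁻¹ * (w * k) * a ^ j := by rw [ck k hk]; group
      _ = _ := by rw [e']; group

/-- Proof. `Z = K ⊔ X ≤ N`, `⁅N,Z⁆ ≤ Y`. (1) Let `ψ ∈ Irr N` with `Y ≤ kC ψ`, `¬ X ≤ kC ψ`; `ram_iff`
gives `ψ(1)² = |N : Z|`; `under_ly` gives `μ` with `Ly ψ μ`, `Y ≤ kS μ`, `μ ≠ 1` (`Ly.ker`).
`inertia N ψ = St μ`: `≤` is `Ly.inertia_le`. Conversely `g = n c`, `c = a^j` (`exists_dec`), `N ≤ St μ`, so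
`c ∈ St μ`; `c` normalises `Z`, so off `Z` both `ψ x` and `ψ (c x c⁻¹)` vanish; on `Z`, `x = w k`
(`mem_sup_of_normal_right`), `c x c⁻¹ = (c w c⁻¹) k`, use `Ly.mul`. So `DD N (|G : St μ| ψ(1))` (`dN`; `ψ` is
nonlinear as `X ≤ γ₂`). (2) For every `μ ≠ 1` with `Y ≤ kS μ` there is such a `ψ` (`over_ly`). Take `μ₀` from
`exists_reg`, `m = ψ₀(1)`. All such `ψ` have degree `m` (equal squares), `Cent X Y ≤ St μ`, so
`|G : St μ| m ∣ |G : Cent| m`, `nd` gives equal indices, so `St μ = Cent X Y`. (3) For `χ` take `ψ` from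
`exists_un N χ`, use `Ov.ker`, `Ov.cyc`. -/
theorem fram [X.Normal] [Y.Normal] (le : Y ≤ X) (ne : ¬ X ≤ Y) (lX : X ≤ ⁅N, N⁆) (c : ⁅X, N⁆ ≤ Y)
    (kc : ⁅KK N a, N⁆ ≤ Y)
    (van : ∀ ψ : IrrCharacter N, Y ≤ kC ψ → ¬ X ≤ kC ψ → ∀ x : N, x.1 ∉ KK N a ⊔ X → ψ.1 x = 0) :
    SS X Y ∧ ∃ m, m ^ 2 = (KK N a ⊔ X).relIndex N ∧ (∃ k, m = p ^ k) ∧
      DD N ((Cent X Y).index * m) ∧ ∀ χ : IrrCharacter G, Y ≤ charKer χ.1 → ¬ X ≤ charKer χ.1 →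
        charDegree χ.1 = (Cent X Y).index * m := by
  have := Fact.mk h.pp
  have XN : X ≤ N := lX.trans (commutator_le_self N)
  have ZN : KK N a ⊔ X ≤ N := sup_le (inf_le_left.trans h.toNy.CC_le) XN
  have ZC : KK N a ⊔ X ≤ Cent N Y :=
    sup_le (fun k hk => mem_Cent.2 fun n hn => kc (commutator_mem_commutator hk hn))
      (fun k hk => mem_Cent.2 fun n hn => c (commutator_mem_commutator hk hn))
  have NZ : ⁅N, KK N a ⊔ X⁆ ≤ Y := by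
    rw [commutator_comm]
    exact commutator_le.2 fun z hz n hn => mem_Cent.1 (ZC hz) n hn
  have NX : ⁅N, X⁆ ≤ Y := by rwa [commutator_comm]
  have sq : ∀ ψ : IrrCharacter N, Y ≤ kC ψ → ¬ X ≤ kC ψ →
      charDegree ψ.1 ^ 2 = (KK N a ⊔ X).relIndex N := fun ψ h1 h2 =>
    (ram_iff ZN ψ (van ψ h1 h2)).2 (NZ.trans h1)
  have nl : ∀ ψ : IrrCharacter N, ¬ X ≤ kC ψ → charDegree ψ.1 ≠ 1 := fun ψ h2 e =>
    h2 (lX.trans ((comm_le_kC ψ).2 e))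
  have k1 : ∀ ψ : IrrCharacter N, Y ≤ kC ψ → ¬ X ≤ kC ψ →
      ∃ μ : X →* ℂˣ, Y ≤ kS μ ∧ μ ≠ 1 ∧ inertia N ψ.1 = St (dual X) μ := fun ψ h1 h2 => by
    obtain ⟨μ, ly⟩ := under_ly XN ψ (NX.trans h1)
    have hY : Y ≤ kS μ := fun y hy => (ly.ker XN (le hy)).1 (h1 hy)
    exact ⟨μ, hY, fun e => h2 fun y hy => (ly.ker XN hy).2 (le_kS_iff.2 e hy),
      h.fram_inert XN ly ((le_Cent c).trans (Cent_le_St hY)) (van ψ h1 h2)⟩
  have k2 : ∀ μ : X →* ℂˣ, Y ≤ kS μ → μ ≠ 1 → ∃ ψ : IrrCharacter N, Y ≤ kC ψ ∧ ¬ X ≤ kC ψ ∧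
      inertia N ψ.1 = St (dual X) μ := fun μ hY hμ => by
    obtain ⟨ψ, ly⟩ := over_ly XN μ (NX.trans hY)
    have h1 : Y ≤ kC ψ := fun y hy => (ly.ker XN (le hy)).2 (hY hy)
    have h2 : ¬ X ≤ kC ψ := fun e => hμ (le_kS_iff.1 fun y hy => (ly.ker XN hy).1 (e hy))
    exact ⟨ψ, h1, h2, h.fram_inert XN ly ((le_Cent c).trans (Cent_le_St hY)) (van ψ h1 h2)⟩
  obtain ⟨μ₀, a1, a2, a3⟩ := exists_reg le XN c (h.pN.to_le lX) h.cop h.gen ne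
  obtain ⟨ψ₀, b1, b2, b3⟩ := k2 μ₀ a1 a2
  have d0 : DD N ((Cent X Y).index * charDegree ψ₀.1) := by
    have := h.toNy.dN (nl ψ₀ b2)
    rwa [b3, a3] at this
  have dg : ∀ ψ : IrrCharacter N, Y ≤ kC ψ → ¬ X ≤ kC ψ → charDegree ψ.1 = charDegree ψ₀.1 :=
    fun ψ h1 h2 => Nat.pow_left_injective two_ne_zero ((sq ψ h1 h2).trans (sq ψ₀ b1 b2).symm)
  have ss : SS X Y := fun μ hY hμ => by
    obtain ⟨ψ, h1, h2, h3⟩ := k2 μ hY hμ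
    have d1 := h.toNy.dN (nl ψ h2)
    rw [h3, dg ψ h1 h2] at d1
    have lt : Cent X Y ≤ St (dual X) μ := Cent_le_St hY
    have e := h.nd _ _ d1 d0 (Nat.mul_dvd_mul_right (index_dvd_of_le lt) _)
    have e1 := Nat.eq_of_mul_eq_mul_right (charDegree_irr_pos ψ₀) e
    have e2 := relIndex_mul_index lt
    rw [← e1, Nat.mul_eq_right index_ne_zero_of_finite] at e2
    exact le_antisymm (relIndex_eq_one.1 e2) lt
  refine ⟨ss, charDegree ψ₀.1, sq ψ₀ b1 b2, h.pw ψ₀, d0, fun χ c1 c2 => ?_⟩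
  obtain ⟨ψ, o⟩ := exists_un N χ
  have h1 : Y ≤ kC ψ := (o.ker Y inferInstance (le.trans XN)).1 c1
  have h2 : ¬ X ≤ kC ψ := fun e => c2 ((o.ker X inferInstance XN).2 e)
  obtain ⟨μ, e1, e2, e3⟩ := k1 ψ h1 h2
  rw [o.cyc h.cyc, e3, ss μ e1 e2, dg ψ h1 h2]

end Cfsg.Agent.NDA.B1
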