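import Cfsg.Agent.NDA.B1k
import Cfsg.Agent.NDA.B1f

/-! STUB (S4780, captain helper13). The nilpotent case: the class two quotient. -/

set_option autoImplicit false

namespace Cfsg.Agent.NDA.B1

open Subgroup Cfsg.Agent.Char Cfsg.Agent.Palfy
open scoped commutatorElement

variable {G : Type*} [Group G] [Finite G] {N X Y : Subgroup G} [N.Normal] {p m s : ℕ} {a g x : G}
  (h : B1 N p a)
include h

/-- Proof. Take `ψ` from `exists_un N χ`: `χ(1) = e ψ(1)`, `e ∣ |G:N|`; `ψ` is nonlinear (`⁅N,D⁆ ≤ γ₂`),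
vanishes off `D`, so `m² ∣ ψ(1)²` (`index_dvd_sq_of_vanish` for `(CC N).subgroupOf N`), `m ∣ ψ(1)`. If
`s ∣ χ(1)` then `s m ∣ χ(1)` (coprime by `cf`), so `χ(1) = s m` (`nd`), `ψ(1) ∣ m` (`pw`, `cf`), `ψ(1) = m`,
and `ram_iff` gives `⁅N,D⁆ ≤ kC ψ`, so `⁅N,D⁆ ≤ charKer χ` (`Ov.ker`). -/
theorem big (h1 : m ^ 2 = (CC N).relIndex N) (h2 : ∃ k, m = p ^ k) (h3 : s ∣ N.index)
    (h4 : DD N (s * m)) {χ : IrrCharacter G} (h5 : ¬ ⁅N, CC N⁆ ≤ charKer χ.1) :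
    ¬ s ∣ charDegree χ.1 := by
  intro hs
  obtain ⟨ψ, o⟩ := exists_un N χ
  obtain ⟨e, he, -⟩ := o.mul
  have nl : ¬ ⁅N, N⁆ ≤ charKer χ.1 := fun c => h5 ((commutator_mono le_rfl h.toNy.CC_le).trans c)
  have van := fun (x : N) (hx : x.1 ∉ CC N) => h.toNy.vanish hx ψ (mt o.dd_iff.2 nl)
  have d1 : m ∣ charDegree ψ.1 := (Nat.pow_dvd_pow_iff two_ne_zero).1
    (h1 ▸ index_dvd_sq_of_vanish ((CC N).subgroupOf N) ψ.2 van)
  obtain ⟨k, rfl⟩ := h2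
  obtain ⟨j, hj⟩ := h.pw ψ
  have co := h.cf.coprime_dvd_left h3
  have d2 := h.nd _ _ h4 ⟨χ, nl, rfl⟩ ((co.pow_right k).mul_dvd_of_dvd_of_dvd hs
    (he ▸ d1.mul_left e))
  have d3 : charDegree ψ.1 ∣ p ^ k := Nat.Coprime.dvd_of_dvd_mul_left
    (hj ▸ (co.pow_right j).symm) (d2 ▸ he ▸ Dvd.intro_left e rfl)
  exact h5 ((o.ker _ inferInstance (commutator_le_left _ _)).2 ((ram_iff h.toNy.CC_le ψ van).1
    (by rw [Nat.dvd_antisymm d3 d1, h1])))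

/-- Proof. `reg` for `(γ₃, γ₄)` gives `c = a^j ∉ N` centralising `γ₃ / γ₄`; `c ∈ Cent γ₂ γ₃`, so `lay`
gives `γ₃ ≤ γ₄`, `γ₃ = ⊥` (`nil`). So `a` centralises `γ₂`, hence `D = K γ₂`. A nonlinear `ψ` vanishes off
`D`, so it is fixed by `a`, `inertia N ψ = ⊤`; by `exN`, `pw` every `DD` degree is a power of `p`; `nd`. -/
theorem case1 (c : a ∈ Cent ⁅N, N⁆ ⁅⁅N, N⁆, N⁆) :
    ⁅⁅N, N⁆, N⁆ = ⊥ ∧ ∀ d d', DD N d → DD N d' → d = d' := by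
  have e : ⁅⁅N, N⁆, N⁆ = ⊥ := by
    obtain ⟨j, h1, h2⟩ := h.reg (X := ⁅⁅N, N⁆, N⁆) (commutator_le_left _ _) le_rfl
    exact h.nil (commutator_le_right _ _) fun y hy =>
      h.lay le_rfl h2 (pow_mem c j) y hy (mem_Cent.1 h1 y hy)
  have ca : ∀ x ∈ CC N, a * x = x * a := fun x hx => by
    obtain ⟨k, hk, w, hw, rfl⟩ := h.DK hx
    have := commutatorElement_eq_one_iff_mul_comm.1 (mem_bot.1 (e.le (mem_Cent.1 c w hw)))
    rw [← mul_assoc, ← (mem_KK.1 hk).2, mul_assoc, this, mul_assoc]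
  have pw : ∀ d, DD N d → ∃ k, d = p ^ k := fun d hd => by
    obtain ⟨ψ, ne, rfl⟩ := h.toNy.exN hd
    have : inertia N ψ.1 = ⊤ := top_le_iff.1 (h.gen.ge.trans (sup_le
      (le_inertia N ψ.2.isCharacter.isClassFunction) (zpowers_le.2 (funext fun n => ?_))))
    · rw [this, index_top, one_mul]
      exact h.pw ψ
    by_cases k : n.1 ∈ CC N
    · exact congrArg ψ.1 (Subtype.ext (by simp [ca _ k]))
    · rw [h.toNy.vanish k ψ ne]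
      exact h.toNy.vanish (fun r => k (by simpa [mul_assoc] using Normal.conj_mem' inferInstance _ r a)) ψ ne
  refine ⟨e, fun d d' hd hd' => ?_⟩
  obtain ⟨i, rfl⟩ := pw d hd
  obtain ⟨j, rfl⟩ := pw d' hd'
  exact (le_total i j).elim (fun l => h.nd _ _ hd hd' (pow_dvd_pow p l))
    fun l => (h.nd _ _ hd' hd (pow_dvd_pow p l)).symm

/-- Proof. `K' = ⁅K,K⁆ ≤ γ₂ ≤ E` is centralised by `E`, `K` (`KC`) and `a`, so it is central in `G`;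
`⁅K,N⁆ ≤ K'` (`EK`, `KC`). `Y = γ₃ ⊔ K'` is normal; `a ∉ Cent γ₂ Y` (else for `w ∈ γ₂`, `⁅a,w⁆ ∈ Y` is
centralised by `a` modulo... careful: `Y = γ₃ K'`, `⁅a, t k⁆ = ⁅a,t⁆ ∈ γ₃`; `comm_of_cop` in `G ⧸ γ₃` gives
`⁅a,w⁆ ∈ γ₃`). `fram` for `(γ₂, Y)` (`vanish`, `KD`) gives `m`, `s = |G : Cent γ₂ Y|`, `SS γ₂ Y`. Suppose
`w ∈ K' \ γ₃`. `exists_inv_hom` gives `μ₁` trivial on `γ₃`, `w ∉ kS μ₁`, `St μ₁ = ⊤`; take `μ₂ ≠ 1` trivial
on `Y` (`exists_kS`). Then `St (μ₁ μ₂) = St μ₂ = Cent γ₂ Y`, `w ∉ kS (μ₁ μ₂)`; for `χ` over `lin (μ₁ μ₂)`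
(`exists_ov`, `Ov.St_dvd`, `Ov.ker'`, `kC_lin`) `s ∣ χ(1)`, `w ∈ ⁅N,D⁆ \ charKer χ`, against `big`. So
`K' ≤ γ₃`, `K' = ⊥` by `fpf3`, and `K` commutes with `E`, `K`, `a`. -/
theorem kcen (c : a ∉ Cent ⁅N, N⁆ ⁅⁅N, N⁆, N⁆) : KK N a ≤ center G := by
  have := Fact.mk h.pp
  have KD : KK N a ≤ CC N := inf_le_left
  have KN := KD.trans h.toNy.CC_le
  have cen : ∀ w ∈ KK N a, (∀ k ∈ KK N a, k * w = w * k) → w ∈ center G := fun w hw hk =>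
    mem_center_iff.2 fun g => by
      obtain ⟨n, hn, j, rfl⟩ := exists_dec h.gen g
      obtain ⟨e, he, k, hk', rfl⟩ := h.EK hn
      exact ((Commute.mul_left (h.KC hw he).symm (hk k hk')).mul_left
        (Commute.pow_left (mem_KK.1 hw).2.symm j)).eq
  have K2 : ⁅KK N a, KK N a⁆ ≤ ⁅N, N⁆ := commutator_mono KN KN
  have KK' := commutator_le_self (KK N a)
  have Kc : ⁅KK N a, KK N a⁆ ≤ center G := fun w hw => cen w (KK' hw) fun k hk => h.KC hk (gE (K2 hw))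
  have nK : (⁅KK N a, KK N a⁆).Normal :=
    ⟨fun n hn g => by rwa [mem_center_iff.1 (Kc hn) g, mul_inv_cancel_right]⟩
  have kc : ⁅KK N a, N⁆ ≤ ⁅KK N a, KK N a⁆ := commutator_le.2 fun k hk n hn => by
    obtain ⟨e, he, k', hk', rfl⟩ := h.EK hn
    rw [show ⁅k, e * k'⁆ = e * ⁅k, k'⁆ * e⁻¹ by
      rw [commutatorElement_def, commutatorElement_def, ← mul_assoc k, h.KC hk he]; group]
    exact nK.conj_mem _ (commutator_mem_commutator hk hk') e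
  have g3 : ⁅⁅N, N⁆, N⁆ ≤ ⁅N, N⁆ := commutator_le_left _ _
  have ab : ⁅⁅N, N⁆, ⁅N, N⁆⁆ ≤ ⁅⁅N, N⁆, N⁆ := commutator_mono le_rfl (commutator_le_self N)
  have le := sup_le g3 K2
  have ne : ¬ ⁅N, N⁆ ≤ ⁅⁅N, N⁆, N⁆ ⊔ ⁅KK N a, KK N a⁆ := fun r => c (mem_Cent.2 fun w hw => by
    obtain ⟨t, ht, k, hk, e⟩ := mem_sup_of_normal_left.1 (r (cm_mem a hw))
    obtain ⟨i, hi⟩ := h.pN ⟨_, cm_mem a hw⟩
    have e1 : ⁅a, ⁅a, w⁆⁆ ∈ ⁅⁅N, N⁆, N⁆ := by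
      rw [← e, show ⁅a, t * k⁆ = ⁅a, t⁆ by
        rw [commutatorElement_def, commutatorElement_def, ← mul_assoc a, mul_assoc _ k,
          ← mem_center_iff.1 (Kc hk)]; group]
      exact cm_mem a ht
    refine mk_comm.2 (comm_of_cop (m := p ^ i) (n := orderOf a) ?_ ?_ (h.cop.symm.pow_left i)
      (mk_comm.1 e1))
    · rw [← QuotientGroup.mk_pow, pow_orderOf_eq_one, QuotientGroup.mk_one]
    · exact congrArg (fun u : (⁅N, N⁆ : Subgroup G) => (u.1 : G ⧸ ⁅⁅N, N⁆, N⁆)) hi)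
  obtain ⟨ss, m, m1, m2, m3, -⟩ := h.fram le ne le_rfl le_sup_left (kc.trans le_sup_right)
    fun ψ _ r x hx => h.toNy.vanish (h.KD ▸ hx) ψ (mt (comm_le_kC ψ).2 r)
  rw [h.KD] at m1
  have key : ⁅KK N a, KK N a⁆ ≤ ⁅⁅N, N⁆, N⁆ := fun w hw => by
    by_contra nw
    obtain ⟨μ₁, a1, a2, a3⟩ := exists_inv_hom g3 ab h.pN h.cop (K2 hw) nw (by
      rw [commutatorElement_eq_one_iff_mul_comm.2 (mem_center_iff.1 (Kc hw) a)]
      exact one_mem _)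
    have t1 := h.gen.ge.trans (sup_le ((le_Cent le_rfl).trans (Cent_le_St a1)) (zpowers_le.2 a3))
    obtain ⟨v, hv, nv⟩ := SetLike.not_le_iff_exists.1 ne
    obtain ⟨μ₂, b1, b2⟩ := exists_kS le (ab.trans le_sup_left) hv nv
    obtain ⟨χ, o⟩ := exists_ov (lin (μ₁ * μ₂))
    have d := o.St_dvd
    rw [show St (dual ⁅N, N⁆) (μ₁ * μ₂) = St (dual ⁅N, N⁆) μ₂ from Subgroup.ext fun g => by
      rw [mem_St, mem_St, map_mul, mem_St.1 (t1 (mem_top g)), mul_right_inj],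
      ss μ₂ b1 fun r => b2 (le_kS_iff.2 r hv)] at d
    refine h.big m1 m2 (index_dvd_of_le (le_Cent le_sup_left)) m3 (fun r => a2 ?_) d
    have := o.ker' w (K2 hw) (r (commutator_mono KN KD hw))
    rw [kC_lin, mem_kS (K2 hw), MonoidHom.mul_apply, (mem_kS (K2 hw)).1 (b1 (mem_sup_right hw)),
      mul_one] at this
    exact (mem_kS _).2 this
  exact fun w hw => cen w hw fun k hk => commutatorElement_eq_one_iff_mul_comm.1
    (h.fpf3 (key (commutator_mem_commutator hk hw)) (mem_KK.1 (KK' (commutator_mem_commutator hk hw))).2)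

end Cfsg.Agent.NDA.B1
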