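import Cfsg.Agent.NDA.Ly

/-! S4780: The radical of the commutator form. -/

set_option autoImplicit false

namespace Cfsg.Agent.NDA

open Subgroup Cfsg.Agent.Char Cfsg.Agent.Palfy
open scoped commutatorElement

variable {G : Type*} [Group G] [Finite G] {Y M R X : Subgroup G}

/-- The radical of the commutator form is `Y`. Proof: `T = kS ν` is normalised by `St ν ≥ M ≥ X`.
`R = X ⊓ Cent M T ≥ Y`, `⁅R,R⁆ ≤ T`, `⁅M,R⁆ ≤ T`. Take `ξ₀` from `ext_lin` and apply `uu` (each `c ∈ C`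
normalises `R`, since it normalises `X`, `M`, `T`; `InvL ξ₀ b` if `⁅b,r⁆ ∈ T` for all `r ∈ R`, as
`b r b⁻¹ = ⁅b,r⁆ r`). For `h5` of `uu`: an extension `ξ` has `⁅M,R⁆ ≤ T ≤ kS ξ`, `over_ly` gives `θ` with
`Ly θ ξ`, so `Ly θ ν`; use `h5` and `Ly.invL`. -/
theorem rad_le [X.Normal] [M.Normal] [Y.Normal] (YX : Y ≤ X) (XM : X ≤ M) (ν : Y →* ℂˣ)
    (hM : M ≤ St (dual Y) ν) (C : Set G) (h1 : ∀ c ∈ C, c ∈ St (dual Y) ν)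
    (h2 : ∀ c ∈ C, ∀ x ∈ X, ⁅c, x⁆ ∈ Y → x ∈ Y)
    (h4 : ∀ c ∈ C, ∀ c' ∈ C, ∀ w ∈ X, (∀ y ∈ M, ⁅w, y⁆ ∈ kS ν) → ⁅⁅c, c'⁆, w⁆ ∈ kS ν)
    (h5 : ∀ θ : IrrCharacter M, Ly θ ν → ∃ c ∈ C, c ∈ inertia M θ.1) {w : G} (hw : w ∈ X)
    (h : ∀ y ∈ M, ⁅w, y⁆ ∈ kS ν) : w ∈ Y := by
  have hT : ∀ g ∈ St (dual Y) ν, g ∈ normalizer (kS ν : Set G) := fun g hg =>
    mem_normalizer_fintype fun t ht => by
      have := mul_mem (mem_St_iff_kS.1 hg t (kS_le ν ht)) ht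
      rwa [commutatorElement_def, inv_mul_cancel_right] at this
  obtain ⟨R, hR⟩ : ∃ R : Subgroup G, ∀ r, r ∈ R ↔ r ∈ X ∧ ∀ y ∈ M, ⁅r, y⁆ ∈ kS ν :=
    ⟨X ⊓ Cent M (kS ν), fun r => ⟨fun a => ⟨a.1, a.2.2⟩, fun a => ⟨a.1, hT r (hM (XM a.1)), a.2⟩⟩⟩
  have YR : Y ≤ R := fun y hy => (hR y).2 ⟨YX hy, fun x hx => by
    rw [← commutatorElement_inv]
    exact inv_mem (mem_St_iff_kS.1 (hM hx) y hy)⟩
  have RM : R ≤ M := fun r hr => XM ((hR r).1 hr).1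
  have MR : ⁅M, R⁆ ≤ kS ν := commutator_le.2 fun m hm r hr => by
    rw [← commutatorElement_inv]
    exact inv_mem (((hR r).1 hr).2 m hm)
  have RR : ⁅R, R⁆ ≤ kS ν := (commutator_mono RM le_rfl).trans MR
  obtain ⟨ξ₀, hξ⟩ := ext_lin YR ν RR
  have hξ' : ∀ y : R, ∀ hy : y.1 ∈ Y, ξ₀ y = ν ⟨y, hy⟩ := fun y hy => hξ ⟨y, hy⟩
  refine uu YR (RR.trans (kS_le ν)) C ξ₀ (fun c hc => mem_normalizer_fintype fun r hr => ?_)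
    (fun c hc r hr => h2 c hc r ((hR r).1 hr).1) (fun c hc y y' hy e => ?_)
    (fun c hc c' hc' r r' e => ?_) (fun ξ hξξ => ?_) ((hR w).2 ⟨hw, h⟩)
  · obtain ⟨r1, r2⟩ := (hR r).1 hr
    refine (hR _).2 ⟨Normal.conj_mem inferInstance r r1 c, fun x hx => ?_⟩
    have := (mem_normalizer_iff.1 (hT c (h1 c hc)) _).1
      (r2 _ (Normal.conj_mem' inferInstance x hx c))
    simpa [commutatorElement_def, mul_assoc] using this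
  · have hy' : y'.1 ∈ Y := e ▸ Normal.conj_mem inferInstance _ hy c
    rw [hξ' y hy, hξ' y' hy', ← mem_St_dual.1 (h1 c hc) ⟨y, hy⟩]
    exact congrArg ν (Subtype.ext e)
  · obtain ⟨r1, r2⟩ := (hR r).1 r.2
    have k := h4 c hc c' hc' r r1 r2
    have e' : r' = ⟨_, YR (kS_le ν k)⟩ * r := Subtype.ext
      (e.trans (inv_mul_cancel_right (⁅c, c'⁆ * r * ⁅c, c'⁆⁻¹) (r : G)).symm)
    rw [e', map_mul, hξ' _ (kS_le ν k), (mem_kS _).1 k, one_mul]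
  · have hk : kS ν ≤ kS ξ := fun t ht => (mem_kS (YR (kS_le ν ht))).2 (by
      rw [hξξ _ (kS_le ν ht), hξ' _ (kS_le ν ht)]
      exact (mem_kS _).1 ht)
    obtain ⟨θ, hθ⟩ := over_ly RM ξ (MR.trans hk)
    obtain ⟨c, hc, hi⟩ := h5 θ fun y hy => by
      rw [hθ ⟨y, YR y.2⟩ hy, hξξ _ y.2, hξ' _ y.2]
    exact ⟨c, hc, hθ.invL RM hi⟩

end Cfsg.Agent.NDA
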