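import Cfsg.Agent.NDA.B1k
import Cfsg.Agent.NDA.Rad

/-! STUB (S4780, captain helper13). The nilpotent case: the commutator maps are onto. -/

set_option autoImplicit false

namespace Cfsg.Agent.NDA.B1

open Subgroup Cfsg.Agent.Char Cfsg.Agent.Palfy
open scoped commutatorElement

variable {G : Type*} [Group G] [Finite G] {N X Y : Subgroup G} [N.Normal] {p m s : ℕ} {a g x : G}

/-- `fpf_of_dual` -/
theorem _root_.Cfsg.Agent.NDA.SS.fpf [X.Normal] [Y.Normal] (S : SS X Y) (le : Y ≤ X) (ab : ⁅X, X⁆ ≤ Y)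
    (hg : g ∉ Cent X Y) : ∀ x ∈ X, ⁅g, x⁆ ∈ Y → x ∈ Y :=
  fpf_of_dual le ab fun μ h1 h2 => by_contra fun ne => hg (S μ h1 ne ▸ h2)

variable (h : B1 N p a)
include h

/-- Proof. `rad_le` with `M = N`, `Y = ⁅X,N⁆`, `C = {c | c ∈ St ν ∧ c ∉ N}`. `h2`: `c ∉ Cent X Y`, else `lay`
and `eq_one_of_fpf_mod` give `ν = 1`; so `SS.fpf`. `h4`: `⁅c,c'⁆ ∈ N` (`Ny.ab`). `h5`: `θ` is nonlinear
(`comm_le_kC`, `Ly.ker`), `Ny.inv`, `Ly.inertia_le`. -/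
theorem u1 [X.Normal] (le : X ≤ ⁅N, N⁆) (S : SS X ⁅X, N⁆) {ν : (⁅X, N⁆ : Subgroup G) →* ℂˣ}
    (h1 : ⁅⁅X, N⁆, N⁆ ≤ kS ν) (ne : ν ≠ 1) {w : G} (hw : w ∈ X) (c : ∀ y ∈ N, ⁅w, y⁆ ∈ kS ν) :
    w ∈ ⁅X, N⁆ := by
  have XN := le.trans (commutator_le_self N)
  have YX := commutator_le_left X N
  refine rad_le YX XN ν ((le_Cent le_rfl).trans (Cent_le_St h1)) {c | c ∈ St (dual _) ν ∧ c ∉ N}
    (fun _ hc => hc.1) (fun c hc => S.fpf YX (commutator_mono le_rfl XN) fun cc =>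
      ne (eq_one_of_fpf_mod (commutator_le_left _ _) (h.lay le hc.2 cc) h1 hc.1))
    (fun c _ c' _ w _ k => commutatorElement_inv w _ ▸ inv_mem (k _ (EN (h.cE c c'))))
    (fun θ hθ => ?_) hw c
  obtain ⟨c, c1, c2⟩ := SetLike.not_le_iff_exists.1 (h.inv (ψ := θ) fun e => ne (le_kS_iff.1 fun y hy =>
    (hθ.ker (YX.trans XN) hy).1 ((comm_le_kC θ).2 e (le (YX hy)))))
  exact ⟨c, ⟨hθ.inertia_le (YX.trans XN) c1, c2⟩, c1⟩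

/-- `onto_of_rad`, `u1` -/
theorem onto [X.Normal] (le : X ≤ ⁅N, N⁆) (S : SS X ⁅X, N⁆) {w t : G} (hw : w ∈ X) (nw : w ∉ ⁅X, N⁆)
    (ht : t ∈ ⁅X, N⁆) : ∃ y ∈ N, ⁅w, y⁆ * t⁻¹ ∈ ⁅⁅X, N⁆, N⁆ :=
  onto_of_rad (commutator_le_left _ _) (commutator_mono le_rfl (commutator_le_right X N)) le_rfl
    (fun _ hy => commutator_mem_commutator hw hy)
    (fun _ h1 h2 => by_contra fun ne => nw (h.u1 le S h1 ne hw h2)) ht

/-- Proof. `ψ` is nonlinear, so vanishes off `D`. On `D`: `x = k w` (`DK`), `w ∉ γ₃`; `under_ly` gives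
`ν ≠ 1` on `γ₃`; by `u1` some `y ∈ N` has `⁅w,y⁆ ∉ kS ν`; `⁅y,x⁆ = ⁅y,w⁆` (`k` central); `Ly.vanish`. -/
theorem van3 (kc : KK N a ≤ center G) (S : SS ⁅N, N⁆ ⁅⁅N, N⁆, N⁆) (ψ : IrrCharacter N)
    (h1 : ⁅⁅⁅N, N⁆, N⁆, N⁆ ≤ kC ψ) (h2 : ¬ ⁅⁅N, N⁆, N⁆ ≤ kC ψ) (x : N)
    (hx : x.1 ∉ KK N a ⊔ ⁅⁅N, N⁆, N⁆) : ψ.1 x = 0 := by
  by_cases c : x.1 ∈ CC N
  swap
  · exact h.vanish c ψ fun e => h2 ((commutator_le_left _ _).trans ((comm_le_kC ψ).2 e))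
  obtain ⟨k, hk, w, hw, e⟩ := h.DK c
  have le := commutator_le_right ⁅N, N⁆ N
  obtain ⟨ν, hν⟩ := under_ly le ψ ((commutator_comm _ _).trans_le h1)
  obtain ⟨y, hy, n⟩ : ∃ y ∈ N, ⁅w, y⁆ ∉ kS ν := by
    by_contra! n
    exact hx (e ▸ mul_mem_sup hk (h.u1 le_rfl S
      (fun t ht => (hν.ker le (commutator_le_left _ _ ht)).1 (h1 ht))
      (fun r => h2 fun t ht => (hν.ker le ht).2 (le_kS_iff.2 r ht)) hw n))
  have r : ⁅y, x.1⁆ = ⁅w, y⁆⁻¹ := by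
    rw [e, show ⁅y, k * w⁆ = y * k * y⁻¹ * ⁅w, y⁆⁻¹ * k⁻¹ by group, mem_center_iff.1 (kc hk) y,
      mul_inv_cancel_right, ← mem_center_iff.1 (kc hk), mul_inv_cancel_right]
  exact hν.vanish le hy (r ▸ inv_mem (commutator_mem_commutator hw hy)) (by rwa [r, inv_mem_iff])

end Cfsg.Agent.NDA.B1
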