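import Cfsg.Agent.NDA.B1c

/-! (S4780, captain helper13). The nilpotent case: the form on `γ₂ / γ₃` in class four. -/

set_option autoImplicit false

namespace Cfsg.Agent.NDA.B1

open Subgroup Cfsg.Agent.Char Cfsg.Agent.Palfy
open scoped commutatorElement

variable {G : Type*} [Group G] [Finite G] {N X Y : Subgroup G} [N.Normal] {p m s : ℕ} {a g x : G}
  (h : B1 N p a)
include h

local notation "γ₂" => (⁅N, N⁆ : Subgroup G)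
local notation "γ₃" => (⁅⁅N, N⁆, N⁆ : Subgroup G)
local notation "γ₄" => (⁅⁅⁅N, N⁆, N⁆, N⁆ : Subgroup G)

open PLocal.CommMod in
/-- the claim: `⁅B, R⁆ ≤ T` -/
theorem c4_claim (f2 : ⁅γ₂, γ₃⁆ ≤ ⊥) (f4 : ⁅γ₄, Cent γ₂ γ₃⁆ ≤ ⊥) (S2 : SS γ₃ γ₄) {μ : γ₄ →* ℂˣ} (ne : μ ≠ 1) :
    N ⊓ centMod γ₃ (kS μ) ≤ centMod (γ₂ ⊓ centMod γ₂ (kS μ)) (kS μ) := by
  have l3 : γ₃ ≤ γ₂ := commutator_le_left _ _
  have nC : N ≤ Cent γ₂ γ₃ := le_Cent le_rfl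
  have nT : Cent γ₂ γ₃ ≤ normalizer (kS μ : Set G) := (le_centralizer_iff.1 ((kS_le μ).trans
    (commutator_eq_bot_iff_le_centralizer.1 (le_bot_iff.1 f4)))).trans (centralizer_le_normalizer _)
  have nB := (inf_le_left (b := centMod γ₃ (kS μ))).trans (nC.trans nT)
  have l2 := (commutator_le_self N).trans (nC.trans nT)
  have nR := (inf_le_left (b := centMod γ₂ (kS μ))).trans l2
  have cB : ⁅γ₃, N ⊓ centMod γ₃ (kS μ)⁆ ≤ kS μ :=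
    (commutator_comm _ _).trans_le ((commutator_mono inf_le_right le_rfl).trans (commutator_centMod_le _ _))
  have cR : ⁅γ₂, γ₂ ⊓ centMod γ₂ (kS μ)⁆ ≤ kS μ :=
    (commutator_comm _ _).trans_le ((commutator_mono inf_le_right le_rfl).trans (commutator_centMod_le _ _))
  have s0 := three_subgroups_mod nB nR (nC.trans nT) ((commutator_mono (commutator_mono inf_le_left le_rfl) le_rfl).trans cB)
    ((commutator_mono (commutator_mono le_rfl inf_le_left) le_rfl).trans cR)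
  have s1 : ⁅N ⊓ centMod γ₃ (kS μ), γ₂ ⊓ centMod γ₂ (kS μ)⁆ ≤ γ₄ := fun x hx =>
    h.u1 l3 S2 (((commutator_mono le_rfl nC).trans f4).trans bot_le) ne
      ((commutator_comm N γ₂).le (commutator_mono inf_le_left inf_le_left hx)) fun y hy => s0 (commutator_mem_commutator hx hy)
  have s2 := three_subgroups_mod nT nB nR (((commutator_mono s1 le_rfl).trans f4).trans bot_le)
    ((commutator_mono (commutator_le.2 fun x hx g hg => by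
      rw [← commutatorElement_inv]; exact inv_mem (hg.2 x hx.1)) le_rfl).trans cB)
  have kc : ∀ X ≤ γ₂, KK N a ≤ centMod X (kS μ) := fun X hX k hk => ⟨nT (nC (h.toNy.CC_le hk.1)), fun x hx => by
    rw [commutatorElement_eq_one_iff_mul_comm.2 (h.KC hk (gE (hX hx)))]; exact one_mem _⟩
  obtain ⟨j, c1, c2⟩ := h.reg (X := γ₂) le_rfl le_rfl
  intro b hb
  obtain ⟨b', hb', e⟩ := surj_mod (Y := CC N) (le_inf h.toNy.CC_le (h.KD.ge.trans (sup_le (kc _ l3)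
    (le_centMod.2 ⟨l2, f2.trans bot_le⟩)))) (inf_normalizer_le_normalizer_inf ⟨le_normalizer_of_normal (mem_top _),
      inf_normalizer_le_normalizer_centMod _ _ ⟨le_normalizer_of_normal (mem_top _), nT c1⟩⟩)
    (fun r hr => h.toNy.p2 c2 hr.1) hb
  exact (mul_mem_cancel_left (inv_mem (le_centMod.2 ⟨(commutator_le_left _ _).trans' (commutator_mono le_rfl inf_le_left) |>.trans nT,
    s2⟩ (commutator_mem_commutator c1 hb')))).1 (sup_le (kc _ inf_le_left) (le_centMod.2 ⟨l2, cR⟩) (h.KD.ge e))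

open PLocal.CommMod in
/-- Proof. Use `onto_of_rad` (`M = γ₂`, `Y = γ₄`, `Z = ⊥`; `⁅γ₂,γ₂⁆ ≤ γ₄`, `⁅γ₃,γ₂⁆ ≤ γ₅ = ⊥` by
`three_subgroups_mod_of_normal`): let `μ ≠ 1` on `γ₄` (central in `N`) with `⁅w,y⁆ ∈ T = kS μ` for all `y ∈ γ₂`;
show `w ∈ γ₃`. `γ₃` is abelian, extend `μ` to `ν` on `γ₃` (`ext_lin`); `T ≤ kS ν`, `kS ν ⊓ γ₄ = T`.
`R = γ₂ ⊓ Cent γ₂ T`, `B = N ⊓ Cent γ₃ T` (`N` normalises `T`); `N ⊓ St ν ≤ B` (`⁅b,t⁆ ∈ kS ν ⊓ γ₄`).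
Claim `⁅b,r⁆ ∈ T` for `b ∈ B`, `r ∈ R`. First `⁅⁅B,R⁆,N⁆ ≤ T` by `three_subgroups_mod`
(`⁅⁅R,N⁆,B⁆ ≤ ⁅γ₃,B⁆ ≤ T`, `⁅⁅N,B⁆,R⁆ ≤ ⁅γ₂,R⁆ ≤ T`), so `⁅b,r⁆ ∈ γ₄` by `u1` (`X = γ₃`). Take
`c = a^j ∈ Cent γ₂ γ₃`, `c ∉ N` (`reg`). It centralises `⁅γ₂,γ₂⁆ ≥ γ₄`
(`⁅t u, t' v⁆ = ⁅u,v⁆` for `t t' ∈ γ₃`, which centralises `γ₂`), so normalises `T`, `B`. For `r ∈ R`,
`η : B →* ℂˣ`, `b ↦ μ ⁅b,r⁆` is a homomorphism, trivial on `D = K γ₂ ≤ B` (`KC`), `InvL η c`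
(`⁅c b c⁻¹, r⁆ = c ⁅b, c⁻¹ r c⁆ c⁻¹`, `c⁻¹ r c = t r`), so `η = 1` by `InvL.eq` (`Y = CC N`, `Ny.p2`).
Now `rad_le` with `X = M = γ₂`, `Y = γ₃`, `C = {g | g ∈ St ν ∧ g ∉ Cent γ₂ γ₃}`: `h2` is `SS.fpf`, `h4` is
the claim (`⁅c,c'⁆ ∈ N ⊓ St ν`; a commutator in `⁅γ₂,γ₂⁆ ⊓ kS ν` lies in `T`), `h5`: take `χ` over `θ`
(`exists_ov`); `γ₃ ≰ charKer χ` (`Ov.ker'`, `Ly.ker`); if `inertia θ ≤ Cent γ₂ γ₃` then the index divides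
`χ(1)` (`Ov.dvd`), against `bg`. -/
theorem c4 (h5 : ⁅⁅⁅⁅N, N⁆, N⁆, N⁆, N⁆ = ⊥) (S1 : SS ⁅N, N⁆ ⁅⁅N, N⁆, N⁆)
    (S2 : SS ⁅⁅N, N⁆, N⁆ ⁅⁅⁅N, N⁆, N⁆, N⁆)
    (bg : ∀ χ : IrrCharacter G, ¬ ⁅⁅N, N⁆, N⁆ ≤ charKer χ.1 →
      ¬ (Cent ⁅N, N⁆ ⁅⁅N, N⁆, N⁆).index ∣ charDegree χ.1)
    (z : ⁅⁅⁅N, N⁆, N⁆, N⁆ ≤ ⁅⁅N, N⁆, ⁅N, N⁆⁆) :
    ∀ w ∈ ⁅N, N⁆, w ∉ ⁅⁅N, N⁆, N⁆ → ∀ z ∈ ⁅⁅⁅N, N⁆, N⁆, N⁆, ∃ y ∈ ⁅N, N⁆, ⁅w, y⁆ = z := by
  intro w hw nw t ht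
  have l3 : γ₃ ≤ γ₂ := commutator_le_left _ _
  have l4 : γ₄ ≤ γ₃ := commutator_le_left _ _
  have l2 := commutator_le_self N
  have f1 : ⁅γ₂, γ₂⁆ ≤ γ₄ := three_subgroups_mod_of_normal (by rw [commutator_comm N]) le_rfl
  have f2 : ⁅γ₂, γ₃⁆ ≤ ⊥ := three_subgroups_mod_of_normal (by rw [commutator_comm N, h5]) h5.le
  have f3 : ⁅⁅Cent γ₂ γ₃, γ₂⁆, γ₂⁆ ≤ ⊥ :=
    (commutator_mono (commutator_centMod_le γ₂ γ₃) le_rfl).trans ((commutator_comm _ _).trans_le f2)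
  have f4 : ⁅γ₄, Cent γ₂ γ₃⁆ ≤ ⊥ :=
    (commutator_mono z le_rfl).trans (three_subgroups_mod_of_normal (by rw [commutator_comm γ₂ (Cent _ _)]; exact f3) f3)
  have f5 : N ≤ centralizer (γ₄ : Set G) := le_centralizer_iff.1 (commutator_eq_bot_iff_le_centralizer.1 h5)
  refine (onto_of_rad (M := γ₂) (Z := ⊥) bot_le ((commutator_mono le_rfl ((l4.trans l3).trans l2)).trans h5.le)
    ((commutator_mono le_rfl l2).trans h5.le) (fun y hy => f1 (commutator_mem_commutator hw hy)) (fun μ _ k => ?_) ht).imp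
    fun y e => ⟨e.1, mul_inv_eq_one.1 e.2⟩
  by_contra ne
  obtain ⟨ν, hν⟩ := ext_lin l4 μ (((commutator_mono l3 le_rfl).trans f2).trans bot_le)
  have K : ∀ t ∈ γ₄, t ∈ kS ν ↔ t ∈ kS μ := fun t ht => by rw [mem_kS (l4 ht), mem_kS ht, ← hν]; rfl
  have K' : kS μ ≤ kS ν := fun t ht => (K t (kS_le μ ht)).2 ht
  have nT : N ≤ normalizer (kS μ : Set G) := (f5.trans (centralizer_le (kS_le μ))).trans (centralizer_le_normalizer _)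
  refine nw (rad_le l3 le_rfl ν (fun g hg => mem_St_iff_kS.2 fun y hy => (f2.trans bot_le) (commutator_mem_commutator hg hy))
    {g | g ∈ St (dual γ₃) ν ∧ g ∉ Cent γ₂ γ₃} (fun c hc => hc.1) (fun c hc => S1.fpf l3 (f1.trans l4) hc.2)
    (fun c hc c' hc' r hr k => ?_) (fun θ hθ => ?_) hw fun y hy => K' (k y hy))
  · have b1 : ⁅c, c'⁆ ∈ N := h.toNy.ab (commutator_mem_commutator (mem_top c) (mem_top c'))
    have b2 : ⁅c, c'⁆ ∈ St (dual γ₃) ν := mul_mem (mul_mem (mul_mem hc.1 hc'.1) (inv_mem hc.1)) (inv_mem hc'.1)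
    exact K' ((h.c4_claim f2 f4 S2 ne ⟨b1, nT b1, fun y hy => (K _ ((commutator_comm N γ₃).le (commutator_mem_commutator b1 hy))).1
      (mem_St_iff_kS.1 b2 y hy)⟩).2 r ⟨hr, nT (l2 hr), fun y hy => (K _ (f1 (commutator_mem_commutator hr hy))).1 (k y hy)⟩)
  · by_contra! n
    obtain ⟨χ, o⟩ := exists_ov θ
    refine bg χ (fun c => ne (le_kS_iff.1 fun y hy => (K y hy).1 ((hθ.ker l3 (l4 hy)).1 (o.ker' y (l3 (l4 hy)) (c (l4 hy))))))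
      ((index_dvd_of_le fun g hg => ?_).trans ((dvd_mul_right _ _).trans o.dvd))
    exact by_contra fun c => n g ⟨hθ.inertia_le l3 hg, c⟩ hg

end Cfsg.Agent.NDA.B1
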