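import Cfsg.Agent.NDA.Cam4
import Cfsg.Agent.NDA.Alg4z

/-! The metabelian case of `NDA/Cam4`. -/

set_option autoImplicit false

namespace Cfsg.Agent.NDA

open Subgroup
open scoped commutatorElement

namespace Cam4

open Cfsg.Agent.FGS.LcsLie

variable {P : Type*} [Group P]

theorem mainz [Finite P] (h5 : gam P 4 = ⊥) (c1 : ∀ x ∉ gam P 1, ∀ w ∈ gam P 1, ∃ y, ⁅x, y⁆ = w)
    (c2 : ∀ w ∈ gam P 1, w ∉ gam P 2 → ∀ t ∈ gam P 2, ∃ y, ⁅w, y⁆ * t⁻¹ ∈ gam P 3)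
    (c3 : ∀ t ∈ gam P 2, t ∉ gam P 3 → ∀ z ∈ gam P 3, ∃ y, ⁅t, y⁆ = z)
    (c4 : ∀ w ∈ gam P 1, ∀ y ∈ gam P 1, ⁅w, y⁆ = 1) : gam P 3 = ⊥ := by
  by_contra h
  have st : ∀ i, gam P i ≤ gam P (i + 1) → gam P (i + 1) ≤ gam P (i + 1 + 1) := fun i k =>
    commutator_mono k le_rfl
  have n3 : ¬ gam P 3 ≤ gam P 4 := fun k => h (eq_bot_iff.2 (h5 ▸ k))
  have := nontriv n3
  have := nontriv (mt (st 2) n3)
  have := nontriv (mt (st 1) (mt (st 2) n3))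
  refine alg4z (V := LL P 0) (W := LL P 1) (X := LL P 2) (Y := LL P 3) (rB 0 0) (rB 1 0) (rB 2 0)
    (fun x => Subtype.ext (brk_self _))
    (fun x y z => Subtype.ext (brk_jacobi _ _ _)) (fun w y z => Subtype.ext ?_)
    (rB_surj fun a _ k t ht => (c1 a k t ht).imp fun y e => ⟨mem_top y, by simp [e]⟩)
    (rB_surj fun a ha k t ht => (c2 a ha k t ht).imp fun y e => ⟨mem_top y, e⟩)
    (rB_surj fun a ha k t ht => (c3 a ha k t ht).imp fun y e => ⟨mem_top y, by simp [e]⟩) (h8 c1)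
  have k : ∀ u v : LL P 1, rB 1 1 u v = 0 := fun u v => by
    obtain ⟨a, ha, rfl⟩ := el_surj u
    obtain ⟨b, hb, rfl⟩ := el_surj v
    rw [rB_el, el_zero, c4 a ha b hb]
    exact one_mem _
  have k1 : brk (w : Lie P) (brk (y : Lie P) z) = 0 := congrArg Subtype.val (k w (rB 0 0 y z))
  have := brk_jacobi (w : Lie P) y z
  change brk (brk (w : Lie P) y) z = brk (brk (w : Lie P) z) y
  rw [brk_skew (z : Lie P) w, map_neg, AddMonoidHom.neg_apply, brk_skew (brk (y : Lie P) z) w, k1] at this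
  rw [← sub_eq_zero, ← this]
  abel

end Cam4

theorem cam4z {G : Type*} [Group G] [Finite G] (N : Subgroup G)
    (h5 : ⁅⁅⁅⁅N, N⁆, N⁆, N⁆, N⁆ = ⊥)
    (c1 : ∀ x ∈ N, x ∉ ⁅N, N⁆ → ∀ w ∈ ⁅N, N⁆, ∃ y ∈ N, ⁅x, y⁆ = w)
    (c2 : ∀ w ∈ ⁅N, N⁆, w ∉ ⁅⁅N, N⁆, N⁆ → ∀ t ∈ ⁅⁅N, N⁆, N⁆,
      ∃ y ∈ N, ⁅w, y⁆ * t⁻¹ ∈ ⁅⁅⁅N, N⁆, N⁆, N⁆)
    (c3 : ∀ t ∈ ⁅⁅N, N⁆, N⁆, t ∉ ⁅⁅⁅N, N⁆, N⁆, N⁆ → ∀ z ∈ ⁅⁅⁅N, N⁆, N⁆, N⁆, ∃ y ∈ N, ⁅t, y⁆ = z)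
    (c4 : ⁅⁅N, N⁆, ⁅N, N⁆⁆ = ⊥) : ⁅⁅⁅N, N⁆, N⁆, N⁆ = ⊥ := by
  have e : ∀ i, (FGS.LcsLie.gam N i).map N.subtype = N.lowerCentralSeries i := fun i => by
    rw [map_lowerCentralSeries, ← MonoidHom.range_eq_map, range_subtype]
  have m : ∀ i (x : N), x ∈ FGS.LcsLie.gam N i ↔ (x : G) ∈ N.lowerCentralSeries i := fun i x =>
    e i ▸ (mem_map_iff_mem N.subtype_injective).symm
  refine (e 3).symm.trans ((map_eq_bot_iff_of_injective _ N.subtype_injective).2 (Cam4.mainz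
    ((map_eq_bot_iff_of_injective _ N.subtype_injective).1 ((e 4).trans h5)) ?_ ?_ ?_ ?_))
  · intro x hx w hw
    obtain ⟨y, hy, k⟩ := c1 x x.2 (mt (m 1 x).2 hx) w ((m 1 w).1 hw)
    exact ⟨⟨y, hy⟩, Subtype.ext k⟩
  · intro x h1 hx w hw
    obtain ⟨y, hy, k⟩ := c2 x ((m 1 x).1 h1) (mt (m 2 x).2 hx) w ((m 2 w).1 hw)
    exact ⟨⟨y, hy⟩, (m 3 _).2 k⟩
  · intro x h1 hx w hw
    obtain ⟨y, hy, k⟩ := c3 x ((m 2 x).1 h1) (mt (m 3 x).2 hx) w ((m 3 w).1 hw)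
    exact ⟨⟨y, hy⟩, Subtype.ext k⟩
  · exact fun x h1 w hw => Subtype.ext (mem_bot.1 (c4.le
      (commutator_mem_commutator ((m 1 x).1 h1) ((m 1 w).1 hw))))

end Cfsg.Agent.NDA
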