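import Cfsg.Agent.NDA.B1b
import Cfsg.Agent.NDA.B1d
import Cfsg.Agent.NDA.Cam4z

/-! The nilpotent case: class at most three, at most two degrees. -/

set_option autoImplicit false

namespace Cfsg.Agent.NDA.B1

open Subgroup Cfsg.Agent.Char Cfsg.Agent.Palfy
open scoped commutatorElement

variable {G : Type*} [Group G] [Finite G] {N : Subgroup G} [N.Normal] {p : ℕ} {a : G}

omit [Finite G] in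
theorem g24 : ⁅⁅N, N⁆, ⁅N, N⁆⁆ ≤ ⁅⁅⁅N, N⁆, N⁆, N⁆ := by
  refine PLocal.CommMod.three_subgroups_mod_of_normal ?_ le_rfl
  rw [commutator_comm N]

omit [Finite G] in
theorem kc (c : KK N a ≤ center G) (Y : Subgroup G) : ⁅KK N a, N⁆ ≤ Y :=
  commutator_le.2 fun k hk n _ => by
    rw [commutatorElement_eq_one_iff_mul_comm.2 (mem_center_iff.1 (c hk) n).symm]; exact one_mem _

variable (h : B1 N p a)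
include h

theorem f2 (c : a ∉ Cent ⁅N, N⁆ ⁅⁅N, N⁆, N⁆) : SS ⁅N, N⁆ ⁅⁅N, N⁆, N⁆ ∧
    ∃ m, m ^ 2 = (CC N).relIndex N ∧ (∃ k, m = p ^ k) ∧ DD N ((Cent ⁅N, N⁆ ⁅⁅N, N⁆, N⁆).index * m) ∧
      ∀ χ : IrrCharacter G, ⁅⁅N, N⁆, N⁆ ≤ charKer χ.1 → ¬ ⁅N, N⁆ ≤ charKer χ.1 →
        charDegree χ.1 = (Cent ⁅N, N⁆ ⁅⁅N, N⁆, N⁆).index * m := by
  have := h.fram (X := ⁅N, N⁆) (Y := ⁅⁅N, N⁆, N⁆) (commutator_le_left _ _)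
    (fun e => c (mem_Cent.2 fun x hx => e (cm_mem a hx))) le_rfl le_rfl (kc (h.kcen c) _)
    fun ψ _ h2 x hx => h.vanish (h.KD ▸ hx) ψ (mt (comm_le_kC ψ).2 h2)
  rwa [h.KD] at this

theorem f3 (c : a ∉ Cent ⁅N, N⁆ ⁅⁅N, N⁆, N⁆) (ne : ¬ ⁅⁅N, N⁆, N⁆ ≤ ⁅⁅⁅N, N⁆, N⁆, N⁆) :
    SS ⁅⁅N, N⁆, N⁆ ⁅⁅⁅N, N⁆, N⁆, N⁆ ∧ ∃ d, ∀ χ : IrrCharacter G,
      ⁅⁅⁅N, N⁆, N⁆, N⁆ ≤ charKer χ.1 → ¬ ⁅⁅N, N⁆, N⁆ ≤ charKer χ.1 → charDegree χ.1 = d := by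
  obtain ⟨S, m, -, -, -, k⟩ := h.fram (X := ⁅⁅N, N⁆, N⁆) (Y := ⁅⁅⁅N, N⁆, N⁆, N⁆)
    (commutator_le_left _ _) ne (commutator_le_left _ _) le_rfl (kc (h.kcen c) _)
    (h.van3 (h.kcen c) (h.f2 c).1)
  exact ⟨S, _, k⟩

theorem no4' (hD : CC N ≤ ⁅N, N⁆) (h5 : ⁅⁅⁅⁅N, N⁆, N⁆, N⁆, N⁆ = ⊥)
    (z : ⁅⁅N, N⁆, ⁅N, N⁆⁆ = ⊥ ∨ ⁅⁅⁅N, N⁆, N⁆, N⁆ ≤ ⁅⁅N, N⁆, ⁅N, N⁆⁆) : ⁅⁅⁅N, N⁆, N⁆, N⁆ = ⊥ := by
  by_cases c : a ∈ Cent ⁅N, N⁆ ⁅⁅N, N⁆, N⁆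
  · rw [(h.case1 c).1, commutator_bot_left]
  by_cases ne : ⁅⁅N, N⁆, N⁆ ≤ ⁅⁅⁅N, N⁆, N⁆, N⁆
  · exact eq_bot_iff.2 ((commutator_mono ne le_rfl).trans h5.le)
  obtain ⟨S1, m, m1, m2, m3, -⟩ := h.f2 c
  obtain ⟨S2, -⟩ := h.f3 c ne
  have c1 : ∀ x ∈ N, x ∉ ⁅N, N⁆ → ∀ w ∈ ⁅N, N⁆, ∃ y ∈ N, ⁅x, y⁆ = w := fun x hx nx w hw =>
    h.cam hx (fun e => nx (hD e)) hw
  have c2 := fun w hw nw t ht => h.onto (w := w) (t := t) le_rfl S1 hw nw ht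
  have c3 : ∀ t ∈ ⁅⁅N, N⁆, N⁆, t ∉ ⁅⁅⁅N, N⁆, N⁆, N⁆ → ∀ z ∈ ⁅⁅⁅N, N⁆, N⁆, N⁆, ∃ y ∈ N, ⁅t, y⁆ = z :=
    fun w hw nw t ht => (h.onto (commutator_le_left _ _) S2 hw nw ht).imp fun y e =>
      ⟨e.1, mul_inv_eq_one.1 (mem_bot.1 (h5.le e.2))⟩
  exact z.elim (cam4z N h5 c1 c2 c3) fun z => cam4 N h5 c1 c2 c3 (h.c4 h5 S1 S2 (fun χ hχ =>
    h.big m1 m2 (index_dvd_of_le (le_Cent le_rfl)) m3 fun e => hχ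
      ((commutator_comm _ _).le.trans ((commutator_mono le_rfl le_CC).trans e))) z)

theorem quot (V : Subgroup G) [V.Normal] (le : V ≤ CC N) (hD : CC N ≤ ⁅N, N⁆ ⊔ V)
    (h5 : ⁅⁅⁅⁅N, N⁆, N⁆, N⁆, N⁆ ≤ V)
    (z : ⁅⁅N, N⁆, ⁅N, N⁆⁆ ≤ V ∨ ⁅⁅⁅N, N⁆, N⁆, N⁆ ≤ ⁅⁅N, N⁆, ⁅N, N⁆⁆ ⊔ V) : ⁅⁅⁅N, N⁆, N⁆, N⁆ ≤ V := by
  have s := QuotientGroup.mk'_surjective V
  have k : (QuotientGroup.mk' V).ker ≤ CC N := (QuotientGroup.ker_mk' V).le.trans le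
  have : (N.map (QuotientGroup.mk' V)).Normal := Normal.map inferInstance _ s
  have b : ∀ X : Subgroup G, X.map (QuotientGroup.mk' V) = ⊥ ↔ X ≤ V := fun X => by
    rw [Subgroup.map_eq_bot_iff, QuotientGroup.ker_mk']
  have l : ∀ X Y : Subgroup G, X ≤ Y ⊔ V → X.map (QuotientGroup.mk' V) ≤ Y.map (QuotientGroup.mk' V) :=
    fun X Y e => (map_mono e).trans (by rw [Subgroup.map_sup, (b V).2 le_rfl, sup_bot_eq])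
  have := (h.map s k).no4' (by
    rw [← map_comap_eq_self_of_surjective s (CC _), h.comap_CC s k, ← map_commutator]
    exact l _ _ hD) (by simpa only [← map_commutator, b] using h5)
    (by simpa only [← map_commutator, b] using z.imp_right (l _ _))
  simpa only [← map_commutator, b] using this

theorem no4 (c : a ∉ Cent ⁅N, N⁆ ⁅⁅N, N⁆, N⁆) : ⁅⁅⁅N, N⁆, N⁆, N⁆ = ⊥ := by
  have kz := h.kcen c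
  have : (KK N a).Normal := ⟨fun n hn g => by
    rwa [mem_center_iff.1 (kz hn) g, mul_inv_cancel_right]⟩
  have l3 : ⁅⁅⁅N, N⁆, N⁆, N⁆ ≤ ⁅⁅N, N⁆, N⁆ := commutator_le_left _ _
  have l4 : ⁅⁅⁅⁅N, N⁆, N⁆, N⁆, N⁆ ≤ ⁅⁅⁅N, N⁆, N⁆, N⁆ := commutator_le_left _ _
  have l2 : ⁅⁅⁅N, N⁆, N⁆, N⁆ ≤ CC N := l3.trans ((commutator_le_left _ _).trans le_CC)
  have kD : KK N a ≤ CC N := inf_le_left
  have hD : CC N ≤ ⁅N, N⁆ ⊔ (⁅⁅⁅⁅N, N⁆, N⁆, N⁆, N⁆ ⊔ KK N a) :=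
    h.KD.ge.trans (sup_le (le_sup_right.trans le_sup_right) le_sup_left)
  have q := h.quot _ (sup_le (l4.trans l2) kD) hD le_sup_left (.inr (h.quot _
    (sup_le (g24.trans l2) (sup_le (l4.trans l2) kD)) (hD.trans (sup_le_sup_left le_sup_right _))
    (le_sup_left.trans le_sup_right) (.inl le_sup_left)))
  refine h.nil (l2.trans h.CC_le) fun z hz => ?_
  obtain ⟨t, ht, k, hk, rfl⟩ := mem_sup_of_normal_right.1 (q hz)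
  rw [h.fpf3 (x := k) ((mul_mem_cancel_left (l3 (l4 ht))).1 (l3 hz)) (mem_KK.1 hk).2, mul_one]
  exact ht

theorem main : ⁅⁅N, N⁆, ⁅N, N⁆⁆ = ⊥ ∧ ∃ u v, ∀ d, DD N d → d = u ∨ d = v := by
  by_cases c : a ∈ Cent ⁅N, N⁆ ⁅⁅N, N⁆, N⁆
  · obtain ⟨h1, h2⟩ := h.case1 c
    refine ⟨eq_bot_iff.2 (g24.trans (by rw [h1, commutator_bot_left])), ?_⟩
    by_cases e : ∃ u, DD N u
    · exact e.imp fun u hu => ⟨u, fun d hd => .inl (h2 d u hd hu)⟩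
    · exact ⟨0, 0, fun d hd => (e ⟨d, hd⟩).elim⟩
  have e := h.no4 c
  refine ⟨eq_bot_iff.2 (g24.trans e.le), ?_⟩
  obtain ⟨-, m, -, -, -, k⟩ := h.f2 c
  by_cases ne : ⁅⁅N, N⁆, N⁆ ≤ ⁅⁅⁅N, N⁆, N⁆, N⁆
  · exact ⟨_, 0, fun _ ⟨χ, h1, h2⟩ => .inl (h2 ▸ k χ ((ne.trans e.le).trans bot_le) h1)⟩
  obtain ⟨-, v, k'⟩ := h.f3 c ne
  exact ⟨_, v, fun _ ⟨χ, h1, h2⟩ => h2 ▸ (em _).imp (fun b => k χ b h1) (k' χ (e.le.trans bot_le))⟩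

end Cfsg.Agent.NDA.B1
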