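import Cfsg.Agent.NDA.B1a

/-! STUB (S4780, captain helper13). The nilpotent case: `⁅K, E⁆ = 1`, the layers. -/

set_option autoImplicit false

namespace Cfsg.Agent.NDA.B1

open Subgroup Cfsg.Agent.Char Cfsg.Agent.Palfy
open Cfsg.Agent.PLocal.CommMod (three_subgroups_mod three_subgroups_mod_of_normal)
open scoped commutatorElement

variable {G : Type*} [Group G] [Finite G] {N X Y : Subgroup G} [N.Normal] {p : ℕ} {a g x : G}
  (h : B1 N p a)
include h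

omit h [Finite G] in
theorem k_cent {A T : Subgroup G} (hn : A ≤ normalizer (T : Set G)) (e : ⁅A, X⁆ ≤ T) : A ≤ Cent X T :=
  fun _ hg => ⟨hn hg, fun _ hx => e (commutator_mem_commutator hg hx)⟩

omit h [Finite G] in
theorem k_comm {A T : Subgroup G} (e : A ≤ Cent X T) : ⁅X, A⁆ ≤ T :=
  commutator_comm A X ▸ commutator_le.2 fun _ hg _ hx => (e hg).2 _ hx

omit h in
theorem k_mem {T : Subgroup G} (le : T ≤ X) (e : ∀ x ∈ X, ⁅g, x⁆ ∈ T) : g ∈ Cent X T :=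
  ⟨mem_normalizer_fintype fun n hn => by
    simpa [commutatorElement_def] using mul_mem (e n (le hn)) hn, e⟩

theorem k_le {W : Subgroup G} (hg : g ∉ N) (h1 : ⁅N, N⁆ ≤ W) (h2 : ∀ e ∈ ⁅(⊤ : Subgroup G), N⁆, ⁅g, e⁆ ∈ W) :
    ⁅(⊤ : Subgroup G), N⁆ ≤ W := fun e he => by
  obtain ⟨e', a, b⟩ := h.toNy.surj hg he
  exact (mul_mem_cancel_left (inv_mem (h2 e' a))).1 (h1 b)

/-- Proof. `Y = ⁅K, E⁆ ≤ γ₂` is normalised by `K`, `E` (`Subgroup.normalizer_commutator_ge_left/right`-like,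
`Solv.le_normalizer_commutator`) and `a`, so normal in `G` (`EK`, `gen`). `Z = ⁅Y, N⁆`; it suffices to show
`Y ≤ Z` (`nil`). Take `c = a^j ∈ Cent Y Z`, `c ∉ N` (`reg`). For `k ∈ K` the map `e ↦ ⁅k,e⁆ Z` is a
homomorphism from `E` to `Y / Z`, which is central in `N / Z`. Let `W = E ⊓ Cent`-like subgroup
`{e ∈ E | ∀ k ∈ K, ⁅e,k⁆ ∈ Z}` (`E ⊓ Cent K Z`). It contains `⁅E,E⁆` (`three_subgroups_mod`), `Y`, and
`⁅c,e⁆` (as `⁅k, c e c⁻¹⁆ = c ⁅k,e⁆ c⁻¹ ≡ ⁅k,e⁆`). `γ₂ ≤ W`: fix `e ∈ E \ γ₂` (`nc`; `e ∉ D` by `ED`), each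
`w ∈ γ₂` is `⁅e, e' k⁆ = ⁅e,e'⁆ * e' ⁅e,k⁆ e'⁻¹ ∈ ⁅E,E⁆ Y` (`cam`, `EK`). Finally each `e ∈ E` is
`⁅c,e'⁆ n`, `n ∈ γ₂` (`Ny.surj`). So `W = E`, `Y ≤ Z`. -/
theorem KC {k e : G} (hk : k ∈ KK N a) (he : e ∈ ⁅(⊤ : Subgroup G), N⁆) : k * e = e * k := by
  have KN : KK N a ≤ N := inf_le_left.trans h.toNy.CC_le
  have aK : a ∈ centralizer (KK N a : Set G) := fun k hk => (mem_KK.1 hk).2
  have l1 := fun {x} => h.toNy.cam (x := x)
  have l2 := fun {x} => h.EK (x := x)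
  have l3 := fun {x} => h.toNy.ED (e := x)
  have l4 := fun {g W} => h.k_le (g := g) (W := W)
  have l5 := h.nc
  have l6 : ⁅(⊤ : Subgroup G), N⁆ ≤ N := EN
  have l7 : (⁅(⊤ : Subgroup G), N⁆).Normal := inferInstance
  generalize ⁅(⊤ : Subgroup G), N⁆ = E at *
  generalize KK N a = K at *
  have : (⁅K, E⁆ : Subgroup G).Normal := normalizer_eq_top_iff.1 (top_le_iff.1 (h.gen.ge.trans (by
    refine sup_le (fun x hx => ?_) (Solv.le_normalizer_commutator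
      (zpowers_le.2 (centralizer_le_normalizer _ aK)) le_normalizer_of_normal)
    obtain ⟨e, he, k, hk, rfl⟩ := l2 hx
    exact mul_mem (normalizer_commutator_ge_right _ _ he) (normalizer_commutator_ge_left _ _ hk))))
  have YN : ⁅K, E⁆ ≤ ⁅N, N⁆ := commutator_mono KN l6
  obtain ⟨j, c1, c2⟩ := h.reg YN le_rfl
  suffices E ≤ Cent K ⁅⁅K, E⁆, N⁆ from
    commutatorElement_eq_one_iff_mul_comm.1 (mem_bot.1 ((h.nil (YN.trans (commutator_le_self N)) (k_comm this)).le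
      (commutator_mem_commutator hk he)))
  refine l4 c2 (fun w hw => ?_) fun e he => k_cent le_normalizer_of_normal
    (three_subgroups_mod_of_normal (H₁ := Cent ⁅K, E⁆ ⁅⁅K, E⁆, N⁆ ⊓ centralizer (K : Set G))
      ((commutator_mono (commutator_comm _ _).le le_rfl).trans (k_comm inf_le_left)) ?_)
      (commutator_mem_commutator ⟨c1, pow_mem aK j⟩ he)
  · obtain ⟨e, he, ne⟩ := SetLike.not_le_iff_exists.1 l5
    obtain ⟨y, hy, rfl⟩ := l1 (l6 he) (fun d => ne (l3 he d)) hw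
    obtain ⟨e', he', k, hk, rfl⟩ := l2 hy
    rw [show ⁅e, e' * k⁆ = ⁅e, e'⁆ * (e' * ⁅k, e⁆⁻¹ * e'⁻¹) by simp only [commutatorElement_def]; group]
    exact mul_mem (k_cent le_normalizer_of_normal (three_subgroups_mod_of_normal
      (commutator_mono (commutator_comm _ _).le l6) (commutator_mono le_rfl l6)) (commutator_mem_commutator he he'))
      (k_cent le_normalizer_of_normal (commutator_mono le_rfl KN)
        (this.conj_mem _ (inv_mem (commutator_mem_commutator hk he)) e'))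
  · rw [commutator_comm K, commutator_eq_bot_iff_le_centralizer.2 inf_le_right, commutator_bot_left]
    exact bot_le

/-- Proof. `Y = ⁅X,N⁆`, `Z = ⁅Y,N⁆`. `⁅X,γ₂⁆ ≤ Z` (`three_subgroups_mod_of_normal`), `K` centralises
`X ≤ E`, so `⁅X,D⁆ ≤ Z`. Use `fpf_of_dual`: let `μ : Y →* ℂˣ`, `Z ≤ kS μ`, be fixed by `g`. For `x ∈ X` the map
`η : N →* ℂˣ`, `n ↦ μ ⁅x,n⁆` is a homomorphism, trivial on `D`, and fixed by `g`
(`μ ⁅x, g n g⁻¹⁆ = μ ⁅g⁻¹ x g, n⁆ = μ ⁅y x, n⁆`, `y ∈ Y`, and `⁅y x,n⁆ = y ⁅x,n⁆ y⁻¹ ⁅y,n⁆`), so `η = 1` by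
`eq_one_of_fpf_mod` (`Ny.p2`). Hence `Y ≤ kS μ`. -/
theorem lay [X.Normal] (le : X ≤ ⁅N, N⁆) (hg : g ∉ N) (c : g ∈ Cent X ⁅X, N⁆) :
    ∀ y ∈ ⁅X, N⁆, ⁅g, y⁆ ∈ ⁅⁅X, N⁆, N⁆ → y ∈ ⁅⁅X, N⁆, N⁆ := by
  have YN : ⁅X, N⁆ ≤ N := commutator_le_right X N
  refine fpf_of_dual (commutator_le_left _ _) (commutator_mono le_rfl YN) fun μ hZ hμ =>
    le_kS_iff.1 (k_comm fun n hn => ?_)
  have nT : N ≤ normalizer (kS μ : Set G) := fun n hn => (k_mem (kS_le μ) fun y hy =>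
    hZ (commutator_comm N _ ▸ commutator_mem_commutator hn hy)).1
  obtain ⟨e, he, k, hk, rfl⟩ := h.EK hn
  refine mul_mem (h.k_le hg (k_cent ((commutator_le_self N).trans nT) ((three_subgroups_mod_of_normal
    (commutator_comm X N ▸ le_rfl) le_rfl).trans hZ)) (fun e he => k_cent ((commutator_le_right _ N).trans nT)
      (three_subgroups_mod (H₁ := Cent _ (kS μ) ⊓ Cent X ⁅X, N⁆) (fun _ a => a.1.1) nT
        (le.trans ((commutator_le_self N).trans nT)) (commutator_comm X N ▸ k_comm inf_le_left)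
        ((commutator_mono (k_comm inf_le_right) le_rfl).trans hZ))
      (commutator_mem_commutator ⟨k_mem (kS_le μ) (mem_St_iff_kS.1 hμ), c⟩ (EN he))) he)
    ⟨nT (h.toNy.CC_le hk.1), fun x hx => ?_⟩
  rw [commutatorElement_eq_one_iff_mul_comm.2 (h.KC hk (gE (le hx)))]
  exact one_mem _

/-- Proof. Among the normal subgroups `X ≤ γ₂` with `x ∈ ⁅X,N⁆` take a minimal one. `reg` gives
`c = a^j ∈ Cent X ⁅X,N⁆`, `lay` gives `x ∈ ⁅⁅X,N⁆,N⁆`, so `⁅X,N⁆ = X` by minimality, `X = ⊥` by `nil`. -/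
theorem fpf3 (hx : x ∈ ⁅⁅N, N⁆, N⁆) (e : x * a = a * x) : x = 1 := by
  suffices ∀ X : Subgroup G, X.Normal → X ≤ ⁅N, N⁆ → x ∈ ⁅X, N⁆ → x = 1 from this _ inferInstance le_rfl hx
  intro X
  induction X using WellFoundedLT.induction with | ind X ih => ?_
  intro _ le hx
  obtain ⟨j, c1, c2⟩ := h.reg le le_rfl
  rcases (commutator_le_left X N).eq_or_lt with k | k
  · rwa [k, h.nil (le.trans (commutator_le_self N)) k.ge] at hx
  · refine ih _ k inferInstance (k.le.trans le) (h.lay le c2 c1 x hx ?_)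
    rw [commutatorElement_eq_one_iff_commute.2 ((show Commute x a from e).symm.pow_left j)]
    exact one_mem _

end Cfsg.Agent.NDA.B1
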