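import Cfsg.Agent.NDA.Van
import Cfsg.Agent.Solv.FrobeniusAction

/-! STUB (S4780, captain helper13). If the `p`-complement of `N` meets `N'`, it contains `N'`. -/

set_option autoImplicit false

namespace Cfsg.Agent.NDA.Ny

open Subgroup Cfsg.Agent.Char Cfsg.Agent.Palfy
open scoped commutatorElement

variable {G : Type*} [Group G] [Finite G] {N L M J : Subgroup G} [N.Normal] [L.Normal] [M.Normal]
  {x : G} {p k : ℕ} (h : Ny N)
include h

/-- Proof. Let `S` be a Sylow `p`-subgroup of `G` containing `x` (`IsPGroup.exists_le_sylow`); `S ≤ N` since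
`p ∤ |G:N|` (`pf`), and `N = L S`. `J = normalizer S`, `M = L ⊓ N'`. `J ⊓ M = ⊥`: `m ∈ J ⊓ M` has
`⁅m,x⁆ ∈ S ⊓ L = ⊥`, so `m = 1` by `cfpf`. `J ⊔ M = ⊤`: Frattini (`Sylow.normalizer_sup_eq_top'`) gives
`J ⊔ N = ⊤`, `N = S L`, and `S ⊔ M` is normal in `N` even in `G` (`S M / M`: `⁅S,L⁆ ≤ M`; it is the set of
elements that are `p`-elements mod `M`), or: `L = C_L(S) ⁅L,S⁆`
(`Solv.coprime_exists_centralizer_mul_commutator`), `⁅L,S⁆ ≤ M`. `isComplement'_of_disjoint_and_mul_eq_univ`. -/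
theorem compl [Group.IsSolvable G] (hp : p.Prime) (hx : x ∈ N) (nx : x ∉ CC N) (e : x ^ p ^ k = 1)
    (le : L ≤ N) (c : ¬ p ∣ Nat.card L) (pL : IsPGroup p (N.map (QuotientGroup.mk' L))) :
    ∃ J : Subgroup G, (L ⊓ ⁅N, N⁆).IsComplement' J := by
  have := Fact.mk hp
  have hz : IsPGroup p (zpowers x) := by
    rintro ⟨_, n, rfl⟩
    refine ⟨k, Subtype.ext ?_⟩
    change (x ^ n) ^ p ^ k = 1
    rw [← zpow_natCast, ← zpow_mul, mul_comm, zpow_mul, zpow_natCast, e, one_zpow]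
  obtain ⟨S, hS⟩ := hz.exists_le_sylow
  have xS := hS (mem_zpowers x)
  obtain ⟨j, hj⟩ := S.isPGroup'.exists_card_eq
  have SN : (S : Subgroup G) ≤ N := fun s hs => by
    have h1 : (s : G ⧸ N) ^ p ^ j = 1 := by
      rw [← QuotientGroup.mk_pow, ← hj, Bad.pw hs, QuotientGroup.mk_one]
    have h2 := pow_gcd_eq_one.2 ⟨h1, pow_card_eq_one' (x := (s : G ⧸ N))⟩
    rwa [← index_eq_card, (hp.coprime_iff_not_dvd.2 (h.pf hp hx nx e)).pow_left j, pow_one,
      QuotientGroup.eq_one_iff] at h2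
  have cop : (Nat.card S).Coprime (Nat.card L) := hj ▸ (hp.coprime_iff_not_dvd.2 c).pow_left j
  refine ⟨normalizer (S : Set G), isComplement'_of_disjoint_and_mul_eq_univ
    (disjoint_def.2 fun {m} h1 h2 => ?_) ?_⟩
  · refine h.cfpf hx nx h1.2 e (Bad.pw h1.1) ((hp.coprime_iff_not_dvd.2 c).pow_left k) ?_
    have : ⁅m, x⁆ ∈ (S : Subgroup G) ⊓ L := by
      refine ⟨Subgroup.mul_mem _ ((mem_normalizer_iff.1 h2 x).1 xS) (inv_mem xS), ?_⟩
      rw [show ⁅m, x⁆ = m * (x * m⁻¹ * x⁻¹) by simp only [commutatorElement_def, mul_assoc]]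
      exact L.mul_mem h1.1 (Normal.conj_mem inferInstance _ (L.inv_mem h1.1) x)
    rw [(disjoint_of_coprime_natCard cop).eq_bot, mem_bot, commutatorElement_eq_one_iff_mul_comm] at this
    exact this.symm
  · rw [← normal_mul, coe_eq_univ, eq_top_iff, ← S.normalizer_sup_eq_top' SN]
    refine sup_le le_sup_right fun n hn => ?_
    have s := QuotientGroup.mk'_surjective L
    have : (N.map (QuotientGroup.mk' L)).Normal := Normal.map inferInstance _ s
    obtain ⟨t, ht, e⟩ := pL.le_sylow_of_normal (S.mapSurjective s) (mem_map_of_mem _ hn)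
    obtain ⟨a, ha, d, hd, e'⟩ := Solv.coprime_exists_centralizer_mul_commutator S L
      le_normalizer_of_normal cop (Or.inl inferInstance) _ (QuotientGroup.eq.1 e)
    rw [show n = t * (a * d) by rw [← e', mul_inv_cancel_left]]
    exact mul_mem (mem_sup_right (le_normalizer ht)) (mul_mem
      (mem_sup_right (centralizer_le_normalizer _ ha.2))
      (mem_sup_left ⟨commutator_le_left _ _ hd, commutator_mono le SN hd⟩))

/-- Proof. Let `T = St μ`, `ξ : T →* ℂˣ` extend `μ` (`Deg4.exists_ext` with `U = J`, `inertia_lin`). For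
`β ∈ Irr (T.map (mk' M))`, `Deg4.exists_deg_of_ext` (`γ` the inflation of `β`) gives `DD N (|G:T| β(1))`.
`β = 1` gives the first claim, `nd` and `exists_charDegree_ne_one` the second (see `D`, `D1`, `ab` in
`Palfy.Hy.alpha`). -/
theorem stab (le : M ≤ ⁅N, N⁆) (hJ : M.IsComplement' J) {μ : M →* ℂˣ} (ne : μ ≠ 1) :
    DD N (St (dual M) μ).index ∧ ∀ a ∈ St (dual M) μ, ∀ b ∈ St (dual M) μ, ⁅a, b⁆ ∈ M := by
  have hT : St (dual M) μ = inertia M fun x => (μ x : ℂ) := (inertia_lin M μ).symm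
  obtain ⟨ξ, hξ⟩ := Deg4.exists_ext M J (St (dual M) μ) μ (fun x hx => by
    rw [show x = 1 from Subtype.ext (disjoint_def.1 hJ.disjoint x.2 hx), map_one])
    (fun t _ => by
      obtain ⟨⟨a, b⟩, e⟩ := hJ.2 t
      exact ⟨a, a.2, b, b.2, e.symm⟩) hT.le
  have D : ∀ β : IrrCharacter ((St (dual M) μ).map (QuotientGroup.mk' M)),
      DD N ((St (dual M) μ).index * charDegree β.1) := fun β => by
    have s := (QuotientGroup.mk' M).subgroupMap_surjective (St (dual M) μ)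
    obtain ⟨χ, h1, h2⟩ := Deg4.exists_deg_of_ext M μ ne _ hT ξ hξ (inflateIrr _ s β).2 fun m hm g => by
      change β.1 _ = β.1 _
      rw [map_mul, show (QuotientGroup.mk' M).subgroupMap _ m = 1 from
        Subtype.ext ((QuotientGroup.eq_one_iff _).2 hm), one_mul]
    exact ⟨χ, fun c => h1 (le.trans c), by rw [h2, charDegree_inflateIrr]⟩
  have D1 := D (irrOne _)
  rw [charDegree_irrOne, mul_one] at D1
  refine ⟨D1, fun a ha b hb => ?_⟩
  by_contra c
  obtain ⟨β, hβ⟩ := exists_charDegree_ne_one (G := (St (dual M) μ).map (QuotientGroup.mk' M))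
    ⟨⟨_, a, ha, rfl⟩, ⟨_, b, hb, rfl⟩, fun e => c (mk_comm.2 (congrArg Subtype.val e))⟩
  exact hβ ((mul_eq_left₀ D1.pos.ne').1 (h.nd _ _ D1 (D β) (dvd_mul_right _ _)).symm)

end Cfsg.Agent.NDA.Ny
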