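import Cfsg.Agent.NDA.Van

/-! S4780. Two steps for a `p`-group `N`. -/

set_option autoImplicit false

namespace Cfsg.Agent.NDA.Ny

open Subgroup Cfsg.Agent.Char Cfsg.Agent.Palfy
open scoped commutatorElement

variable {G : Type*} [Group G] [Finite G] {N L M J : Subgroup G} [N.Normal] [L.Normal] [M.Normal]
  {x : G} {p k : ℕ} (h : Ny N)
include h

/-- The `p`-group step. Proof: `pq` gives a nonlinear `ψ` with `g ∈ inertia N ψ`, `ψ(1) < |N : Q|`, if some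
`1 ≠ w ∈ N'` commutes with `g` (`nc` of `pq`: some `e ∈ E \ N'` has `⁅g,e⁆ ≠ 1` by `fpf`). Then
`d' = |G : inertia ψ| ψ(1)` is `DD` (`dN`), `|G : inertia ψ| ∣ |G : N ⊔ zpowers g|`, `ψ(1) ∣ |N : Q|` properly
(powers of `p`), so `d'` properly divides `d`. -/
theorem pstep [Fact p.Prime] (pN : IsPGroup p N) {Q : Subgroup G} {g : G} (hg : g ∉ N)
    (cop : (orderOf g).Coprime p) (QN : Q ≤ N) (Qab : ∀ a ∈ Q, ∀ b ∈ Q, a * b = b * a)
    (Qg : ∀ a ∈ Q, a * g = g * a) {d : ℕ} (d0 : d ≠ 0) (hd : ∀ d', DD N d' → d' ∣ d → d' = d)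
    (dvd : (N ⊔ zpowers g).index * Q.relIndex N ∣ d) {w : G} (hw : w ∈ ⁅N, N⁆) (e : w * g = g * w) :
    w = 1 := by
  have hp : p.Prime := Fact.out
  by_contra w1
  obtain ⟨u, hu, nu⟩ := SetLike.not_le_iff_exists.1 h.nc
  obtain ⟨ψ, ne, gi, lt⟩ := pq pN cop QN Qab Qg ⟨u, EN hu, fun c => nu (h.fpf g hg u hu
    (by rw [commutatorElement_eq_one_iff_mul_comm.2 c.symm]; exact one_mem _))⟩ hw w1 e
  have i1 : (inertia N ψ.1).index ∣ (N ⊔ zpowers g).index :=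
    index_dvd_of_le (sup_le (le_inertia' N ψ) (zpowers_le.2 gi))
  obtain ⟨n, hn⟩ := pN.exists_card_eq
  obtain ⟨a, -, ha⟩ := (Nat.dvd_prime_pow hp).1 (hn ▸ charDegree_irr_dvd_card ψ)
  obtain ⟨b, -, hb⟩ := (Nat.dvd_prime_pow hp).1 (hn ▸ relIndex_dvd_card Q N)
  have i2 : charDegree ψ.1 ∣ Q.relIndex N := by
    rw [ha, hb] at lt ⊢
    exact pow_dvd_pow p ((Nat.pow_lt_pow_iff_right hp.one_lt).1 lt).le
  have e1 := hd _ (h.dN ne) ((mul_dvd_mul i1 i2).trans dvd)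
  have le := Nat.le_of_dvd (Nat.pos_of_ne_zero d0) dvd
  have pos : 0 < (N ⊔ zpowers g).index := Nat.pos_of_ne_zero index_ne_zero_of_finite
  exact absurd (e1 ▸ le) (not_le.2 (Nat.mul_lt_mul_of_le_of_lt (Nat.le_of_dvd pos i1) lt pos))

/-- The contradiction for a `p`-group `N` with `E` "semiregular". Proof: `Z₀ = N' ⊓ Z(N) ≠ ⊥` is normal in
`G` (`exists_cent`), abelian, so cyclic (`cy`); let `Z₁ ≤ Z₀` have order `p` (normal by
`normal_of_le_cyclic`). If `p = 2`, `g` centralises `Z₁`, against `fg`. So `p` is odd and `E` is cyclic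
(`cy'`). Take `μ ≠ 1` on `Z₁` (faithful); `F1'` gives `c ∈ St μ \ N`, which centralises `Z₁`. `c` acts on
the cyclic `E = ⟨u⟩` as `u ↦ u^i` (`MonoidHom.map_cyclic`), `z^i = z` for `z` of order `p` gives
`i ≡ 1 mod p`. Take `e ∈ E \ N'` with `e^p ∈ N'`; then `⁅c,e⁆ = e^(i-1) ∈ N'`, against `fpf`. -/
theorem pend [Fact p.Prime] (pN : IsPGroup p N) (ne : ⁅N, N⁆ ≠ ⊥) {g : G}
    (fg : ∀ w ∈ ⁅N, N⁆, w * g = g * w → w = 1)
    (cy : ∀ A ≤ ⁅(⊤ : Subgroup G), N⁆, (∀ a ∈ A, ∀ b ∈ A, a * b = b * a) → IsCyclic A)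
    (cy' : p ≠ 2 → IsCyclic (⁅(⊤ : Subgroup G), N⁆ : Subgroup G)) : False := by
  have hp : p.Prime := Fact.out
  have pN' : IsPGroup p (⁅N, N⁆ : Subgroup G) := pN.to_le (commutator_le_self N)
  obtain ⟨z₀, h1, h2, h3⟩ := exists_cent inferInstance pN' pN ne
  have c0 : IsCyclic (⁅N, N⁆ ⊓ centralizer (N : Set G) : Subgroup G) :=
    cy _ (inf_le_left.trans gE) fun a ha b hb => hb.2 a (commutator_le_self N ha.1)
  obtain ⟨k, hk⟩ := IsPGroup.iff_orderOf.1 pN' ⟨z₀, h1⟩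
  rw [← orderOf_coe] at hk
  have dv : p ∣ orderOf z₀ := hk ▸ dvd_pow_self p fun e => h2 (orderOf_eq_one_iff.1 (by rw [hk, e, pow_zero]))
  obtain ⟨z, hz, oz⟩ : ∃ z ∈ (⁅N, N⁆ ⊓ centralizer (N : Set G) : Subgroup G), orderOf z = p :=
    ⟨_, pow_mem (show z₀ ∈ (⁅N, N⁆ ⊓ centralizer (N : Set G) : Subgroup G) from ⟨h1, h3⟩) _,
      orderOf_pow_orderOf_div (orderOf_pos z₀).ne' dv⟩
  have z1 : z ≠ 1 := fun e => hp.one_lt.ne (by rw [← oz, e, orderOf_one])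
  have nZ : (zpowers z).Normal := normal_of_le_cyclic c0 (zpowers_le.2 hz)
  by_cases p2 : p = 2
  · obtain ⟨i, hi⟩ := mem_zpowers_iff.1 (nZ.conj_mem z (mem_zpowers z) g)
    have z2 : z ^ (2 : ℤ) = 1 := by rw [zpow_ofNat, ← p2, ← oz, pow_orderOf_eq_one]
    rcases Int.even_or_odd' i with ⟨j, rfl | rfl⟩
    · rw [zpow_mul, z2, one_zpow, eq_comm, conj_eq_one_iff] at hi
      exact z1 hi
    · rw [zpow_add, zpow_mul, z2, one_zpow, one_mul, zpow_one, eq_mul_inv_iff_mul_eq] at hi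
      exact z1 (fg z hz.1 hi)
  obtain ⟨μ, -, hμ⟩ := exists_kS (X := zpowers z) (Y := ⊥) bot_le (commutator_le.2 fun a ha b hb =>
    mem_bot.2 (commutatorElement_eq_one_iff_mul_comm.2
      ((zpowers_le.2 hz hb).2 a (commutator_le_self N (zpowers_le.2 hz ha).1)))) (mem_zpowers z)
    (by simpa using z1)
  have μ1 : μ ≠ 1 := fun e => hμ (le_kS_iff.2 e (mem_zpowers z))
  obtain ⟨c, hc, nc⟩ := SetLike.not_le_iff_exists.1 (h.F1' (zpowers_le.2 hz.1) μ1)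
  have : Fact (Nat.card (zpowers z)).Prime := ⟨by rwa [Nat.card_zpowers, oz]⟩
  have kb : kS μ = ⊥ := by
    rcases μ.ker.eq_bot_or_eq_top_of_prime_card with e | e
    · rw [kS, e, Subgroup.map_bot]
    · exact absurd (MonoidHom.ker_eq_top_iff.1 e) μ1
  have cz := mem_St_iff_kS.1 hc z (mem_zpowers z)
  rw [kb, mem_bot, commutatorElement_def, mul_inv_eq_one] at cz
  have := cy' p2
  obtain ⟨m, hm⟩ := MonoidHom.map_cyclic
    (MulAut.conjNormal c : MulAut (⁅(⊤ : Subgroup G), N⁆ : Subgroup G)).toMonoidHom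
  have hm' : ∀ u ∈ ⁅(⊤ : Subgroup G), N⁆, ⁅c, u⁆ = u ^ (m - 1) := fun u hu => by
    have := congrArg Subtype.val (hm ⟨u, hu⟩)
    simp only [MulEquiv.coe_toMonoidHom, MulAut.conjNormal_apply, SubgroupClass.coe_zpow] at this
    rw [commutatorElement_def, this, zpow_sub_one]
  obtain ⟨t, ht⟩ : (p : ℤ) ∣ m - 1 := by
    rw [← oz, orderOf_dvd_iff_zpow_eq_one, ← hm' z (gE hz.1), commutatorElement_def, cz, mul_inv_cancel]
  obtain ⟨u, hu, nu⟩ := SetLike.not_le_iff_exists.1 h.nc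
  obtain ⟨j, j1, j2⟩ := Nat.exists_not_and_succ_of_not_zero_of_exists
    (p := fun j => u ^ p ^ j ∈ ⁅N, N⁆) (by simpa using nu) (by
      obtain ⟨j, hj⟩ := pN ⟨u, EN hu⟩
      exact ⟨j, (show u ^ p ^ j = 1 from congrArg Subtype.val hj) ▸ one_mem _⟩)
  refine j1 (h.fpf c nc _ (pow_mem hu _) ?_)
  rw [hm' _ (pow_mem hu _), ht, zpow_mul, zpow_natCast, ← pow_mul, ← pow_succ]
  exact zpow_mem j2 t

end Cfsg.Agent.NDA.Ny
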