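import Cfsg.Agent.NDA.B2a
import Cfsg.Agent.NDA.B2p

/-! S4780. If the `p`-complement of `N` meets `N'`, it contains `N'`. -/

set_option autoImplicit false

namespace Cfsg.Agent.NDA.Ny

open Subgroup Cfsg.Agent.Char Cfsg.Agent.Palfy
open scoped commutatorElement

variable {G : Type*} [Group G] [Finite G] {N L M J : Subgroup G} [N.Normal] [L.Normal] [M.Normal]
  {x : G} {p k : ℕ} (h : Ny N)
include h

omit h in
theorem b2q_cyc {V : Type*} [Group V] [Finite V] [Nontrivial V] (φ : G →* MulAut V) [Fact p.Prime]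
    {B : Subgroup G} (hB : IsPGroup p B) (c : (∀ a ∈ B, ∀ b ∈ B, a * b = b * a) ∨ p ≠ 2)
    (hf : ∀ a ∈ B, ∀ v, φ a v = v → a = 1 ∨ v = 1) : IsCyclic B := by
  let S := V ⋊[φ] G
  have : Finite S := Finite.of_equiv _ SemidirectProduct.equivProd.symm
  let j : G →* S := SemidirectProduct.inr
  let i : V →* S := SemidirectProduct.inl
  have hj : Function.Injective j := SemidirectProduct.inr_injective
  have k1 : i.range ≠ ⊥ := by
    obtain ⟨v, hv⟩ := exists_ne (1 : V)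
    intro e
    exact hv (SemidirectProduct.inl_injective ((mem_bot.1 (e ▸ ⟨v, rfl⟩ : i v ∈ ⊥)).trans
      (map_one i).symm))
  have k2 : B.map j ≤ normalizer (i.range : Set S) := by
    rw [SemidirectProduct.range_inl_eq_ker_rightHom, normalizer_eq_top]
    exact le_top
  have k3 : ∀ a ∈ B.map j, a ≠ 1 → i.range ⊓ centralizer {a} = ⊥ := by
    rintro _ ⟨a, ha, rfl⟩ h1
    rw [eq_bot_iff]
    rintro _ ⟨⟨v, rfl⟩, hv⟩
    have h2 : i (φ a v) = i v := by
      refine (SemidirectProduct.inl_aut (φ := φ) a v).trans ?_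
      rw [map_inv, mul_inv_eq_iff_eq_mul]
      exact (mem_centralizer_singleton_iff.1 hv).symm
    rcases hf a ha v (SemidirectProduct.inl_injective h2) with rfl | rfl
    · exact absurd (map_one j) h1
    · exact mem_bot.2 (map_one i)
  have h1 : IsCyclic (B.map j) := by
    rcases c with c | c
    · have : IsMulCommutative (B.map j) := by
        refine ⟨⟨?_⟩⟩
        rintro ⟨_, a, ha, rfl⟩ ⟨_, b, hb, rfl⟩
        apply Subtype.ext
        change j a * j b = j b * j a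
        rw [← map_mul, ← map_mul, c a ha b hb]
      exact Solv.Frob.isCyclic_of_fpf_of_comm k1 k2 k3
    · exact Solv.Frob.isCyclic_of_fpf_of_isPGroup (hB.map j) c k1 k2 k3
  exact isCyclic_of_surjective _ (B.equivMapOfInjective j hj).symm.surjective

omit h in
theorem b2q_idx (T : Subgroup G) : (N ⊔ T).index * (T ⊓ N).relIndex N = T.index := by
  have k1 := relIndex_mul_index (inf_le_right : T ⊓ N ≤ N)
  have k2 := relIndex_mul_index (inf_le_left : T ⊓ N ≤ T)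
  have k3 := relIndex_mul_index (le_sup_left : N ≤ N ⊔ T)
  rw [relIndex_sup_left] at k3
  rw [inf_relIndex_left] at k2
  have k0 : N.relIndex T ≠ 0 := index_ne_zero_of_finite
  refine Nat.eq_of_mul_eq_mul_left (Nat.pos_of_ne_zero k0) ?_
  rw [k2, ← k1, ← k3]
  ring

/-- Proof. Suppose `N' ≰ L`. `L ≤ D` (`L_le`), `π = mk' L`, `N̄ = N.map π` is a nonabelian `p`-group with
`Ny N̄` (`Ny.map`). `M = L ⊓ N'`, `J` from `compl`. (1) Let `μ ≠ 1` on `M`, `T = St μ`; `stab`; `T ≰ N` (`F1'`);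
`exists_gen_of` gives a `p'`-element `g ∈ T`, `T ≤ N ⊔ ⟨g⟩`, so `g ∉ N`. `pstep` in `G ⧸ L` with
`Q = (T ⊓ N).map π`, `d = |G:T| = |G : T N| |N : T ⊓ N|` (`hd` from `nd` and `DD.of_map`) gives `C_{N̄'}(ḡ) = 1`. Hence every `p`-element `r ∈ E ⊓ T` is trivial: `r̄` commutes
with `ḡ`, so `r̄ ∈ N̄'` (`fpf`), `r̄ = 1`, `r ∈ L`. (2) Let `P` be a Sylow `p`-subgroup of `E`; `P ≅ Ē = E.map π`.
`P` acts semiregularly on `V = (M →* ℂˣ)`, nontrivial by `one_lt_dual`. So abelian subgroups of `P` are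
cyclic (`isCyclic_of_fix`), and `P` is cyclic if `p ≠ 2` (`Solv.Frob.isCyclic_of_fpf_of_isPGroup` in
`V ⋊ MulAut V`, as in `isCyclic_of_fix`). `pend` for `N̄`. -/
theorem b2a [Group.IsSolvable G] (hp : p.Prime) (hx : x ∈ N) (nx : x ∉ CC N) (e : x ^ p ^ k = 1)
    (le : L ≤ N) (c : ¬ p ∣ Nat.card L) (pL : IsPGroup p (N.map (QuotientGroup.mk' L)))
    (ne : L ⊓ ⁅N, N⁆ ≠ ⊥) : ⁅N, N⁆ ≤ L := by
  by_contra nl
  haveI := Fact.mk hp
  obtain ⟨J, hJ⟩ := h.compl hp hx nx e le c pL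
  have hf := QuotientGroup.mk'_surjective L
  have hk := QuotientGroup.ker_mk' L
  generalize QuotientGroup.mk' L = f at hf hk pL
  have h' := h.map hf (hk.le.trans (h.L_le le nl))
  haveI := (inferInstance : N.Normal).map f hf
  have cm : ∀ a b : G, ⁅a, b⁆ ∈ L → f a * f b = f b * f a := fun a b k => by
    rw [← commutatorElement_eq_one_iff_mul_comm, ← map_commutatorElement, ← f.mem_ker, hk]
    exact k
  have one : ∀ r ∈ L, (∃ k, r ^ p ^ k = 1) → r = 1 := fun r hr ⟨k, hk⟩ =>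
    orderOf_eq_one_iff.1 ((Nat.coprime_self _).1 (Nat.Coprime.coprime_dvd_left
      (orderOf_dvd_of_pow_eq_one hk) (((hp.coprime_iff_not_dvd.2 c).pow_left k).coprime_dvd_right
        (orderOf_dvd_natCard L hr))))
  have key : ∀ μ : ↥(L ⊓ ⁅N, N⁆) →* ℂˣ, μ ≠ 1 → ∃ g ∈ St (dual (L ⊓ ⁅N, N⁆)) μ, g ∉ N ∧
      ∀ w ∈ ⁅N.map f, N.map f⁆, w * f g = f g * w → w = 1 := fun μ hμ => by
    obtain ⟨d1, d2⟩ := h.stab inf_le_right hJ hμ
    have n1 := h.F1' inf_le_right hμ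
    generalize St (dual (L ⊓ ⁅N, N⁆)) μ = T at d1 d2 n1
    obtain ⟨g, hg, cop, gT⟩ := exists_gen_of h.cyc (h.pf hp hx nx e) T
    have gN : g ∉ N := fun k => n1 (gT.trans (sup_le le_rfl (zpowers_le.2 k)))
    refine ⟨g, hg, gN, fun w hw ew => h'.pstep pL (Q := (T ⊓ N).map f) (g := f g) (fun k => gN ?_)
      (cop.coprime_dvd_left (orderOf_map_dvd f g)) (map_mono inf_le_right) ?_ ?_
      index_ne_zero_of_finite (fun d' k1 k2 => h.nd _ _ (k1.of_map hf) d1 k2) ?_ hw ew⟩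
    · rwa [← mem_comap, comap_map_eq, hk, sup_eq_left.2 le] at k
    · rintro _ ⟨a, ha, rfl⟩ _ ⟨b, hb, rfl⟩
      exact cm a b (d2 a ha.1 b hb.1).1
    · rintro _ ⟨a, ha, rfl⟩
      exact cm a g (d2 a ha.1 g hg).1
    · rw [← MonoidHom.map_zpowers, ← Subgroup.map_sup,
        index_map_eq _ hf (hk.le.trans (le.trans le_sup_left)), ← b2q_idx (N := N) T,
        show N ⊔ zpowers g = N ⊔ T from le_antisymm (sup_le_sup_left (zpowers_le.2 hg) _)
          (sup_le le_sup_left gT), ← relIndex_comap, comap_map_eq]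
      exact Nat.mul_dvd_mul_left _ (relIndex_dvd_of_le_left _ le_sup_left)
  haveI := Finite.one_lt_card_iff_nontrivial.1 (one_lt_dual ne)
  obtain ⟨P, hP⟩ := PLocal.Amb.exists_isSyl p ⁅(⊤ : Subgroup G), N⁆
  have eP : P.map f = ⁅(⊤ : Subgroup (G ⧸ L)), N.map f⁆ := by
    have := hP.map f
    rw [map_commutator, map_top_of_surjective f hf] at this
    exact (this.eq (pL.to_le EN) this.le le_rfl).symm
  have fp : ∀ a ∈ P, ∀ μ, dual (L ⊓ ⁅N, N⁆) a μ = μ → a = 1 ∨ μ = 1 := fun a ha μ hμ => by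
    refine or_iff_not_imp_right.2 fun m1 => ?_
    obtain ⟨g, hg, gN, fg⟩ := key μ m1
    have k := (h.stab inf_le_right hJ m1).2 g hg a hμ
    refine one a ?_ (PLocal.Amb.isPGroup_iff.1 hP.pgrp a ha)
    rw [← hk]
    exact fg _ (map_commutator N N f ▸ mem_map_of_mem f (h.fpf g gN a (hP.le ha) k.2))
      (cm g a k.1).symm
  obtain ⟨μ, hμ⟩ := exists_ne (1 : ↥(L ⊓ ⁅N, N⁆) →* ℂˣ)
  obtain ⟨g, -, -, fg⟩ := key μ hμ
  refine h'.pend pL (fun k => nl ?_) fg (fun A hA ab => ?_) fun p2 => ?_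
  · rwa [← map_commutator, Subgroup.map_eq_bot_iff, hk] at k
  · have e1 : (P ⊓ A.comap f).map f = A := le_antisymm (map_le_iff_le_comap.2 inf_le_right)
      fun a ha => by
        obtain ⟨b, hb, rfl⟩ := eP.ge (hA ha)
        exact ⟨b, ⟨hb, ha⟩, rfl⟩
    haveI := b2q_cyc (V := ↥(L ⊓ ⁅N, N⁆) →* ℂˣ) (dual _)
      (hP.pgrp.to_le (inf_le_left : P ⊓ A.comap f ≤ P))
      (Or.inl fun a ha b hb => commutatorElement_eq_one_iff_mul_comm.1 (one _ (by
        rw [← hk, f.mem_ker, map_commutatorElement]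
        exact commutatorElement_eq_one_iff_mul_comm.2 (ab _ ha.2 _ hb.2))
        (PLocal.Amb.isPGroup_iff.1 hP.pgrp _ (P.mul_mem (P.mul_mem (P.mul_mem ha.1 hb.1)
          (P.inv_mem ha.1)) (P.inv_mem hb.1))))) fun a ha => fp a ha.1
    rw [← e1]
    exact isCyclic_of_surjective _ (f.subgroupMap_surjective _)
  · haveI := b2q_cyc (V := ↥(L ⊓ ⁅N, N⁆) →* ℂˣ) (dual _)
      hP.pgrp (Or.inr p2) fp
    rw [← eP]
    exact isCyclic_of_surjective _ (f.subgroupMap_surjective _)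

end Cfsg.Agent.NDA.Ny
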