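import Mathlib
import Cfsg.Agent.Palfy.ND2
import Cfsg.Agent.Deg4.Tools
import Cfsg.Agent.Char.GlaubAbove
import Cfsg.Agent.Solv.Coprime2

/-! S4780. Two small lemmas: invariant nonlinear characters of `p`-groups,
and the uniqueness trick for invariant extensions of linear characters. -/

set_option autoImplicit false

namespace Cfsg.Agent.NDA

open Subgroup Cfsg.Agent.Char
open scoped commutatorElement

variable {G : Type*} [Group G] [Finite G]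

/-- Proof. `N` is nilpotent: let `X₀ = ⁅N,N⁆`, `X_{i+1} = ⁅X_i,N⁆` (normal in `G`, eventually `⊥`), choose
`X = X_i ∋ w`, `Y = X_{i+1} ∌ w`. Then `w ∉ Y ⊔ ⁅X, zpowers h⁆` (in `G/Y` the image of `X` is abelian of
order prime to `h`, so `C(h) ⊓ ⁅X,h⁆ = 1`; or: `x ↦ ⁅h,x⁆` is an endomorphism of the finite abelian
group `X/Y` with nonzero kernel, hence not onto, and take any element outside the image instead of `w`).
`Deg4.exists_hom_sub` gives `ξ : X →* ℂˣ`, `ξ ≠ 1`, trivial on `Y ⊔ ⁅X, zpowers h⁆`, so `lin ξ` is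
`InvBy (zpowers h)`. `exists_invBy_above_left` (`S = zpowers h`) gives `ψ ∈ Irr N` over `ξ`,
`h`-invariant; `ψ` is not linear (a linear character is trivial on `X ≤ ⁅N,N⁆`). For the bound:
`ψ(1) ≤ |N : Q'|` for every abelian `Q' ≤ N` (`IsIrrCharacter.deg_le_index_of_comm`). By Thompson's
`P × Q` lemma (`Solv.p_times_q p Q (zpowers h) N`) and `nc` there is `g ∈ N ⊓ C(Q)` not commuting with
`h`, so `g ∉ Q`, and `Q' = Q ⊔ zpowers g` is abelian, `> Q` (see `y2`–`y4` in `Palfy.Hy.pgrp`). -/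
theorem pq {p : ℕ} [Fact p.Prime] {N Q : Subgroup G} [N.Normal] (pN : IsPGroup p N) {h w : G}
    (hh : (orderOf h).Coprime p) (QN : Q ≤ N) (Qab : ∀ a ∈ Q, ∀ b ∈ Q, a * b = b * a)
    (Qh : ∀ a ∈ Q, a * h = h * a) (nc : ∃ x ∈ N, x * h ≠ h * x)
    (hw : w ∈ ⁅N, N⁆) (w1 : w ≠ 1) (wh : w * h = h * w) :
    ∃ ψ : IrrCharacter N, charDegree ψ.1 ≠ 1 ∧ h ∈ inertia N ψ.1 ∧ charDegree ψ.1 < Q.relIndex N := by
  classical
  have hp : p.Prime := Fact.out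
  obtain ⟨X, ⟨nX, x1, x2⟩, mn⟩ := exists_minimal_of_wellFoundedLT
    (fun X : Subgroup G => X.Normal ∧ w ∈ X ∧ X ≤ ⁅N, N⁆) ⟨⁅N, N⁆, inferInstance, hw, le_rfl⟩
  have XN : X ≤ N := x2.trans (commutator_le_self N)
  have pX := pN.to_le XN
  have lt := Solv.commutator_lt_of_isPGroup pX pX le_normalizer fun e => w1 (mem_bot.1 (e.le x1))
  obtain ⟨μ, -, m1⟩ := Deg4.exists_hom_sub X ⁅X, X⁆ le_rfl x1 fun r =>
    lt.not_ge (mn ⟨inferInstance, r, lt.le.trans x2⟩ lt.le)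
  have := Fintype.ofFinite (zpowers h)
  have := Fintype.ofFinite X
  set ξ : X →* ℂˣ := ∏ s : zpowers h, μ.comp (MulAut.conjNormal (s : G)).toMonoidHom with hξ
  have xv : ∀ y : X, ξ y = ∏ s : zpowers h, μ (MulAut.conjNormal (s : G) y) := fun y => by
    rw [hξ, MonoidHom.finset_prod_apply]
    rfl
  have xw : ξ ⟨w, x1⟩ ≠ 1 := fun e => m1 (by
    rw [xv, Finset.prod_congr rfl (g := fun _ => μ ⟨w, x1⟩) fun s _ => congrArg μ (Subtype.ext (by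
      obtain ⟨_, k, rfl⟩ := s
      change h ^ k * w * (h ^ k)⁻¹ = w
      rw [← (Commute.zpow_right wh k).eq, mul_inv_cancel_right])), Finset.prod_const,
      Finset.card_univ, Fintype.card_eq_nat_card, Nat.card_zpowers] at e
    obtain ⟨k, hk⟩ := pX ⟨w, x1⟩
    exact pow_eq_one_iff_of_coprime (hh.pow_right k) |>.1 ⟨e, by rw [← map_pow, hk, map_one]⟩)
  obtain ⟨j, hj⟩ := pN.exists_card_eq
  obtain ⟨ψ, k1, k2⟩ := exists_invBy_above_left (N := X) (S := zpowers h) le_normalizer_of_normal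
    (solvMod_of_isSolvable X inferInstance) ⟨_, isIrrCharacter_linear ξ⟩ (fun t ht y y' e => by
      change (ξ y' : ℂ) = ξ y
      rw [xv, xv, ← Equiv.prod_comp (Equiv.mulRight (⟨t, ht⟩ : zpowers h))
        fun s : zpowers h => μ (MulAut.conjNormal (s : G) y)]
      refine congrArg _ (Finset.prod_congr rfl fun s _ => congrArg μ (Subtype.ext ?_))
      change (s : G) * y' * (s : G)⁻¹ = s * t * y * (s * t : G)⁻¹
      rw [e]
      group) N XN le_normalizer_of_normal le_normalizer_of_normal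
    (((hh.symm.pow_left j).coprime_dvd_left (hj ▸ relIndex_dvd_card X N)).coprime_dvd_right
      (Nat.card_zpowers h ▸ relIndex_dvd_card X _))
  refine ⟨ψ, fun e => ?_, (mem_inertia' _).2 fun n => k2 h (mem_zpowers h) _ _ rfl, ?_⟩
  · have e1 := (charDegree_eq_one_iff ψ.2.isCharacter).1 e
    have e2 : (fun c : X => ψ.1 ⟨c, XN c.2⟩) = fun c => (((1 : X →* ℂˣ) c : ℂˣ) : ℂ) :=
      funext fun c => by
        obtain ⟨y, hy, r⟩ := (map_subtype_commutator N).ge (x2 c.2)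
        rw [show (⟨c, XN c.2⟩ : N) = y from Subtype.ext r.symm,
          (mem_charKer_irr ψ).1 (commutator_le_charKer_of_one ψ.2.isCharacter e1 hy), e1]
        rfl
    rw [nmult_ne_zero_iff, e2, (isIrrCharacter_linear 1).inner_eq_ite (isIrrCharacter_linear ξ)] at k1
    exact xw (Units.ext (congrFun (of_not_not fun r => k1 (if_neg r)) ⟨w, x1⟩).symm)
  · have c1 : Q ≤ centralizer (zpowers h : Set G) := le_centralizer_iff.1 (zpowers_le.2 Qh)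
    obtain ⟨g, ⟨g1, g2⟩, g3⟩ := SetLike.not_le_iff_exists.1 (mt (Solv.p_times_q p Q (zpowers h) N
      (pN.to_le QN) (Nat.card_zpowers h ▸ hh) pN c1 le_normalizer_of_normal le_normalizer_of_normal)
      fun r => nc.elim fun x hx => hx.2 (r (mem_zpowers h) x hx.1))
    have h3 : Q ≤ centralizer (Q : Set G) := fun a ha b hb => Qab b hb a ha
    have y2 : Q ⊔ zpowers g ≤ centralizer (Q ⊔ zpowers g : Subgroup G) :=
      sup_le (le_centralizer_iff.1 (sup_le h3 (zpowers_le.2 g2))) (le_centralizer_iff.1 (sup_le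
        (le_centralizer_iff.1 (zpowers_le.2 g2)) (le_centralizer _)))
    have y3 := ψ.2.deg_le_index_of_comm (coe_charDegree_irr ψ).symm ((Q ⊔ zpowers g).subgroupOf N)
      fun a ha b hb => Subtype.ext (y2 hb a ha)
    exact y3.trans_lt (index_strictAnti (H := Q.subgroupOf N) (lt_of_le_not_ge (comap_mono le_sup_left)
      fun e => g3 (c1 (@e ⟨_, g1⟩ (mem_sup_right (mem_zpowers _))))))

/-- `ξ` is invariant under conjugation by `c` -/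
def InvL {R : Subgroup G} (ξ : R →* ℂˣ) (c : G) : Prop :=
  ∀ r r' : R, (r' : G) = c * r * c⁻¹ → ξ r' = ξ r

omit [Finite G] in
theorem cm_mem_of_norm {R : Subgroup G} {c r : G} (hc : c ∈ normalizer (R : Set G)) (hr : r ∈ R) :
    ⁅c, r⁆ ∈ R := mul_mem ((hc r).1 hr) (inv_mem hr)

/-- `c` normalises `R` and has no fixed points on `R / Y`: every `r ∈ R` is `⁅c, r'⁆` modulo `Y`.
Proof: in `G ⧸ Y` the map `u ↦ ⁅c,u⁆` on the image of `R` is injective (`Palfy.inj_of_fpf`), so onto. -/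
theorem surj_mod {R Y : Subgroup G} [Y.Normal] (le : Y ≤ R) {c : G} (hc : c ∈ normalizer (R : Set G))
    (fp : ∀ r ∈ R, ⁅c, r⁆ ∈ Y → r ∈ Y) {r : G} (hr : r ∈ R) : ∃ r' ∈ R, ⁅c, r'⁆⁻¹ * r ∈ Y := by
  have cm : ∀ u ∈ R.map (QuotientGroup.mk' Y), ⁅(c : G ⧸ Y), u⁆ ∈ R.map (QuotientGroup.mk' Y) := by
    rintro _ ⟨u, hu, rfl⟩
    exact ⟨_, cm_mem_of_norm hc hu, map_commutatorElement _ c u⟩
  obtain ⟨⟨_, m, hm, rfl⟩, e⟩ := Finite.surjective_of_injective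
    (f := fun m : R.map (QuotientGroup.mk' Y) => (⟨_, cm _ m.2⟩ : R.map (QuotientGroup.mk' Y)))
    (fun u v e => Subtype.ext (Palfy.inj_of_fpf (by
      rintro _ ⟨m, hm, rfl⟩ e
      exact (QuotientGroup.eq_one_iff m).2 (fp m hm (Palfy.mk_comm.2 e))) u.2 v.2
      (congrArg Subtype.val e))) ⟨_, r, hr, rfl⟩
  exact ⟨m, hm, QuotientGroup.eq.1 ((map_commutatorElement (QuotientGroup.mk' Y) c m).trans
    (congrArg Subtype.val e))⟩

/-- two `c`-invariant linear characters agreeing on `Y` are equal (`surj_mod`: `r = ⁅c,r'⁆ y`,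
`ξ ⁅c,r'⁆ = 1`). -/
theorem InvL.eq {R Y : Subgroup G} [Y.Normal] (le : Y ≤ R) {c : G} (hc : c ∈ normalizer (R : Set G))
    (fp : ∀ r ∈ R, ⁅c, r⁆ ∈ Y → r ∈ Y) {ξ η : R →* ℂˣ} (h1 : InvL ξ c) (h2 : InvL η c)
    (e : ∀ y : R, y.1 ∈ Y → ξ y = η y) : ξ = η := by
  refine MonoidHom.ext fun r => ?_
  obtain ⟨u, hu, k⟩ := surj_mod le hc fp r.2
  have z : ∀ {ζ : R →* ℂˣ}, InvL ζ c → ζ r = ζ ⟨_, le k⟩ := fun {ζ} h => by
    refine (congrArg ζ (show r = ⟨_, (hc u).1 hu⟩ * (⟨u, hu⟩ : R)⁻¹ * ⟨_, le k⟩ from Subtype.ext (by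
      change (r : G) = c * u * c⁻¹ * u⁻¹ * ((c * u * c⁻¹ * u⁻¹)⁻¹ * r)
      group))).trans ?_
    rw [map_mul, map_mul, h ⟨u, hu⟩ _ rfl, map_inv, mul_inv_cancel, one_mul]
  rw [z h1, z h2]
  exact e _ k

/-- The uniqueness trick. Proof: suppose `r₀ ∈ R \ Y`; `Deg4.exists_hom_sub` gives `λ : R →* ℂˣ`
trivial on `Y`, `λ r₀ ≠ 1`. `ξ₀` and `ξ' = ξ₀ λ` are extensions; take `c` for `ξ₀`, `c'` for `ξ'`.
`η r = ξ₀ (c' r c'⁻¹)` agrees with `ξ₀` on `Y` and is `c`-invariant, since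
`c' c = ⁅c',c⁆ c c'`. `InvL.eq` with `c` gives `η = ξ₀`, i.e. `InvL ξ₀ c'`; `InvL.eq` with `c'` gives
`ξ₀ = ξ'`, so `λ = 1`. -/
theorem uu {R Y : Subgroup G} [Y.Normal] (le : Y ≤ R) (ab : ⁅R, R⁆ ≤ Y) (C : Set G) (ξ₀ : R →* ℂˣ)
    (h1 : ∀ c ∈ C, c ∈ normalizer (R : Set G)) (h2 : ∀ c ∈ C, ∀ r ∈ R, ⁅c, r⁆ ∈ Y → r ∈ Y)
    (h3 : ∀ c ∈ C, ∀ y y' : R, y.1 ∈ Y → (y' : G) = c * y * c⁻¹ → ξ₀ y' = ξ₀ y)
    (h4 : ∀ c ∈ C, ∀ c' ∈ C, InvL ξ₀ ⁅c, c'⁆)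
    (h5 : ∀ ξ : R →* ℂˣ, (∀ y : R, y.1 ∈ Y → ξ y = ξ₀ y) → ∃ c ∈ C, InvL ξ c) : R ≤ Y := by
  intro r hr
  by_contra nr
  obtain ⟨l, l1, l2⟩ := Deg4.exists_hom_sub R Y ab hr nr
  have ag : ∀ y : R, y.1 ∈ Y → (ξ₀ * l) y = ξ₀ y := fun y hy => by
    rw [MonoidHom.mul_apply, l1 y hy, mul_one]
  obtain ⟨c, c1, c2⟩ := h5 ξ₀ fun _ _ => rfl
  obtain ⟨d, d1, d2⟩ := h5 (ξ₀ * l) ag
  have e : ξ₀.comp (R.normalizerMonoidHom ⟨d, h1 d d1⟩).toMonoidHom = ξ₀ :=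
    InvL.eq le (h1 c c1) (h2 c c1) (fun u u' e => by
      have k := c2 ⟨_, (h1 d d1 u).1 u.2⟩ ⟨_, (h1 c c1 _).1 ((h1 d d1 u).1 u.2)⟩ rfl
      refine Eq.trans (h4 d d1 c c1 _ _ ?_) k
      change d * u' * d⁻¹ = d * c * d⁻¹ * c⁻¹ * (c * (d * u * d⁻¹) * c⁻¹) * (d * c * d⁻¹ * c⁻¹)⁻¹
      rw [e]
      group) c2 fun y hy => h3 d d1 y _ hy rfl
  have e2 := InvL.eq le (h1 d d1) (h2 d d1) d2 (η := ξ₀) (fun u u' r => by
    rw [← DFunLike.congr_fun e u]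
    exact congrArg ξ₀ (Subtype.ext r)) ag
  exact l2 (mul_eq_left.1 (DFunLike.congr_fun e2 ⟨r, hr⟩))

end Cfsg.Agent.NDA
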