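import Cfsg.Agent.NDA.Defs
import Cfsg.Agent.NDA.PQ

/-! S4780 (captain helper13). Group-theoretic consequences of `Ny`. -/

set_option autoImplicit false

namespace Cfsg.Agent.NDA

open Subgroup Cfsg.Agent.Char Cfsg.Agent.Palfy
open scoped commutatorElement

variable {G : Type*} [Group G] [Finite G] {N : Subgroup G} [N.Normal] {a g x e : G} {p k : ℕ}

theorem exists_dec (gen : N ⊔ zpowers a = ⊤) (g : G) : ∃ n ∈ N, ∃ j : ℕ, g = n * a ^ j := by
  have hg : g ∈ ((N ⊔ zpowers a : Subgroup G) : Set G) := by rw [gen]; exact mem_top g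
  rw [normal_mul] at hg
  obtain ⟨n, hn, _, hz, rfl⟩ := hg
  obtain ⟨j, rfl⟩ := mem_powers_iff_mem_zpowers.2 hz
  exact ⟨n, hn, j, rfl⟩

/-- a subgroup not contained in `N` but containing `N` contains a power of `a` outside `N` -/
theorem exists_pow_notMem (gen : N ⊔ zpowers a = ⊤) {T : Subgroup G} (le : N ≤ T) (ne : ¬ T ≤ N) :
    ∃ j : ℕ, a ^ j ∈ T ∧ a ^ j ∉ N := by
  obtain ⟨t, ht, nt⟩ := SetLike.not_le_iff_exists.1 ne
  obtain ⟨n, hn, j, rfl⟩ := exists_dec gen t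
  exact ⟨j, (mul_mem_cancel_left (le hn)).1 ht, fun k => nt (mul_mem hn k)⟩

/-- a subgroup `T` contains an element generating it modulo `N`, of order prime to `p` -/
theorem exists_gen_of [Fact p.Prime] (cyc : ∃ a : G, N ⊔ zpowers a = ⊤) (hp : ¬ p ∣ N.index)
    (T : Subgroup G) : ∃ h ∈ T, (orderOf h).Coprime p ∧ T ≤ N ⊔ zpowers h := by
  have hp' : p.Prime := Fact.out
  obtain ⟨a, gen⟩ := cyc
  have cy : IsCyclic (G ⧸ N) := ⟨(a : G ⧸ N), fun y => by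
    obtain ⟨y, rfl⟩ := QuotientGroup.mk_surjective y
    obtain ⟨n, hn, j, rfl⟩ := exists_dec gen y
    refine ⟨j, ?_⟩
    simp [(QuotientGroup.eq_one_iff n).2 hn]⟩
  obtain ⟨⟨_, t, ht, rfl⟩, hz⟩ := IsCyclic.exists_generator (α := T.map (QuotientGroup.mk' N))
  obtain ⟨m, r, hr, e⟩ := Nat.exists_eq_pow_mul_and_not_dvd (orderOf_pos t).ne' p hp'.ne_one
  refine ⟨t ^ p ^ m, pow_mem ht _, ?_, fun y hy => ?_⟩
  · refine Nat.Coprime.coprime_dvd_left (orderOf_dvd_of_pow_eq_one ?_)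
      ((Nat.Prime.coprime_iff_not_dvd hp').2 hr).symm
    rw [← pow_mul, ← e, pow_orderOf_eq_one]
  · obtain ⟨l, hl⟩ := exists_pow_eq_self_of_coprime (x := (t : G ⧸ N)) (n := p ^ m)
      ((((Nat.Prime.coprime_iff_not_dvd hp').2 hp).coprime_dvd_right
        (orderOf_dvd_natCard _)).pow_left m)
    obtain ⟨i, hi⟩ := hz ⟨_, y, hy, rfl⟩
    have hi' : (t : G ⧸ N) ^ i = y := congrArg Subtype.val hi
    rw [← hl] at hi'
    have : (((t ^ p ^ m) ^ l) ^ i)⁻¹ * y ∈ N := QuotientGroup.eq.1 (by simpa using hi')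
    have k := mul_mem (mem_sup_right (zpow_mem (pow_mem (mem_zpowers (t ^ p ^ m)) l) i))
      (mem_sup_left this : _ ∈ N ⊔ zpowers (t ^ p ^ m))
    rwa [mul_inv_cancel_left] at k

omit [Finite G] in
theorem EN : ⁅(⊤ : Subgroup G), N⁆ ≤ N := commutator_le_right _ _

omit [Finite G] [N.Normal] in
theorem gE : ⁅N, N⁆ ≤ ⁅(⊤ : Subgroup G), N⁆ := commutator_mono le_top le_rfl

namespace Ny

variable (h : Ny N)
include h

theorem cE (g x : G) : ⁅g, x⁆ ∈ ⁅(⊤ : Subgroup G), N⁆ := by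
  obtain ⟨a, gen⟩ := h.cyc
  obtain ⟨n, hn, i, rfl⟩ := exists_dec gen g
  obtain ⟨m, hm, j, rfl⟩ := exists_dec gen x
  have c : ∀ n ∈ N, ∀ y : G, Commute (y : G ⧸ ⁅(⊤ : Subgroup G), N⁆) n := fun n hn y =>
    mk_comm.1 (commutator_mem_commutator (mem_top y) hn)
  refine mk_comm.2 (Commute.eq ?_)
  simp only [QuotientGroup.mk_mul]
  refine Commute.mul_left ((c n hn m).symm.mul_right (c n hn _).symm) ((c m hm _).mul_right ?_)
  simp only [QuotientGroup.mk_pow]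
  exact (Commute.refl _).pow_pow i j

theorem ab : commutator G ≤ N := by
  exact commutator_le.2 fun g _ x _ => EN (h.cE g x)

theorem ex : ∃ g, g ∉ N := by
  by_contra k
  push_neg at k
  exact h.nc (commutator_mono (fun x _ => k x) le_rfl)

theorem p1 (hg : g ∉ N) (hx : x ∈ N) (c : ⁅g, x⁆ ∈ ⁅N, N⁆) : x ∈ CC N := by
  refine mem_CC.2 fun y => h.fpf g hg _ (h.cE y x) (mk_comm.2 ?_)
  have c1 := mk_comm.1 c
  have c2 := mk_comm.1 (commutator_mem_commutator (EN (h.cE g⁻¹ y⁻¹)) hx)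
  simp only [commutatorElement_def, QuotientGroup.mk_mul, QuotientGroup.mk_inv, inv_inv] at c2 ⊢
  generalize (g : G ⧸ ⁅N, N⁆) = g at *
  generalize (x : G ⧸ ⁅N, N⁆) = x at *
  generalize (y : G ⧸ ⁅N, N⁆) = y at *
  have c3 : g * x⁻¹ = x⁻¹ * g := (Commute.inv_right c1).eq
  calc g * (y * x * y⁻¹ * x⁻¹) = y * g * (g⁻¹ * y⁻¹ * g * y * x) * y⁻¹ * x⁻¹ := by group
    _ = y * (g * x) * g⁻¹ * y⁻¹ * (g * x⁻¹) := by rw [c2]; group
    _ = _ := by rw [c1, c3]; group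

theorem CC_le : CC N ≤ N := by
  intro x hx
  by_contra nx
  refine h.nc fun e he => h.fpf x nx e he ?_
  rw [← commutatorElement_inv]
  exact inv_mem (mem_CC.1 hx e)

theorem ED (he : e ∈ ⁅(⊤ : Subgroup G), N⁆) (hd : e ∈ CC N) : e ∈ ⁅N, N⁆ := by
  obtain ⟨g, hg⟩ := h.ex
  exact h.fpf g hg e he (mem_CC.1 hd g)

theorem p2 (hg : g ∉ N) (hx : x ∈ N) (c : ⁅g, x⁆ ∈ CC N) : x ∈ CC N := by
  exact h.p1 hg hx (h.ED (h.cE g x) c)

theorem surj (hg : g ∉ N) (he : e ∈ ⁅(⊤ : Subgroup G), N⁆) :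
    ∃ e' ∈ ⁅(⊤ : Subgroup G), N⁆, ⁅g, e'⁆⁻¹ * e ∈ ⁅N, N⁆ := by
  exact surj_mod gE (le_normalizer_of_normal (mem_top g)) (h.fpf g hg) he

theorem dec (hx : x ∈ N) : ∃ e ∈ ⁅(⊤ : Subgroup G), N⁆, ∃ d ∈ CC N, x = e * d := by
  obtain ⟨g, hg⟩ := h.ex
  obtain ⟨e, he, k⟩ := h.surj hg (h.cE g x)
  refine ⟨e, he, e⁻¹ * x, h.p1 hg (mul_mem (inv_mem (EN he)) hx) ?_, by group⟩
  have := (inferInstance : (⁅N, N⁆).Normal).conj_mem' _ k e
  rwa [show e⁻¹ * (⁅g, e⁆⁻¹ * ⁅g, x⁆) * e = ⁅g, e⁻¹ * x⁆ by simp only [commutatorElement_def]; group]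
    at this

theorem nle : ¬ N ≤ CC N := by
  exact fun k => h.nc fun e he => h.ED he (k (EN he))

theorem pf (hp : p.Prime) (hx : x ∈ N) (nx : x ∉ CC N) (e : x ^ p ^ k = 1) : ¬ p ∣ N.index := by
  intro hd
  have := Fact.mk hp
  obtain ⟨y, hy⟩ := exists_prime_orderOf_dvd_card' (G := G ⧸ N) p hd
  obtain ⟨g, rfl⟩ := QuotientGroup.mk_surjective y
  obtain ⟨m, r, hr, eo⟩ := Nat.exists_eq_pow_mul_and_not_dvd (orderOf_pos g).ne' p hp.ne_one
  have g1 : g ^ r ∉ N := fun k => hr (by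
    rw [← hy]
    exact orderOf_dvd_of_pow_eq_one ((QuotientGroup.eq_one_iff _).2 k))
  have g2 : (g ^ r) ^ p ^ m = 1 := by rw [← pow_mul, mul_comm, ← eo, pow_orderOf_eq_one]
  generalize g ^ r = b at g1 g2
  let R : Subgroup G :=
    { carrier := {y | y ∈ ⁅(⊤ : Subgroup G), N⁆ ∧ y ^ p ^ k ∈ ⁅N, N⁆}
      one_mem' := ⟨one_mem _, by simp⟩
      mul_mem' := fun ha hb => ⟨mul_mem ha.1 hb.1, mul_pow_mem (EN ha.1) (EN hb.1) ha.2 hb.2⟩
      inv_mem' := fun ha => ⟨inv_mem ha.1, by rw [inv_pow]; exact inv_mem ha.2⟩ }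
  have nR : R.Normal := ⟨fun y hy u => ⟨Normal.conj_mem inferInstance _ hy.1 u, by
    rw [conj_pow]; exact Normal.conj_mem inferInstance _ hy.2 u⟩⟩
  have pR : IsPGroup p (R.map (QuotientGroup.mk' ⁅N, N⁆)) := by
    rintro ⟨_, y, hy, rfl⟩
    exact ⟨k, Subtype.ext ((QuotientGroup.eq_one_iff _).2 hy.2)⟩
  have nR' : (R.map (QuotientGroup.mk' ⁅N, N⁆)).Normal := nR.map _ (QuotientGroup.mk'_surjective _)
  have pb : IsPGroup p (zpowers (b : G ⧸ ⁅N, N⁆)) := by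
    rintro ⟨_, i, rfl⟩
    refine ⟨m, Subtype.ext ?_⟩
    change ((b : G ⧸ ⁅N, N⁆) ^ i) ^ p ^ m = 1
    rw [← zpow_natCast, ← zpow_mul, mul_comm, zpow_mul, zpow_natCast, ← QuotientGroup.mk_pow, g2,
      QuotientGroup.mk_one, one_zpow]
  refine (Solv.commutator_lt_of_isPGroup pR pb le_normalizer_of_normal fun e0 => nx
    (mem_CC.2 fun y => (QuotientGroup.eq_one_iff _).1 (mem_bot.1 (e0.le
      ⟨_, ⟨h.cE y x, cm_pow_mem hx e y⟩, rfl⟩)))).not_ge ?_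
  rintro _ ⟨y, hy, rfl⟩
  obtain ⟨y', hy', k1⟩ := surj_mod (R := R) (Y := ⁅N, N⁆) (fun u hu => ⟨gE hu, pow_mem hu _⟩)
    (le_normalizer_of_normal (mem_top b)) (fun u hu => h.fpf b g1 u hu.1) hy
  have : QuotientGroup.mk' ⁅N, N⁆ y = QuotientGroup.mk' ⁅N, N⁆ ⁅b, y'⁆ := (QuotientGroup.eq.2 k1).symm
  rw [this, map_commutatorElement, commutator_comm (R.map _)]
  exact commutator_mem_commutator (mem_zpowers _) ⟨y', hy', rfl⟩

section
variable {Q : Type*} [Group Q] [Finite Q] {f : G →* Q} (hf : Function.Surjective f) (hk : f.ker ≤ CC N)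
include hf hk

theorem map : Ny (N.map f) := by
  have eE : ⁅(⊤ : Subgroup Q), N.map f⁆ = (⁅(⊤ : Subgroup G), N⁆).map f := by
    rw [map_commutator, map_top_of_surjective f hf]
  have key : ∀ e ∈ ⁅(⊤ : Subgroup G), N⁆, f e ∈ ⁅N.map f, N.map f⁆ → e ∈ ⁅N, N⁆ := fun e he k => by
    rw [← map_commutator, ← mem_comap, comap_map_eq] at k
    exact h.ED he (sup_le le_CC hk k)
  refine ⟨?_, ?_, fun k => h.nc fun e he => key e he (k (eE.ge ⟨e, he, rfl⟩)), fun d hd => ?_,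
    fun a b ha hb => h.nd a b (ha.of_map hf) (hb.of_map hf)⟩
  · obtain ⟨a, gen⟩ := h.cyc
    exact ⟨f a, by rw [← MonoidHom.map_zpowers, ← Subgroup.map_sup, gen, map_top_of_surjective f hf]⟩
  · intro g hg e he c
    obtain ⟨g, rfl⟩ := hf g
    obtain ⟨e, he', rfl⟩ := eE.le he
    rw [← map_commutator]
    exact ⟨e, h.fpf g (fun k => hg ⟨g, k, rfl⟩) e he'
      (key _ (h.cE g e) (by rwa [map_commutatorElement])), rfl⟩
  · rw [index_map_eq N hf (hk.trans h.CC_le)]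
    exact h.nf d (hd.of_map hf)

theorem comap_CC [(N.map f).Normal] : (CC (N.map f)).comap f = CC N := by
  ext x
  rw [mem_comap, mem_CC, mem_CC]
  refine ⟨fun k y => ?_, fun k y => ?_⟩
  · have := k (f y)
    rw [← map_commutatorElement, ← map_commutator, ← mem_comap, comap_map_eq] at this
    exact h.ED (h.cE y x) (sup_le le_CC hk this)
  · obtain ⟨y, rfl⟩ := hf y
    rw [← map_commutatorElement, ← map_commutator]
    exact ⟨_, k y, rfl⟩

theorem index_map : (N.map f).index = N.index := index_map_eq N hf (hk.trans h.CC_le)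

end

end Ny

theorem B2.map {Q : Type*} [Group Q] [Finite Q] {f : G →* Q} (hf : Function.Surjective f)
    (hk : f.ker ≤ CC N) [(N.map f).Normal] (h : B2 N) : B2 (N.map f) := by
  refine ⟨h.toNy.map hf hk, ?_⟩
  rw [← relIndex_comap, h.toNy.comap_CC hf hk, ← map_commutator]
  exact h.co.coprime_dvd_right (card_map_dvd _ f)

theorem B1.map {Q : Type*} [Group Q] [Finite Q] {f : G →* Q} (hf : Function.Surjective f)
    (hk : f.ker ≤ CC N) (h : B1 N p a) : B1 (N.map f) p (f a) := by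
  refine ⟨h.toNy.map hf hk, h.pp, ?_, h.cop.coprime_dvd_left (orderOf_map_dvd f a), ?_, ?_⟩
  · rw [← MonoidHom.map_zpowers, ← Subgroup.map_sup, h.gen, map_top_of_surjective f hf]
  · rw [← map_commutator]
    exact h.pN.map f
  · rintro _ ⟨x, hx, rfl⟩
    obtain ⟨k, hk⟩ := h.pZ x hx
    refine ⟨k, ?_⟩
    rintro _ ⟨y, hy, rfl⟩
    rw [← map_pow, ← map_mul, ← map_mul, hk y hy]

end Cfsg.Agent.NDA
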