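import Mathlib
import Cfsg.Agent.NDA.Alg4
import Cfsg.Agent.FGS.LcsLie

/-! STUB (S4780, captain helper13). A Camina group with surjective commutator maps has class `≤ 3`. -/

set_option autoImplicit false

namespace Cfsg.Agent.NDA

open Subgroup
open scoped commutatorElement

namespace Cam4

open Cfsg.Agent.FGS.LcsLie

variable {P : Type*} [Group P]

variable (P) in
/-- the homogeneous component of degree `i` -/
def LL (i : ℕ) : AddSubgroup (Lie P) where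
  carrier := {x | ∃ g ∈ gam P i, cls i g = x}
  zero_mem' := ⟨1, one_mem _, cls_one i⟩
  add_mem' := by
    rintro _ _ ⟨a, ha, rfl⟩ ⟨b, hb, rfl⟩
    exact ⟨_, mul_mem ha hb, cls_mul ha hb⟩
  neg_mem' := by
    rintro _ ⟨a, ha, rfl⟩
    exact ⟨_, inv_mem ha, cls_inv ha⟩

/-- the class of `g` -/
noncomputable def el (i : ℕ) (g : P) (h : g ∈ gam P i) : LL P i := ⟨cls i g, g, h, rfl⟩

theorem el_surj {i : ℕ} (x : LL P i) : ∃ g h, x = el i g h :=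
  let ⟨g, h, e⟩ := x.2; ⟨g, h, Subtype.ext e.symm⟩

theorem el_zero {i : ℕ} {g : P} {h : g ∈ gam P i} : el i g h = 0 ↔ g ∈ gam P (i + 1) :=
  Subtype.ext_iff.trans (cls_eq_zero_iff h)

theorem el_eq {i : ℕ} {g g' : P} {h : g ∈ gam P i} {h' : g' ∈ gam P i} :
    el i g h = el i g' h' ↔ g * g'⁻¹ ∈ gam P (i + 1) := by
  rw [← cls_eq_zero_iff (mul_mem h (inv_mem h')), cls_mul h (inv_mem h'), cls_inv h', add_neg_eq_zero]
  exact Subtype.ext_iff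

instance [Finite P] (i : ℕ) : Finite (LL P i) :=
  Finite.of_surjective (fun g : gam P i => el i g g.2) fun x => let ⟨g, h, e⟩ := el_surj x; ⟨⟨g, h⟩, e.symm⟩

theorem brk_mem {i j : ℕ} (x : LL P i) (y : LL P j) : brk (x : Lie P) (y : Lie P) ∈ LL P (i + j + 1) := by
  obtain ⟨a, ha, rfl⟩ := el_surj x
  obtain ⟨b, hb, rfl⟩ := el_surj y
  exact ⟨_, comm_mem ha hb, (brk_cls ha hb).symm⟩

/-- the restricted bracket -/
noncomputable def rB (i j : ℕ) : LL P i →+ LL P j →+ LL P (i + j + 1) :=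
  AddMonoidHom.mk' (fun x => AddMonoidHom.mk' (fun y => ⟨_, brk_mem x y⟩) fun _ _ =>
    Subtype.ext (map_add _ _ _)) fun _ _ => AddMonoidHom.ext fun _ => Subtype.ext (by simp)

theorem rB_coe {i j : ℕ} (x : LL P i) (y : LL P j) : (rB i j x y : Lie P) = brk (x : Lie P) (y : Lie P) := rfl

theorem rB_el {i j : ℕ} {a b : P} (ha : a ∈ gam P i) (hb : b ∈ gam P j) :
    rB i j (el i a ha) (el j b hb) = el (i + j + 1) ⁅a, b⁆ (comm_mem ha hb) := Subtype.ext (brk_cls ha hb)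

theorem rB_surj {i j : ℕ} (h : ∀ a ∈ gam P i, a ∉ gam P (i + 1) → ∀ t ∈ gam P (i + j + 1),
    ∃ y ∈ gam P j, ⁅a, y⁆ * t⁻¹ ∈ gam P (i + j + 1 + 1)) (x : LL P i) (hx : x ≠ 0) :
    Function.Surjective (rB i j x) := fun t => by
  obtain ⟨a, ha, rfl⟩ := el_surj x
  obtain ⟨t, ht, rfl⟩ := el_surj t
  obtain ⟨y, hy, e⟩ := h a ha (mt el_zero.2 hx) t ht
  exact ⟨el j y hy, (rB_el ha hy).trans (el_eq.2 e)⟩

theorem nontriv {i : ℕ} (h : ¬ gam P i ≤ gam P (i + 1)) : Nontrivial (LL P i) := by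
  obtain ⟨g, h1, h2⟩ := SetLike.not_le_iff_exists.1 h
  exact ⟨el i g h1, 0, mt el_zero.1 h2⟩

theorem key {a y z : P} (w : y * z⁻¹ ∈ gam P 1) (h : ⁅a, z⁆ ∈ gam P 2) :
    brk (-cls 1 (y * z⁻¹)) (cls 0 a) = -cls 2 ⁅a, z⁆ + cls 2 ⁅a, y⁆ := by
  have ha : a ∈ gam P 0 := mem_top a
  have w2 := comm_mem ha w
  have e : ⁅a, y⁆ = ⁅a, y * z⁻¹⁆ * (y * z⁻¹ * ⁅a, z⁆ * (y * z⁻¹)⁻¹) := by
    simp only [commutatorElement_def]; group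
  have e1 := cls_mul (n := 2) w2 (conj_mem h (y * z⁻¹))
  rw [← e, cls_conj h] at e1
  have e2 : brk (cls 0 a) (cls 1 (y * z⁻¹)) = cls 2 ⁅a, y * z⁻¹⁆ := brk_cls ha w
  rw [e1, map_neg, AddMonoidHom.neg_apply, brk_skew, neg_neg, e2]
  exact (neg_add_cancel_comm_assoc _ _).symm

theorem h8 [Finite P] (c1 : ∀ x ∉ gam P 1, ∀ w ∈ gam P 1, ∃ y, ⁅x, y⁆ = w) (x : LL P 0) (hx : x ≠ 0) :
    Nat.card (LL P 2) < Nat.card (rB 0 0 x).ker * Nat.card ((rB 1 0).flip x).range := by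
  obtain ⟨a, ha, rfl⟩ := el_surj x
  obtain ⟨I, hI⟩ : ∃ I : AddSubgroup (LL P 2), I = ((rB 1 0).flip (el 0 a ha)).range := ⟨_, rfl⟩
  have t0 : ∀ y, y ∈ gam P 0 := mem_top
  have km : ∀ y, el 0 y (t0 y) ∈ (rB 0 0 (el 0 a ha)).ker ↔ ⁅a, y⁆ ∈ gam P 2 := fun y => by
    rw [AddMonoidHom.mem_ker, rB_el, el_zero]
  choose r h0 hr using fun k : (rB 0 0 (el 0 a ha)).ker => el_surj k.1
  have hm : ∀ k, ⁅a, r k⁆ ∈ gam P 2 := fun k => (km _).1 (hr k ▸ k.2)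
  obtain ⟨f, hf⟩ : ∃ f : (rB 0 0 (el 0 a ha)).ker → LL P 2 ⧸ I, ∀ y (h : ⁅a, y⁆ ∈ gam P 2),
      f ⟨_, (km y).2 h⟩ = QuotientAddGroup.mk (el 2 _ h) := by
    refine ⟨fun k => QuotientAddGroup.mk (el 2 _ (hm k)), fun y h => QuotientAddGroup.eq.2 ?_⟩
    have w := (el_eq (h := t0 y)).1 (hr ⟨_, (km y).2 h⟩)
    rw [hI]
    exact ⟨-el 1 _ w, Subtype.ext (key w (hm _))⟩
  have s : Function.Surjective f := fun t => by
    obtain ⟨t, rfl⟩ := QuotientAddGroup.mk_surjective t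
    obtain ⟨t, ht, rfl⟩ := el_surj t
    obtain ⟨y, rfl⟩ := c1 a (mt el_zero.2 hx) t (gam_anti one_le_two ht)
    exact ⟨_, hf y ht⟩
  have n : ¬ Function.Injective f := fun i => hx (by
    have := i ((hf a (by simp)).trans (Eq.trans (by simp) (hf 1 (by simp)).symm))
    exact (congrArg Subtype.val this).trans (el_zero (h := t0 1).2 (one_mem _)))
  have := Fintype.ofFinite (rB 0 0 (el 0 a ha)).ker
  have := Fintype.ofFinite (LL P 2 ⧸ I)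
  have k := Fintype.card_lt_of_surjective_not_injective f s n
  rw [← Nat.card_eq_fintype_card, ← Nat.card_eq_fintype_card] at k
  have := (AddSubgroup.card_eq_card_quotient_mul_card_addSubgroup I).trans_lt
    (Nat.mul_lt_mul_of_pos_right k Nat.card_pos)
  subst hI
  exact this

theorem main [Finite P] (h5 : gam P 4 = ⊥) (c1 : ∀ x ∉ gam P 1, ∀ w ∈ gam P 1, ∃ y, ⁅x, y⁆ = w)
    (c2 : ∀ w ∈ gam P 1, w ∉ gam P 2 → ∀ t ∈ gam P 2, ∃ y, ⁅w, y⁆ * t⁻¹ ∈ gam P 3)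
    (c3 : ∀ t ∈ gam P 2, t ∉ gam P 3 → ∀ z ∈ gam P 3, ∃ y, ⁅t, y⁆ = z)
    (c4 : ∀ w ∈ gam P 1, w ∉ gam P 2 → ∀ z ∈ gam P 3, ∃ y ∈ gam P 1, ⁅w, y⁆ = z) : gam P 3 = ⊥ := by
  by_contra h
  have st : ∀ i, gam P i ≤ gam P (i + 1) → gam P (i + 1) ≤ gam P (i + 1 + 1) := fun i k =>
    commutator_mono k le_rfl
  have n3 : ¬ gam P 3 ≤ gam P 4 := fun k => h (eq_bot_iff.2 (h5 ▸ k))
  have := nontriv n3
  have := nontriv (mt (st 1) (mt (st 2) n3))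
  have := nontriv (mt (st 0) (mt (st 1) (mt (st 2) n3)))
  refine alg4 (V := LL P 0) (W := LL P 1) (X := LL P 2) (Y := LL P 3) (rB 0 0) (rB 1 0) (rB 2 0) (rB 1 1)
    (fun x => Subtype.ext (brk_self _)) (fun x => Subtype.ext (brk_self _))
    (fun x y z => Subtype.ext (brk_jacobi _ _ _)) (fun w y z => Subtype.ext ?_)
    (rB_surj fun a _ k t ht => (c1 a k t ht).imp fun y e => ⟨mem_top y, by simp [e]⟩)
    (rB_surj fun a ha k t ht => (c2 a ha k t ht).imp fun y e => ⟨mem_top y, e⟩)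
    (rB_surj fun a ha k t ht => (c3 a ha k t ht).imp fun y e => ⟨mem_top y, by simp [e]⟩)
    (rB_surj fun a ha k t ht => (c4 a ha k t ht).imp fun y e => ⟨e.1, by simp [e.2]⟩) (h8 c1)
  have := brk_jacobi (w : Lie P) y z
  change brk (brk (w : Lie P) y) z - brk (brk (w : Lie P) z) y = brk (w : Lie P) (brk (y : Lie P) z)
  rw [brk_skew (z : Lie P) w, map_neg, AddMonoidHom.neg_apply, brk_skew (brk (y : Lie P) z) w] at this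
  rw [← sub_eq_zero, ← this]
  abel

end Cam4

/-- Proof. Pass to the type `P = ↥N` (`⁅N,N⁆ = (gam P 1).map N.subtype` etc., `map_commutator`),
suppose `gam P 3 ≠ ⊥`. In the Lie ring `Lie P` of `FGS/LcsLie` let `L i` be the additive subgroup
`{cls i g | g ∈ gam P i}` (or use the types `Additive (Fac P i)` and transport; they are finite,
`cls i g = 0 ↔ g ∈ gam P (i+1)`), `V = L 0, W = L 1, X = L 2, Y = L 3`; `br, ad, ae, κ` are the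
restrictions of the bracket (`lie_cls`; one helper `resB A B C h : A →+ B →+ C`), `alt`/`jac`/`jac2`
are `lie_self`, `lie_jacobi`/`leibniz_lie`. `Y` is nontrivial since `gam 4 = ⊥ ≠ gam 3`; `W`, `V` are
nontrivial since otherwise `gam 1 ≤ gam 2` (resp. `⊤ ≤ gam 1`) propagates to `gam 3 ≤ gam 4`.
`s1`–`s4` are `c1`–`c4`. `h8`: let `ā = cls 0 a`, `a ∉ gam 1`, `I = range (ad.flip ā)`. For
`k ∈ ker (br ā)` choose `r k` with `cls 0 (r k) = k`; then `⁅a, r k⁆ ∈ gam 2`; put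
`f k = mk (cls 2 ⁅a, r k⁆) : X ⧸ I`. If `y y'` have `⁅a,y⁆, ⁅a,y'⁆ ∈ gam 2` and `y' = y w`, `w ∈ gam 1`,
then `cls 2 ⁅a,y'⁆ = cls 2 ⁅a,y⁆ + cls 2 ⁅a,w⁆` with `cls 2 ⁅a,w⁆ = -ad (cls 1 w) ā ∈ I`. So `f` is onto
(`c1`: every `t ∈ gam 2` is `⁅a,y⁆`) and not injective (`f ā = f 0 = 0`, compare with `y = a`, `y = 1`),
whence `|X ⧸ I| < |ker|` and `|X| = |X ⧸ I| |I|`. Now `alg4`. -/
theorem cam4 {G : Type*} [Group G] [Finite G] (N : Subgroup G)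
    (h5 : ⁅⁅⁅⁅N, N⁆, N⁆, N⁆, N⁆ = ⊥)
    (c1 : ∀ x ∈ N, x ∉ ⁅N, N⁆ → ∀ w ∈ ⁅N, N⁆, ∃ y ∈ N, ⁅x, y⁆ = w)
    (c2 : ∀ w ∈ ⁅N, N⁆, w ∉ ⁅⁅N, N⁆, N⁆ → ∀ t ∈ ⁅⁅N, N⁆, N⁆,
      ∃ y ∈ N, ⁅w, y⁆ * t⁻¹ ∈ ⁅⁅⁅N, N⁆, N⁆, N⁆)
    (c3 : ∀ t ∈ ⁅⁅N, N⁆, N⁆, t ∉ ⁅⁅⁅N, N⁆, N⁆, N⁆ → ∀ z ∈ ⁅⁅⁅N, N⁆, N⁆, N⁆, ∃ y ∈ N, ⁅t, y⁆ = z)
    (c4 : ∀ w ∈ ⁅N, N⁆, w ∉ ⁅⁅N, N⁆, N⁆ → ∀ z ∈ ⁅⁅⁅N, N⁆, N⁆, N⁆, ∃ y ∈ ⁅N, N⁆, ⁅w, y⁆ = z) :
    ⁅⁅⁅N, N⁆, N⁆, N⁆ = ⊥ := by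
  have e : ∀ i, (FGS.LcsLie.gam N i).map N.subtype = N.lowerCentralSeries i := fun i => by
    rw [map_lowerCentralSeries, ← MonoidHom.range_eq_map, range_subtype]
  have m : ∀ i (x : N), x ∈ FGS.LcsLie.gam N i ↔ (x : G) ∈ N.lowerCentralSeries i := fun i x =>
    e i ▸ (mem_map_iff_mem N.subtype_injective).symm
  refine (e 3).symm.trans ((map_eq_bot_iff_of_injective _ N.subtype_injective).2 (Cam4.main
    ((map_eq_bot_iff_of_injective _ N.subtype_injective).1 ((e 4).trans h5)) ?_ ?_ ?_ ?_))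
  · intro x hx w hw
    obtain ⟨y, hy, k⟩ := c1 x x.2 (mt (m 1 x).2 hx) w ((m 1 w).1 hw)
    exact ⟨⟨y, hy⟩, Subtype.ext k⟩
  · intro x h1 hx w hw
    obtain ⟨y, hy, k⟩ := c2 x ((m 1 x).1 h1) (mt (m 2 x).2 hx) w ((m 2 w).1 hw)
    exact ⟨⟨y, hy⟩, (m 3 _).2 k⟩
  · intro x h1 hx w hw
    obtain ⟨y, hy, k⟩ := c3 x ((m 2 x).1 h1) (mt (m 3 x).2 hx) w ((m 3 w).1 hw)
    exact ⟨⟨y, hy⟩, Subtype.ext k⟩
  · intro x h1 hx w hw
    obtain ⟨y, hy, k⟩ := c4 x ((m 1 x).1 h1) (mt (m 2 x).2 hx) w ((m 3 w).1 hw)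
    obtain ⟨y, hy', rfl⟩ : y ∈ (FGS.LcsLie.gam N 1).map N.subtype := e 1 ▸ hy
    exact ⟨y, hy', Subtype.ext k⟩

end Cfsg.Agent.NDA
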