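import Cfsg.Agent.NDA.Deg
import Cfsg.Agent.Char.MinNonab

/-! S4780: Nonabelian `p`-group quotients. -/

set_option autoImplicit false

namespace Cfsg.Agent.NDA

open Subgroup Cfsg.Agent.Char Cfsg.Agent.Palfy
open scoped commutatorElement

variable {G : Type*} [Group G] [Finite G]

/-- the degrees `≠ 1` form an antichain -/
def ND (G : Type*) [Group G] : Prop := ∀ a ∈ cdSet G, ∀ b ∈ cdSet G, a ≠ 1 → a ∣ b → a = b

theorem ca_one {a b c : ℕ} (h1 : a ∣ b) (h2 : a ∣ c) (h : b.Coprime c) : a = 1 := Nat.eq_one_of_dvd_coprimes h h1 h2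

/-- Proof. `β ∈ Irr (G ⧸ K)` of degree `p^e ≠ 1`. All nonlinear degrees are divisible by `p`
(`exists_mul_degree_of_coprime`, see `S4781`), so `G` has a normal `p`-complement `L`
(`hasNormalPComplement_of_dvd_charDegree`; `L ≤ K`). If `θ ∈ Irr L` is nonlinear, `T = inertia L θ`:
`ext_of_coprime`, `Ext.deg` give the degrees `|G:T| θ(1) β'(1)`, `β' ∈ Irr (T.map (mk' L))`, so by `ND`
`T / L` is abelian; `deg_le_index_of_comm` in `G ⧸ K` gives `p^e ≤ |G : T K| ≤ |G:T| = p^a`, so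
`p^e ∣ |G:T| θ(1)`, `ND` gives equality, and `θ(1)` is prime to `p`: `θ(1) = 1`. So `L` is abelian
(`exists_charDegree_ne_one`), all degrees divide `|G:L|` (`deg_dvd_index_of_comm`), are powers of `p`, and
`ND` gives `χ(1) = 1 ∨ χ(1) = p^e`. -/
theorem caseA (nd : ND G) {p : ℕ} (hp : p.Prime) (K : Subgroup G) [K.Normal] (pK : IsPGroup p (G ⧸ K))
    (ne : ∃ a b : G ⧸ K, a * b ≠ b * a) :
    ∃ m, ∀ χ : IrrCharacter G, charDegree χ.1 = 1 ∨ charDegree χ.1 = m := by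
  have := Fact.mk hp
  have pos : ∀ a ∈ cdSet G, 0 < a := fun a ⟨χ, e⟩ => e ▸ charDegree_irr_pos χ
  obtain ⟨β, hβ⟩ := exists_charDegree_ne_one ne
  obtain ⟨j, hj⟩ := pK.exists_card_eq
  obtain ⟨a, -, ha⟩ := (Nat.dvd_prime_pow hp).1 (hj ▸ charDegree_irr_dvd_card β)
  have b1 := cdSet_subset_of_surjective _ (QuotientGroup.mk'_surjective K) ⟨β, rfl⟩
  obtain ⟨P, L, hL, hc⟩ := hasNormalPComplement_of_dvd_charDegree (G := G) (p := p) fun χ n =>
    by_contra fun c => n ((mul_eq_left₀ (pos _ b1).ne').1 (nd _ b1 _ (exists_mul_degree_of_coprime K β χ (by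
      rw [K.index_eq_card, hj]
      exact ((Nat.Prime.coprime_iff_not_dvd hp).2 c).symm.pow_right _)) hβ (dvd_mul_right _ _)).symm)
  obtain ⟨k, hk⟩ := P.2.exists_card_eq
  have i1 : L.index = p ^ k := hc.symm.index_eq_card.trans hk
  have i2 : (Nat.card L).Coprime p :=
    (hp.coprime_iff_not_dvd.2 (hc.index_eq_card ▸ P.not_dvd_index)).symm
  have le : L ≤ (QuotientGroup.mk' K).ker := fun x hx => orderOf_eq_one_iff.1 (ca_one
    ((orderOf_map_dvd _ x).trans (orderOf_dvd_natCard L hx)) (orderOf_dvd_natCard _) (hj ▸ i2.pow_right j))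
  have ab : ∀ θ : IrrCharacter L, charDegree θ.1 = 1 := fun θ => by_contra fun n => by
    have ex := ext_of_coprime L (i1 ▸ i2.pow_right k) θ
    have d0 : (inertia L θ.1).index * charDegree θ.1 ∈ cdSet G := by
      have := ex.deg _ le (irrOne _)
      rwa [charDegree_irrOne, mul_one] at this
    have d1 := comm_of_forall_charDegree_eq_one fun γ : IrrCharacter ((inertia L θ.1).map (QuotientGroup.mk' K)) =>
      (mul_eq_left₀ (pos _ d0).ne').1 (nd _ d0 _ (ex.deg _ le γ) (fun c => n (Nat.eq_one_of_mul_eq_one_left c))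
        (dvd_mul_right _ _)).symm
    have d2 := β.2.deg_le_index_of_comm (coe_charDegree_irr β).symm _ fun x hx y hy =>
      congrArg Subtype.val (d1 ⟨x, hx⟩ ⟨y, hy⟩)
    obtain ⟨b, -, hb⟩ := (Nat.dvd_prime_pow hp).1 (i1 ▸ index_dvd_of_le (le_inertia' L θ))
    have d3 := d2.trans (Nat.le_of_dvd (hb ▸ Nat.pow_pos hp.pos)
      (index_map_dvd _ (QuotientGroup.mk'_surjective K)))
    rw [ha, hb, Nat.pow_le_pow_iff_right hp.one_lt] at d3
    have d4 := nd _ b1 _ d0 hβ (by rw [ha, hb]; exact (pow_dvd_pow p d3).mul_right _)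
    exact n (ca_one (charDegree_irr_dvd_card θ) (Dvd.intro_left _ (d4.symm.trans ha))
      (i2.pow_right a))
  refine ⟨charDegree β.1, fun χ => or_iff_not_imp_left.2 fun n => ?_⟩
  obtain ⟨b, -, hb⟩ := (Nat.dvd_prime_pow hp).1 (i1 ▸ χ.2.deg_dvd_index_of_comm (coe_charDegree_irr χ).symm L
    fun x hx y hy => congrArg Subtype.val (comm_of_forall_charDegree_eq_one ab ⟨x, hx⟩ ⟨y, hy⟩))
  rcases le_total a b with h | h
  · exact (nd _ b1 _ ⟨χ, rfl⟩ hβ (by rw [ha, hb]; exact pow_dvd_pow p h)).symm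
  · exact nd _ ⟨χ, rfl⟩ _ b1 n (by rw [ha, hb]; exact pow_dvd_pow p h)

/-- If `⁅G', G⁆ ≠ G'` there is a nonabelian `p`-group quotient. Proof: `G ⧸ ⁅G',G⁆` is nilpotent and
nonabelian; apply `exists_min_quotient`-like maximal choice: `K` maximal normal with `⁅G',G⁆ ≤ K`, `G' ≰ K`;
then `exists_prime_pow_eq_one`, `isPGroup_of_center_ne_bot`. (Or use `exists_min_quotient` for the group
`G ⧸ ⁅G',G⁆` and `QuotientGroup.quotientQuotientEquivQuotient`.) -/
theorem exists_pquot (ne : ¬ commutator G ≤ ⁅commutator G, ⊤⁆) : ∃ (p : ℕ) (K : Subgroup G)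
    (_ : K.Normal), p.Prime ∧ IsPGroup p (G ⧸ K) ∧ ∃ a b : G ⧸ K, a * b ≠ b * a := by
  obtain ⟨K, ⟨hKn, h1, h2⟩, hmax⟩ := (wellFounded_gt (α := Subgroup G)).has_min
    {K | K.Normal ∧ ⁅commutator G, ⊤⁆ ≤ K ∧ ¬ commutator G ≤ K} ⟨_, inferInstance, le_rfl, ne⟩
  have hs := QuotientGroup.mk'_surjective K
  have hm : commutator (G ⧸ K) = (commutator G).map (QuotientGroup.mk' K) := by
    rw [map_commutator_eq, MonoidHom.range_eq_top.2 hs]; rfl
  have h3 : commutator (G ⧸ K) ≠ ⊥ := fun e => h2 (by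
    rwa [hm, Subgroup.map_eq_bot_iff, QuotientGroup.ker_mk'] at e)
  obtain ⟨r, hr, hd⟩ := Nat.exists_prime_and_dvd (mt card_eq_one.1 h3)
  refine ⟨r, K, hKn, hr, isPGroup_of_center_ne_bot (fun N hN hb => ?_) hr hd fun e => h3 (eq_bot_iff.2 (e ▸ ?_)), ?_⟩
  · have hle : K ≤ N.comap (QuotientGroup.mk' K) := fun k hk => by
      rw [mem_comap, QuotientGroup.mk'_apply, (QuotientGroup.eq_one_iff k).2 hk]
      exact N.one_mem
    rw [hm, map_le_iff_le_comap]
    by_contra hc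
    refine hmax _ ⟨inferInstance, h1.trans hle, hc⟩ (lt_of_le_of_ne hle fun e => hb (eq_bot_iff.2 fun x hx => ?_))
    obtain ⟨x, rfl⟩ := hs x
    exact (QuotientGroup.eq_one_iff x).2 (e.ge hx)
  · rw [hm]
    rintro _ ⟨x, hx, rfl⟩
    refine mem_center_iff.2 fun y => ?_
    obtain ⟨y, rfl⟩ := hs y
    rw [eq_comm, ← commutatorElement_eq_one_iff_mul_comm, ← map_commutatorElement]
    exact (QuotientGroup.eq_one_iff _).2 (h1 (commutator_mem_commutator hx (mem_top y)))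
  · by_contra! hc
    exact h3 (eq_bot_iff.2 (commutator_le.2 fun a _ b _ => commutatorElement_eq_one_iff_mul_comm.2 (hc a b)))

end Cfsg.Agent.NDA
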