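import Cfsg.Agent.Palfy.ND3
import Cfsg.Agent.Deg4.Tools

/-! Definitions for groups whose character degrees form an antichain.
Notation in comments: `E = ⁅⊤, N⁆`, `D = CC N`, `γ₂ = ⁅N, N⁆`, `γ₃ = ⁅γ₂, N⁆`, ..., `K = KK N a`. -/

set_option autoImplicit false

namespace Cfsg.Agent.NDA

open Subgroup Cfsg.Agent.Char Cfsg.Agent.Palfy
open scoped commutatorElement

variable {G : Type*} [Group G]

/-- `G / N` is cyclic and semiregular on `E / N' ≠ 1`; the degrees of the characters of `G` lying over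
nonlinear characters of `N` form an antichain and are not divisible by `|G : N|`. -/
structure Ny (N : Subgroup G) : Prop where
  cyc : ∃ a : G, N ⊔ zpowers a = ⊤
  fpf : ∀ g, g ∉ N → ∀ e ∈ ⁅(⊤ : Subgroup G), N⁆, ⁅g, e⁆ ∈ ⁅N, N⁆ → e ∈ ⁅N, N⁆
  nc : ¬ ⁅(⊤ : Subgroup G), N⁆ ≤ ⁅N, N⁆
  nf : ∀ d, DD N d → ¬ N.index ∣ d
  nd : ∀ a b, DD N a → DD N b → a ∣ b → a = b

/-- the nilpotent case -/
structure B1 (N : Subgroup G) (p : ℕ) (a : G) : Prop extends Ny N where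
  pp : p.Prime
  gen : N ⊔ zpowers a = ⊤
  cop : (orderOf a).Coprime p
  pN : IsPGroup p (⁅N, N⁆ : Subgroup G)
  pZ : ∀ x ∈ N, ∃ k, x ^ p ^ k ∈ centralizer (N : Set G)

/-- the coprime case -/
structure B2 (N : Subgroup G) [N.Normal] : Prop extends Ny N where
  co : ((CC N).relIndex N).Coprime (Nat.card (⁅N, N⁆ : Subgroup G))

/-- the elements normalising `Y` and centralising `X` modulo `Y` -/
def Cent (X Y : Subgroup G) : Subgroup G where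
  carrier := {g | g ∈ normalizer (Y : Set G) ∧ ∀ x ∈ X, ⁅g, x⁆ ∈ Y}
  one_mem' := ⟨one_mem _, fun x _ => by simp⟩
  mul_mem' := fun {a b} ha hb => ⟨mul_mem ha.1 hb.1, fun x hx => by
    have := mul_mem ((mem_normalizer_iff.1 ha.1 _).1 (hb.2 x hx)) (ha.2 x hx)
    simpa [commutatorElement_def, mul_assoc] using this⟩
  inv_mem' := fun {a} ha => ⟨inv_mem ha.1, fun x hx => by
    have := (mem_normalizer_iff.1 (inv_mem ha.1) _).1 (inv_mem (ha.2 x hx))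
    simpa [commutatorElement_def, mul_assoc] using this⟩

theorem mem_Cent' {X Y : Subgroup G} {g : G} :
    g ∈ Cent X Y ↔ g ∈ normalizer (Y : Set G) ∧ ∀ x ∈ X, ⁅g, x⁆ ∈ Y := Iff.rfl

theorem mem_Cent {X Y : Subgroup G} [Y.Normal] {g : G} : g ∈ Cent X Y ↔ ∀ x ∈ X, ⁅g, x⁆ ∈ Y :=
  ⟨And.right, fun h => ⟨le_normalizer_of_normal (mem_top g), h⟩⟩

instance {X Y : Subgroup G} [hX : X.Normal] [hY : Y.Normal] : (Cent X Y).Normal :=
  ⟨fun a ha g => mem_Cent.2 fun x hx => by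
    have := hY.conj_mem _ (mem_Cent.1 ha _ (hX.conj_mem' x hx g)) g
    simpa [commutatorElement_def, mul_assoc] using this⟩

theorem le_Cent {X Y N : Subgroup G} [Y.Normal] (h : ⁅X, N⁆ ≤ Y) : N ≤ Cent X Y := fun _ hn =>
  mem_Cent.2 fun _ hx => h (commutator_comm N X ▸ commutator_mem_commutator hn hx)

/-- the kernel of a linear character of a subgroup, as a subgroup of `G` -/
def kS {Y : Subgroup G} (ν : Y →* ℂˣ) : Subgroup G := ν.ker.map Y.subtype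

theorem kS_le {Y : Subgroup G} (ν : Y →* ℂˣ) : kS ν ≤ Y := map_subtype_le _

theorem mem_kS {Y : Subgroup G} {ν : Y →* ℂˣ} {y : G} (h : y ∈ Y) : y ∈ kS ν ↔ ν ⟨y, h⟩ = 1 :=
  ⟨fun ⟨z, hz, e⟩ => (Subtype.ext e : z = ⟨y, h⟩) ▸ hz, fun e => ⟨⟨y, h⟩, e, rfl⟩⟩

theorem coe_mem_kS {Y : Subgroup G} {ν : Y →* ℂˣ} {y : Y} : y.1 ∈ kS ν ↔ ν y = 1 := mem_kS y.2

theorem le_kS_iff {Y : Subgroup G} {ν : Y →* ℂˣ} : Y ≤ kS ν ↔ ν = 1 :=
  ⟨fun h => MonoidHom.ext fun y => coe_mem_kS.1 (h y.2), fun e _ hy => (mem_kS hy).2 (e ▸ rfl)⟩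

theorem mem_St_iff_kS {Y : Subgroup G} [Y.Normal] {ν : Y →* ℂˣ} {g : G} :
    g ∈ St (dual Y) ν ↔ ∀ y ∈ Y, ⁅g, y⁆ ∈ kS ν :=
  ⟨fun h y hy => (mem_kS (cm_mem g hy)).2 (St_comm h hy _), fun h => mem_St_dual.2 fun y => by
    have := (mem_kS (cm_mem g y.2)).1 (h y y.2)
    rwa [show (⟨⁅g, y.1⁆, cm_mem g y.2⟩ : Y) = ⟨g * y * g⁻¹, Normal.conj_mem inferInstance _ y.2 g⟩ * y⁻¹
      from rfl, map_mul, map_inv, mul_inv_eq_one] at this⟩

theorem Cent_le_St {X Y : Subgroup G} [X.Normal] {μ : X →* ℂˣ} (h : Y ≤ kS μ) :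
    Cent X Y ≤ St (dual X) μ := fun _ hg => mem_St_iff_kS.2 fun x hx => h (hg.2 x hx)

/-- `K = C_D(a)` -/
def KK (N : Subgroup G) [N.Normal] (a : G) : Subgroup G := CC N ⊓ centralizer {a}

theorem mem_KK {N : Subgroup G} [N.Normal] {a k : G} : k ∈ KK N a ↔ k ∈ CC N ∧ k * a = a * k :=
  and_congr_right' mem_centralizer_singleton_iff

/-- all nontrivial linear characters of `X / Y` have the same stabiliser -/
def SS (X Y : Subgroup G) [X.Normal] : Prop :=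
  ∀ μ : X →* ℂˣ, Y ≤ kS μ → μ ≠ 1 → St (dual X) μ = Cent X Y

/-- the kernel of a character of a subgroup, as a subgroup of `G` -/
def kC {M : Subgroup G} (θ : IrrCharacter M) : Subgroup G := (charKer θ.1).map M.subtype

theorem kC_le {M : Subgroup G} (θ : IrrCharacter M) : kC θ ≤ M := map_subtype_le _

theorem mem_kC [Finite G] {M : Subgroup G} {θ : IrrCharacter M} {y : G} (h : y ∈ M) :
    y ∈ kC θ ↔ θ.1 ⟨y, h⟩ = θ.1 1 :=
  ⟨fun ⟨z, hz, e⟩ => (Subtype.ext e : z = ⟨y, h⟩) ▸ (mem_charKer_irr θ).1 hz,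
    fun e => ⟨⟨y, h⟩, (mem_charKer_irr θ).2 e, rfl⟩⟩

theorem kC_lin [Finite G] {M : Subgroup G} (μ : M →* ℂˣ) : kC (lin μ) = kS μ :=
  Subgroup.ext fun y => ⟨fun h => (mem_kS (kC_le _ h)).2 (Units.ext (((mem_kC _).1 h).trans
    (by simp [lin]))), fun h => (mem_kC (kS_le _ h)).2 (by simp [lin, (mem_kS _).1 h])⟩

theorem comm_le_kC [Finite G] {M : Subgroup G} (θ : IrrCharacter M) :
    ⁅M, M⁆ ≤ kC θ ↔ charDegree θ.1 = 1 := by
  rw [← commutator_le_charKer_iff, ← map_subtype_commutator, kC,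
    map_le_map_iff_of_injective M.subtype_injective]

/-- `θ` restricts to a multiple of `ν` -/
def Ly {Y M : Subgroup G} (θ : IrrCharacter M) (ν : Y →* ℂˣ) : Prop :=
  ∀ (y : Y) (h : y.1 ∈ M), θ.1 ⟨y, h⟩ = θ.1 1 * ν y

end Cfsg.Agent.NDA
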