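import Cfsg.Agent.NDA.Base
import Cfsg.Agent.Char.AmbExt

/-! (S4780) Degrees over characters of normal subgroups. -/

set_option autoImplicit false

namespace Cfsg.Agent.NDA

open Subgroup Cfsg.Agent.Char Cfsg.Agent.Palfy
open scoped commutatorElement

variable {G : Type*} [Group G] [Finite G] {N X : Subgroup G} [N.Normal] [X.Normal] {d : ℕ}

/-- `χ` lies over `θ`, as far as degrees and kernels are concerned -/
structure Ov (χ : IrrCharacter G) (θ : IrrCharacter X) : Prop where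
  dvd : (inertia X θ.1).index * charDegree θ.1 ∣ charDegree χ.1
  mul : ∃ e, charDegree χ.1 = e * charDegree θ.1 ∧ e ∣ X.index
  ker : ∀ K : Subgroup G, K.Normal → K ≤ X → (K ≤ charKer χ.1 ↔ K ≤ kC θ)
  ker' : ∀ x ∈ X, x ∈ charKer χ.1 → x ∈ kC θ
  cyc : (∃ a : G, X ⊔ zpowers a = ⊤) → charDegree χ.1 = (inertia X θ.1).index * charDegree θ.1

omit [Finite G] in
theorem deg_gen {a : G} (ha : X ⊔ zpowers a = ⊤) {T : Subgroup G} (hT : X ≤ T) : ∃ b, T = X ⊔ zpowers b := by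
  obtain ⟨n, hn⟩ := (le_zpowers_iff a (T ⊓ zpowers a)).1 inf_le_right
  refine ⟨a ^ n, le_antisymm (fun t ht => ?_) (sup_le hT (hn ▸ inf_le_left))⟩
  obtain ⟨x, hx, z, hz, rfl⟩ := mem_sup_of_normal_left.1 (ha.ge (mem_top t))
  exact mul_mem_sup hx (hn ▸ (⟨(mul_mem_cancel_left (hT hx)).1 ht, hz⟩ : z ∈ T ⊓ zpowers a))

theorem deg_cyc [Fintype X] (χ : IrrCharacter G) (θ : IrrCharacter X)
    (h : classInner (fun x : X => χ.1 x) θ.1 ≠ 0) {b : G} (hb : inertia X θ.1 = X ⊔ zpowers b) :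
    charDegree χ.1 = (inertia X θ.1).index * charDegree θ.1 := by
  classical
  have := Fintype.ofFinite G
  have le : X ≤ X ⊔ zpowers b := le_sup_left
  obtain ⟨ψ, h1, h2, h3⟩ := exists_clifford_corr le θ.2 hb.le χ.2 h
  have hc := isCyc_inclusion (G := X) (s := b) (le_normalizer_of_normal (mem_top b))
  obtain ⟨η, h4, h5⟩ := hc.exists_ext θ.2 fun g g' e => by
    rw [← ((mem_inertia' X).1 (hb.ge (mem_sup_right (mem_zpowers b)))) g]
    exact congrArg _ (Subtype.ext (congrArg (fun x => x.1) e))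
  have h6 : (fun n : X.subgroupOf (X ⊔ zpowers b) => η n) = fun x => θ.1 ⟨(x.1 : G), x.2⟩ :=
    funext fun n => h5 ⟨n.1, n.2⟩
  obtain ⟨β, h7, h8, h9⟩ := gallagher_surj (N := X.subgroupOf (X ⊔ zpowers b)) h4.isCharacter
    (h6 ▸ isIrr_subgroupOf le θ.2) h1 (by
      rw [h6]
      exact fun k => h (h3.symm.trans ((classInner_subgroupOf le _ _).symm.trans k)))
  have h10 : β 1 = 1 := one_eq_one_of_commutator_le h7 fun x hx => (mem_charKer_iff h7.isCharacter).2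
    (h8 ⟨x, by have := hc.commutator_le hx; rwa [inclusion_range] at this⟩)
  refine charDegree_eq_of_one_eq ?_
  rw [← h2, indFun_one, ← h9, Pi.mul_apply, h10, one_mul, Nat.cast_mul, coe_charDegree_irr, hb, ← h5, map_one]

/-- Proof: `exists_charDegree_eq_of_over`, `over_data`, `le_charKer_of_over`, `le_charKer_restrict`
(see `Palfy.ov`). `cyc`: let `T = inertia X θ = X ⊔ zpowers b` (`exists_gen_of`-like: subgroups above `X`),
`η ∈ Irr T` the Clifford correspondent of `χ` (`clifford_amb_degree`, or `Char/Clifford`), `θ` extends to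
`θ'` on `T` (`hasExt_sup_zpowers`), and `η = θ' β` with `β` a character of the abelian group `T / X`
(Gallagher), so `η 1 = θ 1`. Alternatively: the restriction of `η` to `X` is `e θ`; for the cyclic
quotient use `IsCyc` in `Char/CycCoset`. -/
theorem Ov.of_inner [Fintype X] (χ : IrrCharacter G) (θ : IrrCharacter X)
    (h : classInner (fun x : X => χ.1 x) θ.1 ≠ 0) : Ov χ θ := by
  have := Fintype.ofFinite G
  have k : ∀ x ∈ X, x ∈ charKer χ.1 → x ∈ kC θ := fun x hx hk => (mem_kC hx).2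
    (apply_eq_of_inner_ne_zero (χ.2.isCharacter.restrict X) θ.2 h (z := ⟨x, hx⟩) ((mem_charKer_irr χ).1 hk))
  obtain ⟨e, -, -, he⟩ := exists_charDegree_eq_of_over X χ.2 θ.2 h
  refine ⟨⟨e, by rw [he]; ring⟩, (over_data X χ θ h).1, fun K _ hK => ⟨fun r x hx => k x (hK hx) (r hx), fun r =>
    le_charKer_of_over K hK χ.2 θ.2 h fun x hx => (mem_charKer_irr θ).2 ((mem_kC x.2).1 (r hx))⟩, k, fun ⟨a, ha⟩ => ?_⟩
  obtain ⟨b, hb⟩ := deg_gen ha (le_inertia' X θ)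
  exact deg_cyc χ θ h hb

theorem exists_ov (θ : IrrCharacter X) : ∃ χ : IrrCharacter G, Ov χ θ := by
  have := Fintype.ofFinite G
  have := Fintype.ofFinite X
  obtain ⟨χ, h1, h2⟩ := exists_irr_over X θ.2
  exact ⟨⟨χ, h1⟩, Ov.of_inner _ θ h2⟩

theorem exists_un (X : Subgroup G) [X.Normal] (χ : IrrCharacter G) : ∃ θ : IrrCharacter X, Ov χ θ := by
  have := Fintype.ofFinite G
  have := Fintype.ofFinite X
  obtain ⟨θ, h1, h2⟩ := exists_irr_inner_restrict_ne_zero X χ.2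
  exact ⟨⟨θ, h1⟩, Ov.of_inner χ _ h2⟩

theorem Ov.dd {χ : IrrCharacter G} {θ : IrrCharacter X} (o : Ov χ θ) {n : G} (h1 : n ∈ X)
    (h2 : n ∈ ⁅N, N⁆) (h3 : n ∉ kC θ) : DD N (charDegree χ.1) :=
  ⟨χ, fun c => h3 (o.ker' n h1 (c h2)), rfl⟩

theorem Ov.dd_iff {χ : IrrCharacter G} {ψ : IrrCharacter N} (o : Ov χ ψ) :
    ⁅N, N⁆ ≤ charKer χ.1 ↔ charDegree ψ.1 = 1 :=
  (o.ker _ inferInstance (commutator_le_self N)).trans (comm_le_kC ψ)

/-- the degree `|G : St μ|` divides the degree of any character over `μ` -/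
theorem Ov.St_dvd {χ : IrrCharacter G} {μ : X →* ℂˣ} (o : Ov χ (lin μ)) :
    (St (dual X) μ).index ∣ charDegree χ.1 := by
  simpa only [inertia_lin, deg_lin, mul_one] using o.dvd

theorem cs (N : Subgroup G) [N.Normal] (χ : IrrCharacter G) :
    DD N (charDegree χ.1) ∨ charDegree χ.1 ∣ N.index := by
  by_cases c : ⁅N, N⁆ ≤ charKer χ.1
  · obtain ⟨ψ, o⟩ := exists_un N χ
    obtain ⟨e, h1, h2⟩ := o.mul
    rw [o.dd_iff.1 c, mul_one] at h1
    exact .inr (h1 ▸ h2)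
  · exact .inl ⟨χ, c, rfl⟩

namespace Ny

variable (h : Ny N)
include h

theorem F1 (θ : IrrCharacter X) {n : G} (h1 : n ∈ X) (h2 : n ∈ ⁅N, N⁆) (h3 : n ∉ kC θ) :
    ¬ inertia X θ.1 ≤ N := by
  obtain ⟨χ, o⟩ := exists_ov θ
  exact fun c => h.nf _ (o.dd h1 h2 h3) ((index_dvd_of_le c).trans ((dvd_mul_right _ _).trans o.dvd))

theorem F1' (le : X ≤ ⁅N, N⁆) {μ : X →* ℂˣ} (ne : μ ≠ 1) : ¬ St (dual X) μ ≤ N := by
  obtain ⟨n, h1, h2⟩ := SetLike.not_le_iff_exists.1 (mt le_kS_iff.1 ne)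
  rw [← inertia_lin]
  exact h.F1 (lin μ) h1 (le h1) (by rwa [kC_lin])

theorem inv {ψ : IrrCharacter N} (ne : charDegree ψ.1 ≠ 1) : ¬ inertia N ψ.1 ≤ N := by
  obtain ⟨n, h1, h2⟩ := SetLike.not_le_iff_exists.1 (mt (comm_le_kC ψ).1 ne)
  exact h.F1 ψ (commutator_le_left N N h1) h1 h2

theorem dN {ψ : IrrCharacter N} (ne : charDegree ψ.1 ≠ 1) :
    DD N ((inertia N ψ.1).index * charDegree ψ.1) := by
  obtain ⟨χ, o⟩ := exists_ov ψ
  exact ⟨χ, mt o.dd_iff.1 ne, o.cyc h.cyc⟩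

theorem exN (hd : DD N d) : ∃ ψ : IrrCharacter N, charDegree ψ.1 ≠ 1 ∧
    d = (inertia N ψ.1).index * charDegree ψ.1 := by
  obtain ⟨χ, h1, rfl⟩ := hd
  obtain ⟨ψ, o⟩ := exists_un N χ
  exact ⟨ψ, mt o.dd_iff.2 h1, o.cyc h.cyc⟩

end Ny

end Cfsg.Agent.NDA
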