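import Cfsg.Agent.NDA.Defs
import Cfsg.Agent.NDA.PQ

/-! (S4780, captain helper13). Linear characters of sections. Read `NDA/Defs` first. -/

set_option autoImplicit false

namespace Cfsg.Agent.NDA

open Subgroup Cfsg.Agent.Char Cfsg.Agent.Palfy
open scoped commutatorElement

variable {G : Type*} [Group G] [Finite G]

/-- `Deg4.exists_hom_sub` restated. -/
theorem exists_kS {X Y : Subgroup G} (le : Y ≤ X) (ab : ⁅X, X⁆ ≤ Y) {w : G} (hw : w ∈ X) (nw : w ∉ Y) :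
    ∃ μ : X →* ℂˣ, Y ≤ kS μ ∧ w ∉ kS μ := by
  obtain ⟨μ, h1, h2⟩ := Deg4.exists_hom_sub X Y ab hw nw
  exact ⟨μ, fun y hy => (mem_kS (le hy)).2 (h1 _ hy), fun k => h2 ((mem_kS hw).1 k)⟩

/-- Extension of linear characters. Proof: `T = kS ν` is normal in `R` and contains `⁅R,R⁆`; `ν` factors
through the subgroup `Y / T` of the finite abelian group `R / T`; extend (Mathlib:
`MonoidHom.domRestrict_surjective` in `Mathlib/GroupTheory/FiniteAbelian/Duality.lean`). -/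
theorem ext_lin {Y R : Subgroup G} (le : Y ≤ R) (ν : Y →* ℂˣ) (h : ⁅R, R⁆ ≤ kS ν) :
    ∃ ξ : R →* ℂˣ, ∀ y : Y, ξ (inclusion le y) = ν y := by
  let f : Y →* Abelianization R := Abelianization.of.comp (inclusion le)
  have hk : f.rangeRestrict.ker ≤ ν.ker := fun y hy => coe_mem_kS.1 (h (by
    rw [MonoidHom.ker_rangeRestrict] at hy
    rw [← map_subtype_commutator]
    exact ⟨inclusion le y, (QuotientGroup.eq_one_iff _).1 hy, rfl⟩))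
  obtain ⟨ξ, e⟩ := MonoidHom.domRestrict_surjective (M := ℂ) f.range
    (f.rangeRestrict.liftOfSurjective f.rangeRestrict_surjective ⟨ν, hk⟩)
  refine ⟨ξ.comp Abelianization.of, fun y => ?_⟩
  have := DFunLike.congr_fun e (f.rangeRestrict y)
  rw [MonoidHom.liftOfRightInverse_comp_apply] at this
  exact this

/-- Averaging. Proof: take `μ₀` from `exists_kS`, `o = orderOf s`, `μ = ∏ i ∈ range o, dual X (s^i) μ₀`
(`X →* ℂˣ` is a `CommGroup`). It is `s`-invariant, trivial on `Y`, and `μ w = μ₀ w ^ o ≠ 1` because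
`(μ₀ w) ^ p ^ k = 1` (`s^{-i} w s^i ∈ w Y`). -/
theorem exists_inv_hom {p : ℕ} [Fact p.Prime] {X Y : Subgroup G} [X.Normal] [Y.Normal] (le : Y ≤ X)
    (ab : ⁅X, X⁆ ≤ Y) (pX : IsPGroup p X) {s w : G} (hs : (orderOf s).Coprime p) (hw : w ∈ X)
    (nw : w ∉ Y) (c : ⁅s, w⁆ ∈ Y) : ∃ μ : X →* ℂˣ, Y ≤ kS μ ∧ w ∉ kS μ ∧ s ∈ St (dual X) μ := by
  obtain ⟨μ, h1, h2⟩ := exists_kS le ab hw nw
  refine ⟨∏ i ∈ Finset.range (orderOf s), dual X (s ^ i) μ, fun y hy => (mem_kS (le hy)).2 ?_,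
    fun k => h2 ((mem_kS hw).2 ?_), ?_⟩
  · rw [MonoidHom.finsetProd_apply]
    exact Finset.prod_eq_one fun i _ => by
      rw [dual_apply]; exact (mem_kS _).1 (h1 (Normal.conj_mem' inferInstance y hy _))
  · have cm : Commute (s : G ⧸ Y) w := commutatorElement_eq_one_iff_commute.1
      ((QuotientGroup.eq_one_iff ⁅s, w⁆).2 c)
    rw [mem_kS hw, MonoidHom.finsetProd_apply, Finset.prod_congr rfl (g := fun _ => μ ⟨w, hw⟩),
      Finset.prod_const, Finset.card_range] at k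
    · obtain ⟨n, hn⟩ := pX ⟨w, hw⟩
      exact (pow_eq_one_iff_of_coprime (hs.pow_right n)).1 ⟨k, by rw [← map_pow, hn, map_one]⟩
    · intro i _
      have : (s ^ i)⁻¹ * w * s ^ i * w⁻¹ ∈ Y := (QuotientGroup.eq_one_iff _).1 (by
        simp only [QuotientGroup.mk_mul, QuotientGroup.mk_inv, QuotientGroup.mk_pow]
        rw [mul_assoc _⁻¹, ← (cm.pow_left i).eq]; group)
      rw [dual_apply, ← mul_inv_eq_one, ← map_inv, ← map_mul]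
      exact (mem_kS _).1 (h1 this)
  · have e1 := Finset.prod_range_succ' (fun i => dual X (s ^ i) μ) (orderOf s)
    rw [Finset.prod_range_succ, pow_orderOf_eq_one, pow_zero, mul_left_inj] at e1
    rw [mem_St, map_prod, e1]
    exact Finset.prod_congr rfl fun i _ => by rw [pow_succ', map_mul]; rfl

/-- Proof: `surj_mod` and `mem_St_iff_kS`: every `x` is `⁅c,x'⁆ y`. -/
theorem eq_one_of_fpf_mod {X Y : Subgroup G} [X.Normal] [Y.Normal] (le : Y ≤ X) {c : G}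
    (fp : ∀ x ∈ X, ⁅c, x⁆ ∈ Y → x ∈ Y) {μ : X →* ℂˣ} (h : Y ≤ kS μ) (hc : c ∈ St (dual X) μ) :
    μ = 1 := by
  refine le_kS_iff.1 fun x hx => ?_
  obtain ⟨x', hx', k⟩ := surj_mod le (le_normalizer_of_normal (mem_top c)) fp hx
  simpa only [mul_inv_cancel_left] using mul_mem (mem_St_iff_kS.1 hc x' hx') (h k)

omit [Finite G] in
theorem lin_delta {M Y Z : Subgroup G} [Z.Normal] (c : ⁅Y, M⁆ ≤ Z) {w : G} (hw : ∀ y ∈ M, ⁅w, y⁆ ∈ Y) :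
    ∃ δ : M →* G ⧸ Z, ∀ y : M, δ y = (⁅w, (y : G)⁆ : G) :=
  ⟨MonoidHom.mk' (fun y => (⁅w, (y : G)⁆ : G)) fun y y' => by
    rw [← QuotientGroup.mk_mul, QuotientGroup.eq]
    have := Normal.conj_mem' inferInstance _ (c (commutator_mem_commutator (hw y' y'.2) y.2))
      ((y : G) * ⁅w, (y' : G)⁆ * (y : G)⁻¹)
    convert this using 1
    simp only [commutatorElement_def, coe_mul]; group, fun _ => rfl⟩

theorem lin_onto {M Y Z : Subgroup G} [Z.Normal] (le : Z ≤ Y) (ab : ⁅Y, Y⁆ ≤ Z) (c : ⁅Y, M⁆ ≤ Z)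
    {w : G} (hw : ∀ y ∈ M, ⁅w, y⁆ ∈ Y)
    (h : ∀ ν : Y →* ℂˣ, Z ≤ kS ν → (∀ y ∈ M, ⁅w, y⁆ ∈ kS ν) → ν = 1) {t : G} (ht : t ∈ Y) :
    ∃ y ∈ M, ⁅w, y⁆ * t⁻¹ ∈ Z := by
  obtain ⟨δ, hδ⟩ := lin_delta c hw
  have hZ : Z ≤ Y ⊓ δ.range.comap (QuotientGroup.mk' Z) := le_inf le fun z hz =>
    ⟨1, (map_one δ).trans ((QuotientGroup.eq_one_iff z).2 hz).symm⟩
  by_cases k : t ∈ Y ⊓ δ.range.comap (QuotientGroup.mk' Z)
  · obtain ⟨y, e⟩ := k.2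
    refine ⟨y, y.2, (QuotientGroup.eq_one_iff _).1 ?_⟩
    rw [QuotientGroup.mk_mul, ← hδ, e, QuotientGroup.mk_inv]
    exact mul_inv_cancel _
  · obtain ⟨ν, h1, h2⟩ := exists_kS inf_le_left (ab.trans hZ) ht k
    exact absurd (le_kS_iff.2 (h ν (hZ.trans h1) fun y hy => h1 ⟨hw y hy, ⟨y, hy⟩, hδ _⟩) ht) h2

/-- Proof: in `G ⧸ Y` the map `δ : u ↦ ⁅c,u⁆` is an endomorphism of the finite abelian image of `X`.
Its image pulled back, `I = {x ∈ X | ∃ x' ∈ X, ⁅c,x'⁆⁻¹ x ∈ Y}`, is a subgroup containing `Y`; if `I ≠ X`,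
`exists_kS` gives `μ ≠ 1` with `I ≤ kS μ`, which `c` fixes. So `δ` is onto, hence injective
(`Finite.injective_iff_surjective`). -/
theorem fpf_of_dual {X Y : Subgroup G} [X.Normal] [Y.Normal] (le : Y ≤ X) (ab : ⁅X, X⁆ ≤ Y) {c : G}
    (h : ∀ μ : X →* ℂˣ, Y ≤ kS μ → c ∈ St (dual X) μ → μ = 1) : ∀ x ∈ X, ⁅c, x⁆ ∈ Y → x ∈ Y := by
  have hw : ∀ y ∈ X, ⁅c, y⁆ ∈ X := fun y hy => cm_mem c hy
  obtain ⟨δ, hδ⟩ := lin_delta ab hw
  let ρ : X →* G ⧸ Y := (QuotientGroup.mk' Y).comp X.subtype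
  have h1 : ρ.range ≤ δ.range := by
    rintro _ ⟨x, rfl⟩
    obtain ⟨y, hy, k⟩ := lin_onto le ab ab hw (fun ν h1 h2 => h ν h1 (mem_St_iff_kS.2 h2)) x.2
    refine ⟨⟨y, hy⟩, (hδ _).trans (mul_inv_eq_one.1 ?_)⟩
    exact (QuotientGroup.eq_one_iff _).2 k
  have h2 : ρ.ker ≤ δ.ker := fun x hx => (hδ x).trans
    ((QuotientGroup.eq_one_iff _).2 (cm_mem c ((QuotientGroup.eq_one_iff _).1 hx)))
  have c1 := ρ.ker.card_mul_index
  rw [← δ.ker.card_mul_index, index_ker, index_ker] at c1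
  have h3 := eq_of_le_of_card_ge h2 (Nat.le_of_mul_le_mul_right
    (c1.ge.trans (Nat.mul_le_mul_left _ (card_le_of_le h1))) Nat.card_pos)
  exact fun x hx k => (QuotientGroup.eq_one_iff _).1
    (h3.ge (show (⟨x, hx⟩ : X) ∈ δ.ker from (hδ _).trans ((QuotientGroup.eq_one_iff _).2 k)))

/-- Proof: `I = {t ∈ Y | ∃ y ∈ M, ⁅w,y⁆ t⁻¹ ∈ Z}` is a subgroup containing `Z`
(`⁅w, y y'⁆ = ⁅w,y⁆ * y ⁅w,y'⁆ y⁻¹ ≡ ⁅w,y⁆ ⁅w,y'⁆` mod `Z`; compute in `G ⧸ Z`); if `I ≠ Y` use `exists_kS`. -/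
theorem onto_of_rad {M Y Z : Subgroup G} [Z.Normal] (le : Z ≤ Y) (ab : ⁅Y, Y⁆ ≤ Z) (c : ⁅Y, M⁆ ≤ Z)
    {w : G} (hw : ∀ y ∈ M, ⁅w, y⁆ ∈ Y)
    (h : ∀ ν : Y →* ℂˣ, Z ≤ kS ν → (∀ y ∈ M, ⁅w, y⁆ ∈ kS ν) → ν = 1) {t : G} (ht : t ∈ Y) :
    ∃ y ∈ M, ⁅w, y⁆ * t⁻¹ ∈ Z := by
  exact lin_onto le ab c hw h ht

end Cfsg.Agent.NDA
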