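import Cfsg.Agent.NDA.CaseA
import Cfsg.Agent.NDA.Lin
import Cfsg.Agent.Char.MinNonab

/-! (S4780, captain helper13). Reduction to `Ny`. -/

set_option autoImplicit false

namespace Cfsg.Agent.NDA

open Subgroup Cfsg.Agent.Char Cfsg.Agent.Palfy
open scoped commutatorElement

variable {G : Type*} [Group G] [Finite G]

/-- a linear character of `N` is invariant or has inertia group `N` -/
theorem St_le_or (nd : ND G) {N : Subgroup G} [N.Normal] (f2 : N.index ∈ cdSet G) (μ : N →* ℂˣ) :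
    St (dual N) μ ≤ N ∨ St (dual N) μ = ⊤ := by
  classical
  have := Fintype.ofFinite G
  obtain ⟨χ, h1, h2⟩ := exists_irr_over N (lin μ).2
  obtain ⟨e, e0, e1, e2⟩ := exists_charDegree_eq_of_over N h1 (lin μ).2 h2
  obtain ⟨⟨d, d1, d2⟩, -⟩ := over_data N ⟨χ, h1⟩ (lin μ) h2
  have k1 := clifford_inner_self N h1 (lin μ).2 h2
  have k2 := inner_restrict_re_le N χ
  rw [k1, e1, h1.inner_self, inertia_lin] at k2
  rw [deg_lin, mul_one] at e2 d1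
  rw [inertia_lin] at e2
  have k3 : e ^ 2 * (St (dual N) μ).index ≤ N.index := by
    have : ((e : ℂ) ^ 2 * ((St (dual N) μ).index : ℂ)) = ((e ^ 2 * (St (dual N) μ).index : ℕ) : ℂ) := by
      push_cast; rfl
    rw [this, Complex.natCast_re, Complex.one_re, mul_one] at k2
    exact_mod_cast k2
  refine or_iff_not_imp_right.2 fun ne => ?_
  have k4 : charDegree χ = N.index := nd _ ⟨⟨χ, h1⟩, rfl⟩ _ f2
    (fun r => ne (index_eq_one.1 (Nat.eq_one_of_mul_eq_one_left (e2.symm.trans r)))) (d1 ▸ d2)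
  have t0 : 0 < (St (dual N) μ).index := Nat.pos_of_ne_zero index_ne_zero_of_finite
  rw [← k4, e2] at k3
  obtain rfl : e = 1 := by
    have := Nat.le_of_mul_le_mul_right k3 t0
    nlinarith
  have le : N ≤ St (dual N) μ := inertia_lin N μ ▸ le_inertia' N (lin μ)
  have k5 := relIndex_mul_index le
  rw [← k4, e2, one_mul, mul_eq_right₀ t0.ne', relIndex_eq_one] at k5
  exact k5

omit [Finite G] in
theorem cm_cm_swap {A : Subgroup G} [hA : A.Normal] (ab : ∀ a ∈ A, ∀ b ∈ A, a * b = b * a)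
    (c : ∀ u g : G, ⁅u, g⁆ ∈ A) (u g : G) {n : G} (hn : n ∈ A) : ⁅u, ⁅g, n⁆⁆ = ⁅g, ⁅u, n⁆⁆ := by
  have h1 := ab _ (c u⁻¹ g⁻¹) n hn
  have h2 : Commute (u * n * u⁻¹)⁻¹ n := ab _ (inv_mem (hA.conj_mem n hn u)) n hn
  have h3 : Commute (g * n * g⁻¹)⁻¹ n := ab _ (inv_mem (hA.conj_mem n hn g)) n hn
  have h4 : Commute (u * n * u⁻¹)⁻¹ (g * n * g⁻¹)⁻¹ :=
    ab _ (inv_mem (hA.conj_mem n hn u)) _ (inv_mem (hA.conj_mem n hn g))
  calc ⁅u, ⁅g, n⁆⁆ = g * u * (⁅u⁻¹, g⁻¹⁆ * n) * ⁅u⁻¹, g⁻¹⁆⁻¹ * (g * u)⁻¹ *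
        ((u * n * u⁻¹)⁻¹ * n * (g * n * g⁻¹)⁻¹) := by simp only [commutatorElement_def]; group
    _ = g * u * n * (g * u)⁻¹ * ((g * n * g⁻¹)⁻¹ * n * (u * n * u⁻¹)⁻¹) := by
        rw [h1, h2.eq, mul_assoc n, h4.eq, ← mul_assoc n, ← h3.eq]; group
    _ = _ := by simp only [commutatorElement_def]; group

theorem cyc_of_fpf {N E Y : Subgroup G} [N.Normal] [E.Normal] [Y.Normal] (ab : commutator G ≤ N)
    (c : ⁅N, E⁆ ≤ Y) (nc : ¬ E ≤ Y) (fp : ∀ g, g ∉ N → ∀ e ∈ E, ⁅g, e⁆ ∈ Y → e ∈ Y) :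
    ∃ a : G, N ⊔ zpowers a = ⊤ := by
  have : (E.map (QuotientGroup.mk' Y)).Normal := Normal.map inferInstance _ (QuotientGroup.mk'_surjective Y)
  let φ : G →* MulAut (E.map (QuotientGroup.mk' Y)) := MulAut.conjNormal.comp (QuotientGroup.mk' Y)
  have k1 : ∀ g ∈ N, φ g = 1 := fun g hg => MulEquiv.ext fun ⟨_, e, he, rfl⟩ => Subtype.ext
    (mul_inv_eq_iff_eq_mul.2 (mk_comm.1 (c (commutator_mem_commutator hg he))))
  have k2 : ∀ g v, φ g v = v → g ∈ N ∨ v = 1 := fun g ⟨_, e, he, rfl⟩ r => or_iff_not_imp_left.2 fun hg =>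
    Subtype.ext ((QuotientGroup.eq_one_iff e).2 (fp g hg e he
      (mk_comm.2 (mul_inv_eq_iff_eq_mul.1 (congrArg Subtype.val r)))))
  obtain ⟨e, he, ne⟩ := SetLike.not_le_iff_exists.1 nc
  have n1 : (⟨_, e, he, rfl⟩ : E.map (QuotientGroup.mk' Y)) ≠ 1 := fun r =>
    ne ((QuotientGroup.eq_one_iff e).1 (congrArg Subtype.val r))
  have := nontrivial_of_ne _ _ n1
  have cy : IsCyclic φ.range := isCyclic_of_fix (by
    rintro _ ⟨a, rfl⟩ _ ⟨b, rfl⟩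
    rw [← commutatorElement_eq_one_iff_mul_comm, ← map_commutatorElement]
    exact k1 _ (ab (commutator_mem_commutator (mem_top a) (mem_top b)))) (by
    rintro _ ⟨a, rfl⟩ v r
    exact (k2 a v r).imp_left (k1 a))
  obtain ⟨⟨_, a, rfl⟩, ha⟩ := cy.exists_generator
  refine ⟨a, eq_top_iff.2 fun g _ => ?_⟩
  obtain ⟨j, hj⟩ := ha ⟨_, g, rfl⟩
  have hj' : φ a ^ j = φ g := congrArg Subtype.val hj
  have := (k2 (g * (a ^ j)⁻¹) _ (by rw [map_mul, map_inv, map_zpow, hj', mul_inv_cancel]; rfl)).resolve_right n1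
  simpa using mul_mem (mem_sup_left (T := zpowers a) this) (mem_sup_right (S := N) (zpow_mem_zpowers a j))

/-- Proof. Take `r`, `N` from the second case of `degree_dichotomy`; `f = |G:N|`. `DD N d → r ∣ d` as `dd` in
`S4781`, so `nf`, `nd`. `E = ⁅⊤,N⁆ ≥ ⁅G',⊤⁆ = G'`, so `E = G'` and `⁅E,⊤⁆ = E`. `nc`: the character of
degree `f` has `N'` in its kernel and is not linear. For `λ : N →* ℂˣ`, `T = St λ`: either `T = ⊤` or
`T = N`: take `χ` over `lin λ`; `|G:T| ∣ χ(1) ∣ f` (`Ov`), so if `T ≠ ⊤` then `χ(1) = f`, and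
`χ(1)² ≤ |G:T| f` (`clifford_inner_self`: `⟨χ_N,χ_N⟩ = e² |G:T| ≤ f`, `inner_restrict_re_le`,
`χ(1) = e |G:T|`), whence `f ≤ |G:T|`, `T = N`. `fpf`: let `g ∉ N`. By `fpf_of_dual` (`X = E`, `Y = N'`) it
suffices to show `W = ⊤`-like: every `e ∈ E` lies in `W = N' ⊔ ⁅E, g⁆`. Every `λ` fixed by `g` is fixed by
`G`, so trivial on `E`; hence every `e ∈ E` is `⁅g,n⁆` mod `N'` (`onto_of_rad` with `M = N`, `Y = E`, `Z = N'`; extend `ν` to `N` by `ext_lin`).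
If `ρ : E →* ℂˣ` is trivial on `N'` and fixed by `g`, then for `u ∈ G`, `e ≡ ⁅g,n⁆`:
`⁅u,⁅g,n⁆⁆ ≡ ⁅g,⁅u,n⁆⁆` mod `N'` (`G / N` abelian acting on `N / N'`), so `ρ ⁅u,e⁆ = 1`, `ρ` is trivial on
`⁅⊤,E⁆ = E`. `cyc`: `G / N` is abelian and semiregular on `E / N' ≠ 1`: `isCyclic_of_fix` for the range of
`G → MulAut (E.map (mk' N'))` (kernel `N`).
Alternatively copy `Deg4.frob_data`, which knows `N` explicitly. -/
theorem exists_ny (nd : ND G) (ne : ¬ commutator G ≤ ⁅commutator G, commutator G⁆)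
    (e : commutator G ≤ ⁅commutator G, ⊤⁆)
    (no : ¬ ∃ (p : ℕ) (K : Subgroup G) (_ : K.Normal), p.Prime ∧ IsPGroup p (G ⧸ K) ∧
      ∃ a b : G ⧸ K, a * b ≠ b * a) :
    ∃ (N : Subgroup G) (_ : N.Normal), Ny N ∧ N.index ∈ cdSet G := by
  obtain ⟨r, N, _, hr, ab, f1, f2, f3, h⟩ := (degree_dichotomy ne).resolve_left no
  have pos : ∀ a ∈ cdSet G, 0 < a := fun a ⟨χ, e⟩ => e ▸ charDegree_irr_pos χ
  have dd : ∀ d, DD N d → d ∈ cdSet G ∧ r ∣ d := by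
    rintro _ ⟨χ, h1, rfl⟩
    obtain ⟨ψ, ⟨e, h2, -⟩, h3, -⟩ := exists_under N χ
    exact ⟨⟨χ, rfl⟩, h2 ▸ ((h ψ).resolve_left fun c => mt h3.1 h1 ((mul_eq_left₀ (pos _ f2).ne').1
      (nd _ f2 _ c f1 (dvd_mul_right _ _)).symm)).mul_left e⟩
  have EG : ⁅(⊤ : Subgroup G), N⁆ ≤ commutator G := commutator_mono le_rfl le_top
  have EE : commutator G ≤ ⁅(⊤ : Subgroup G), ⁅(⊤ : Subgroup G), N⁆⁆ := by
    have := e.trans ((commutator_comm _ _).le.trans (commutator_mono le_rfl ab))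
    exact e.trans ((commutator_comm _ _).le.trans (commutator_mono le_rfl this))
  have GE : commutator G ≤ ⁅(⊤ : Subgroup G), N⁆ := EE.trans (commutator_mono le_rfl EN)
  have nc : ¬ ⁅(⊤ : Subgroup G), N⁆ ≤ ⁅N, N⁆ := fun c => by
    obtain ⟨χ, e⟩ := id f2
    exact f1 (e.symm.trans ((commutator_le_charKer_iff χ).1 ((GE.trans c).trans
      (by_contra fun n => f3 (dd _ ⟨χ, n, e⟩).2))))
  have fp : ∀ g, g ∉ N → ∀ e ∈ ⁅(⊤ : Subgroup G), N⁆, ⁅g, e⁆ ∈ ⁅N, N⁆ → e ∈ ⁅N, N⁆ := fun g hg => by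
    refine fpf_of_dual gE (commutator_mono EN EN) fun ρ h1 h2 => le_kS_iff.1 (EG.trans (EE.trans
      (commutator_le.2 fun u _ t ht => ?_)))
    obtain ⟨n, hn, k⟩ := onto_of_rad (M := N) (w := g) gE (commutator_mono EN EN) (commutator_mono EN le_rfl)
      (fun y hy => commutator_mem_commutator (mem_top g) hy) (fun ν k1 k2 => by
        obtain ⟨ξ, hξ⟩ := ext_lin EN ν k1
        have k3 := (St_le_or nd f2 ξ).resolve_left fun c => hg (c (mem_St_iff_kS.2 fun y hy =>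
          (mem_kS (cm_mem g hy)).2 ((hξ ⟨_, commutator_mem_commutator (mem_top g) hy⟩).trans
            ((mem_kS _).1 (k2 y hy)))))
        have k4 : ⁅(⊤ : Subgroup G), N⁆ ≤ kS ξ := commutator_le.2 fun u _ y hy =>
          mem_St_iff_kS.1 (k3.ge (mem_top u)) y hy
        exact MonoidHom.ext fun y => (hξ y).symm.trans ((mem_kS _).1 (k4 y.2))) ht
    have k5 := mem_St_iff_kS.1 h2 _ (commutator_mem_commutator (mem_top u) hn)
    refine (mul_mem_cancel_left (inv_mem k5)).1 (h1 (QuotientGroup.eq.1 ?_))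
    have : (N.map (QuotientGroup.mk' ⁅N, N⁆)).Normal := Normal.map inferInstance _ (QuotientGroup.mk'_surjective _)
    have k6 : QuotientGroup.mk' ⁅N, N⁆ ⁅g, n⁆ = QuotientGroup.mk' ⁅N, N⁆ t := by
      rw [← mul_inv_eq_one, ← map_inv, ← map_mul]
      exact (QuotientGroup.eq_one_iff _).2 k
    change QuotientGroup.mk' ⁅N, N⁆ _ = QuotientGroup.mk' ⁅N, N⁆ _
    rw [map_commutatorElement _ u t, ← k6]
    simp only [map_commutatorElement]
    refine cm_cm_swap (A := N.map (QuotientGroup.mk' ⁅N, N⁆)) ?_ (fun a b => ?_) _ _ ⟨n, hn, rfl⟩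
    · rintro _ ⟨a, ha, rfl⟩ _ ⟨b, hb, rfl⟩
      exact mk_comm.1 (commutator_mem_commutator ha hb)
    · obtain ⟨a, rfl⟩ := QuotientGroup.mk'_surjective _ a
      obtain ⟨b, rfl⟩ := QuotientGroup.mk'_surjective _ b
      exact ⟨_, ab (commutator_mem_commutator (mem_top a) (mem_top b)), map_commutatorElement _ a b⟩
  exact ⟨N, inferInstance, ⟨cyc_of_fpf ab (commutator_mono le_rfl EN) nc fp, fp, nc,
    fun d hd c => f3 ((nd _ f2 _ (dd d hd).1 f1 c).symm ▸ (dd d hd).2),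
    fun a b ha hb => nd a (dd a ha).1 b (dd b hb).1 fun e => hr.ne_one (Nat.dvd_one.1 (e ▸ (dd a ha).2))⟩, f2⟩

end Cfsg.Agent.NDA
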