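import Cfsg.Agent.NDA.Deg
import Cfsg.Agent.NDA.Lin

/-! Nonlinear characters of `N` vanish off `D = CC N`. -/

set_option autoImplicit false

namespace Cfsg.Agent.NDA.Ny

open Subgroup Cfsg.Agent.Char Cfsg.Agent.Palfy
open scoped commutatorElement

variable {G : Type*} [Group G] [Finite G] {N : Subgroup G} [N.Normal] {x : G} {p k d a b : ℕ}
  (h : Ny N)
include h

theorem le_kS_del {ν : N →* ℂˣ} (hν : CC N ≤ kS ν) (g : G) : CC N ≤ kS (dual N g ν * ν⁻¹) := fun y hy =>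
  (mem_kS (h.CC_le hy)).2 (by
    rw [MonoidHom.mul_apply, MonoidHom.inv_apply, dual_apply, (mem_kS _).1 (hν hy),
      (mem_kS _).1 (hν (Normal.conj_mem' inferInstance y hy g)), mul_inv_cancel])

/-- if `g ∉ N` fixes `ψ` and `ψ ν`, with `ν` trivial on `D`, then `ψ ν = ψ` -/
theorem uniq {ψ : N → ℂ} {ν : N →* ℂˣ} (hν : CC N ≤ kS ν) {g : G} (hg : g ∉ N)
    (h1 : g ∈ inertia N ψ) (h2 : g ∈ inertia N fun n => ψ n * ν n) (n : N) : ψ n * ν n = ψ n := by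
  have inj : ∀ u v : N →* ℂˣ, CC N ≤ kS u → CC N ≤ kS v → dual N g⁻¹ u * u⁻¹ = dual N g⁻¹ v * v⁻¹ →
      u = v := fun u v hu hv e => mul_inv_eq_one.1 (eq_one_of_fpf_mod h.CC_le (c := g⁻¹)
    (fun x => h.p2 (mt inv_mem_iff.1 hg)) (fun y hy => (mem_kS (h.CC_le hy)).2 (by
      rw [MonoidHom.mul_apply, MonoidHom.inv_apply, (mem_kS _).1 (hu hy), (mem_kS _).1 (hv hy),
        mul_inv_cancel])) (mem_St.2 (by
      rw [← div_eq_mul_inv, map_div, div_eq_div_iff_div_eq_div,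
        div_eq_mul_inv, div_eq_mul_inv, e])))
  let U := {u : N →* ℂˣ // CC N ≤ kS u ∧ ∀ n, ψ n ≠ 0 → u n = 1}
  have k : ∀ u : N →* ℂˣ, (∀ n, ψ n ≠ 0 → u ⟨g * n * g⁻¹, Normal.conj_mem inferInstance _ n.2 g⟩ = u n) →
      ∀ n, ψ n ≠ 0 → (dual N g⁻¹ u * u⁻¹) n = 1 := fun u hu n hn => by
    simp only [MonoidHom.mul_apply, MonoidHom.inv_apply, dual_apply, inv_inv, hu n hn, mul_inv_cancel]
  obtain ⟨u, hu⟩ := Finite.surjective_of_injective (f := fun u : U => (⟨_, h.le_kS_del u.2.1 g⁻¹,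
    k u.1 fun n hn => by rw [u.2.2 n hn, u.2.2 _ ((mem_inertia' _).1 h1 n ▸ hn)]⟩ : U))
    (fun u v e => Subtype.ext (inj _ _ u.2.1 v.2.1 (congrArg Subtype.val e))) ⟨_, h.le_kS_del hν g⁻¹,
      k ν fun n hn => by
        have := (mem_inertia' _).1 h2 n
        rw [(mem_inertia' _).1 h1 n] at this
        exact Units.ext (mul_left_cancel₀ hn this)⟩
  by_cases c : ψ n = 0
  · rw [c, zero_mul]
  · rw [← inj _ _ u.2.1 hν (congrArg Subtype.val hu), u.2.2 n c, Units.val_one, mul_one]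

theorem vanish {x : N} (hx : x.1 ∉ CC N) (ψ : IrrCharacter N) (ne : charDegree ψ.1 ≠ 1) :
    ψ.1 x = 0 := by_contra fun c => by
  obtain ⟨ν, hν, nx⟩ := exists_kS h.CC_le le_CC x.2 hx
  obtain ⟨y, h1, h2⟩ := SetLike.not_le_iff_exists.1 (h.inv ne)
  obtain ⟨z, h3, h4⟩ := SetLike.not_le_iff_exists.1 (h.inv (ψ := ⟨_, ψ.2.mul_linear ν⟩) (deg_tw ne ν))
  let ξ := dual N z⁻¹ ν⁻¹ * ν⁻¹⁻¹
  have e : ∀ n, ψ.1 n * ξ n = ψ.1 ⟨z * n * z⁻¹, Normal.conj_mem inferInstance _ n.2 z⟩ := fun n => by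
    have := (mem_inertia' _).1 h3 n
    simp only [ξ, MonoidHom.mul_apply, MonoidHom.inv_apply, dual_apply, inv_inv, Units.val_mul,
      Units.val_inv_eq_inv_val] at this ⊢
    rw [mul_comm _ (ν n : ℂ), ← mul_assoc, ← this, mul_inv_cancel_right₀ (Units.ne_zero _)]
  have m : z * y * z⁻¹ ∈ inertia N ψ.1 := by
    have := mul_mem (le_inertia' _ ψ (h.ab (commutator_mem_commutator (mem_top z) (mem_top y)))) h1
    simpa [commutatorElement_def] using this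
  have h5 : z ∈ inertia N ψ.1 := (mem_inertia' _).2 fun n => by
    rw [← e]
    refine h.uniq (h.le_kS_del (fun w hw => (mem_kS (h.CC_le hw)).2 (by
      rw [MonoidHom.inv_apply, (mem_kS _).1 (hν hw), inv_one])) _) h2 h1 ((mem_inertia' _).2 fun n => ?_) n
    rw [e, e, ← (mem_inertia' _).1 m ⟨z * n * z⁻¹, _⟩]
    exact congrArg _ (Subtype.ext (by simp [mul_assoc]))
  exact nx (coe_mem_kS.2 (Units.ext ((mul_eq_left₀ c).1 (h.uniq hν h4 h5 h3 x))))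

theorem cam (hx : x ∈ N) (nx : x ∉ CC N) {w : G} (hw : w ∈ ⁅N, N⁆) : ∃ y ∈ N, ⁅x, y⁆ = w := by
  obtain ⟨c, e⟩ := cam_of_vanish (h.vanish (x := ⟨x⁻¹, inv_mem hx⟩) (mt inv_mem_iff.1 nx))
    ⟨w, commutator_le_self N hw⟩ hw
  exact ⟨c, c.2, by simpa only [commutatorElement_def, mul_assoc, coe_mul, coe_inv] using
    (eq_inv_mul_iff_mul_eq.1 (congrArg Subtype.val e))⟩

theorem cfpf (hx : x ∈ N) (nx : x ∉ CC N) {m : G} (hm : m ∈ ⁅N, N⁆) (ha : x ^ a = 1)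
    (hb : m ^ b = 1) (c : a.Coprime b) (e : x * m = m * x) : m = 1 :=
  (cam_of_vanish (h.vanish (x := ⟨x, hx⟩) nx)).fpf hm ha hb c e

theorem rdvd (hp : p.Prime) (hx : x ∈ N) (nx : x ∉ CC N) (e : x ^ p ^ k = 1) {ψ : IrrCharacter N}
    (ne : charDegree ψ.1 ≠ 1) : p ∣ charDegree ψ.1 := by_contra fun c =>
  ψ.2.isCharacter.ne_zero_of_not_dvd hp (coe_charDegree_irr ψ).symm c (k := k)
    (g := ⟨x, hx⟩) (Subtype.ext e) (h.vanish nx ψ ne)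

theorem exL (hp : p.Prime) (hd : p ∣ (CC N).relIndex N) : ∃ (x : G) (k : ℕ) (L : Subgroup G)
    (_ : L.Normal), x ∈ N ∧ x ∉ CC N ∧ x ^ p ^ k = 1 ∧ L ≤ N ∧ ¬ p ∣ Nat.card L ∧
      IsPGroup p (N.map (QuotientGroup.mk' L)) := by
  have := Fact.mk hp
  obtain ⟨x, h1, h2⟩ := SetLike.not_le_iff_exists.1 (prime_dvd_index_iff.1 hd default)
  obtain ⟨k, hk⟩ := (default : Sylow p N).2 ⟨x, h1⟩
  replace hk : (x : G) ^ p ^ k = 1 := congrArg (fun y => (y.1 : G)) hk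
  obtain ⟨L, i, l⟩ := exists_normal_compl N (hasNormalPComplement_of_dvd_charDegree
    fun ψ hψ => h.rdvd hp x.2 h2 hk hψ)
  exact ⟨x, k, L, i, x.2, h2, hk, l⟩

theorem L_le {L : Subgroup G} [L.Normal] (le : L ≤ N) (ne : ¬ ⁅N, N⁆ ≤ L) : L ≤ CC N :=
  fun y hy => by_contra fun c => ne fun w hw => by
    obtain ⟨z, -, rfl⟩ := h.cam (le hy) c hw
    exact commutatorElement_inv z y ▸ inv_mem (cm_mem z hy)

theorem b1 (hp : p.Prime) (hx : x ∈ N) (nx : x ∉ CC N) (e : x ^ p ^ k = 1) {L : Subgroup G} [L.Normal]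
    (le : L ≤ N) (pL : IsPGroup p (N.map (QuotientGroup.mk' L))) (i : L ⊓ ⁅N, N⁆ = ⊥) :
    ∃ a, B1 N p a := by
  have := Fact.mk hp
  obtain ⟨a, -, h1, h2⟩ := exists_gen_of h.cyc (h.pf hp hx nx e) ⊤
  have pw : ∀ t ∈ N, ∃ j, t ^ p ^ j ∈ L := fun t ht => (pL ⟨_, t, ht, rfl⟩).imp fun j hj =>
    (QuotientGroup.eq_one_iff _).1 (congrArg Subtype.val hj)
  exact ⟨a, h, hp, top_le_iff.1 h2, h1, fun w => (pw w (commutator_le_self N w.2)).imp fun j hj =>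
    Subtype.ext (i.le ⟨hj, pow_mem w.2 _⟩), fun t ht => (pw t ht).imp fun j hj n hn =>
      commutatorElement_eq_one_iff_mul_comm.1 (i.le ⟨cm_mem n hj, commutator_mem_commutator hn (le hj)⟩)⟩

end Cfsg.Agent.NDA.Ny
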